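import Mathlib
import Cfsg.Prelude.Def_Transfer
import Cfsg.Prelude.Def_Solvable
import Cfsg.Agent.Lib.Cores
import Cfsg.Agent.H352.L43.GLThree
import Cfsg.Agent.Lib.MatDec
import Cfsg.Agent.S0249
import Cfsg.Agent.GTwoFour.Tools
import Cfsg.Agent.Lib.CoprimeHyperplane
import Cfsg.Agent.S0051
import Cfsg.Agent.S0243
import Cfsg.Agent.FastGrp
import Cfsg.Agent.Prune
set_option linter.all false

section
prune_inst 0x7ff8bcfb8ff88ddfffff7e7ffffddffc18d0dfffffdff94bffe1ebff8fdf03670dc5f3ad8de450ff9e96c29410a87803fd7ecabfea6bdc7ffffd5ff45ffbee1fe5ffbd0c5194a8341ffe6ffefbf077ce7f3fffffffffffffffffffffffffffffffffffffffff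

-- part: H352/L43/Local
section
prune_inst 0x14000100060000000000000020001c12a0000000000b00000000000004000a200080262000800004020200010001000000440010000000000000000000000000000810040100a000000000001082000000000000000000000000000000000000000000000
set_option linter.all false
open scoped Cfsg.Agent.FastGrp

-- part: H352/L43/Lin
section
/-!
# Linear algebra for a 3-local recognition of `PSL(4,3)` (helper352)

`M` is an additive group of exponent `3` with operators `I, J, U` satisfying the relations of `SL(2,3)`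
(`I² = J² = -1`, `IJ = -JI`, `U I = J U`, `U J = I J U`, `U³ = 1`) and a nondegenerate alternating form.
If there is an invariant subgroup `W` of order `9` with `M/W` of order `9`, then `U = 1 + I + J + IJ`.
-/

set_option autoImplicit false

namespace Cfsg.Agent.H352.L43

/-- Elements of a ring satisfying the relations of `SL(2,3)`. -/
structure Ops {R : Type*} [Ring R] (I J U : R) : Prop where
  three : (3 : R) = 0
  II : I * I = -1
  JJ : J * J = -1
  JI : J * I = -(I * J)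
  UI : U * I = J * U
  UJ : U * J = I * J * U
  U3 : U * U * U = 1

namespace Ops

variable {R : Type*} [Ring R] {I J U : R}

theorem add3 (h : Ops I J U) (x : R) : x + x + x = 0 := by
  have : x + x + x = 3 * x := by noncomm_ring
  rw [this, h.three, zero_mul]

/-- `s = I + J + IJ`. -/
def s (I J : R) : R := I + J + I * J

theorem ss (h : Ops I J U) : s I J * s I J = 0 := by
  have h1 := h.II
  have h2 := h.JJ
  have h3 := h.JI
  have h4 : I * (I * J) = -J := by rw [← mul_assoc, h1]; simp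
  have h5 : J * (I * J) = I := by rw [← mul_assoc, h3, neg_mul, mul_assoc, h2]; simp
  have h6 : I * J * I = J := by rw [mul_assoc, h3, mul_neg, h4]; simp
  have h7 : I * J * J = -I := by rw [mul_assoc, h2]; simp
  have h8 : I * J * (I * J) = -1 := by rw [mul_assoc, h5, h1]
  have h9 := h.add3 (-1)
  unfold s
  simp only [add_mul, mul_add, h1, h2, h3, h4, h5, h6, h7, h8]
  calc _ = (-1 : R) + -1 + -1 := by abel
    _ = 0 := h9

theorem Us (h : Ops I J U) : U * s I J = s I J * U := by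
  unfold s
  have h1 : U * (I * J) = I * U := by
    rw [← mul_assoc, h.UI, mul_assoc, h.UJ, ← mul_assoc, ← mul_assoc, h.JI]
    rw [neg_mul, mul_assoc I J J, h.JJ]; simp
  simp only [mul_add, add_mul, h.UI, h.UJ, h1]
  abel

/-- `ψ = U (1 - s)`. -/
def psi (I J U : R) : R := U * (1 - s I J)

theorem psiI (h : Ops I J U) : psi I J U * I = I * psi I J U := by
  have h4 : I * (I * J) = -J := by rw [← mul_assoc, h.II]; simp
  have h6 : I * J * I = J := by rw [mul_assoc, h.JI, mul_neg, h4]; simp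
  have e1 : (1 - s I J) * I = I + 1 + I * J - J := by
    unfold s; simp only [sub_mul, add_mul, one_mul, h.II, h.JI, h6]; abel
  have h10 : U * (I * J) = I * U := by
    rw [← mul_assoc, h.UI, mul_assoc, h.UJ, ← mul_assoc, ← mul_assoc, h.JI]
    rw [neg_mul, mul_assoc I J J, h.JJ]; simp
  have e2 : I * psi I J U = I * U - I * (s I J * U) := by
    unfold psi; rw [← mul_assoc, mul_assoc, mul_sub, mul_one, h.Us]; noncomm_ring
  rw [e2]
  unfold psi
  rw [mul_assoc, e1]
  have e3 : I * (s I J * U) = - U + I * J * U - J * U := by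
    unfold s
    simp only [add_mul, mul_add]
    rw [← mul_assoc, ← mul_assoc, ← mul_assoc I (I * J), h4, h.II]; noncomm_ring
  rw [e3]
  simp only [mul_add, mul_sub, mul_one, h.UI, h.UJ, h10]
  have := h.add3 U
  abel

theorem psiJ (h : Ops I J U) : psi I J U * J = J * psi I J U := by
  have h5 : J * (I * J) = I := by rw [← mul_assoc, h.JI, neg_mul, mul_assoc, h.JJ]; simp
  have h7 : I * J * J = -I := by rw [mul_assoc, h.JJ]; simp
  have e1 : (1 - s I J) * J = J - I * J + 1 + I := by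
    unfold s; simp only [sub_mul, add_mul, one_mul, h.JJ, h7]; abel
  have h10 : U * (I * J) = I * U := by
    rw [← mul_assoc, h.UI, mul_assoc, h.UJ, ← mul_assoc, ← mul_assoc, h.JI]
    rw [neg_mul, mul_assoc I J J, h.JJ]; simp
  have e2 : J * psi I J U = J * U - J * (s I J * U) := by
    unfold psi; rw [← mul_assoc, mul_assoc, mul_sub, mul_one, h.Us]; noncomm_ring
  rw [e2]
  unfold psi
  rw [mul_assoc, e1]
  have e3 : J * (s I J * U) = - (I * J * U) - U + I * U := by
    unfold s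
    simp only [add_mul, mul_add]
    rw [← mul_assoc, ← mul_assoc, ← mul_assoc J (I * J), h5, h.JJ, h.JI]; noncomm_ring
  rw [e3]
  simp only [mul_add, mul_sub, mul_one, h.UI, h.UJ, h10]
  abel

theorem psi3 (h : Ops I J U) : psi I J U * psi I J U * psi I J U = 1 := by
  have hc : (1 - s I J) * U = U * (1 - s I J) := by rw [sub_mul, mul_sub, h.Us]; simp
  have h1 : (1 - s I J) * (1 - s I J) * (1 - s I J) = 1 := by
    have h2 : (1 - s I J) * (1 - s I J) = 1 - s I J - s I J := by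
      have h3 : (1 - s I J) * (1 - s I J) = 1 - s I J - s I J + s I J * s I J := by noncomm_ring
      rw [h3, h.ss, add_zero]
    rw [h2]
    have := h.add3 (s I J)
    calc (1 - s I J - s I J) * (1 - s I J)
        = 1 - (s I J + s I J + s I J) + (s I J * s I J + s I J * s I J) := by noncomm_ring
      _ = 1 := by rw [this, h.ss]; simp
  unfold psi
  calc U * (1 - s I J) * (U * (1 - s I J)) * (U * (1 - s I J))
      = U * ((1 - s I J) * U) * (1 - s I J) * (U * (1 - s I J)) := by noncomm_ring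
    _ = U * (U * (1 - s I J)) * (1 - s I J) * (U * (1 - s I J)) := by rw [hc]
    _ = U * U * (1 - s I J) * ((1 - s I J) * U) * (1 - s I J) := by noncomm_ring
    _ = U * U * (1 - s I J) * (U * (1 - s I J)) * (1 - s I J) := by rw [hc]
    _ = U * U * ((1 - s I J) * U) * (1 - s I J) * (1 - s I J) := by noncomm_ring
    _ = U * U * (U * (1 - s I J)) * (1 - s I J) * (1 - s I J) := by rw [hc]
    _ = (U * U * U) * ((1 - s I J) * (1 - s I J) * (1 - s I J)) := by noncomm_ring
    _ = 1 := by rw [h.U3, h1, one_mul]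

/-- `N = ψ - 1` -/
def N (I J U : R) : R := psi I J U - 1

theorem NI (h : Ops I J U) : N I J U * I = I * N I J U := by
  unfold N; rw [sub_mul, mul_sub, h.psiI]; simp

theorem NJ (h : Ops I J U) : N I J U * J = J * N I J U := by
  unfold N; rw [sub_mul, mul_sub, h.psiJ]; simp

theorem N3 (h : Ops I J U) : N I J U * N I J U * N I J U = 0 := by
  have h1 := h.psi3
  have h2 := h.add3 (psi I J U * psi I J U)
  have h3 := h.add3 (psi I J U)
  unfold N
  calc (psi I J U - 1) * (psi I J U - 1) * (psi I J U - 1)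
      = psi I J U * psi I J U * psi I J U
        - (psi I J U * psi I J U + psi I J U * psi I J U + psi I J U * psi I J U)
        + (psi I J U + psi I J U + psi I J U) - 1 := by noncomm_ring
    _ = 0 := by rw [h1, h2, h3]; simp

/-- if `N = 0` then `U = 1 + s` -/
theorem U_eq (h : Ops I J U) (hN : N I J U = 0) : U = 1 + s I J := by
  have h1 : U * (1 - s I J) = 1 := by
    have : psi I J U - 1 = 0 := hN
    exact sub_eq_zero.1 this
  have h2 : (1 - s I J) * (1 + s I J) = 1 := by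
    have h3 : (1 - s I J) * (1 + s I J) = 1 - s I J * s I J := by noncomm_ring
    rw [h3, h.ss, sub_zero]
  calc U = U * ((1 - s I J) * (1 + s I J)) := by rw [h2, mul_one]
    _ = (U * (1 - s I J)) * (1 + s I J) := by rw [mul_assoc]
    _ = 1 + s I J := by rw [h1, one_mul]

end Ops

open Ops


section Mod

variable {M : Type*} [AddCommGroup M] {I J U : AddMonoid.End M}

theorem Ops.three_smul (h : Ops I J U) (x : M) : x + x + x = 0 := by
  have h1 := h.add3 1
  have h2 := congrArg (fun f : AddMonoid.End M => f x) h1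
  exact h2

theorem Ops.II' (h : Ops I J U) (x : M) : I (I x) = -x := by
  have h2 := congrArg (fun f : AddMonoid.End M => f x) h.II
  exact h2

theorem Ops.JJ' (h : Ops I J U) (x : M) : J (J x) = -x := by
  have h2 := congrArg (fun f : AddMonoid.End M => f x) h.JJ
  exact h2

theorem Ops.JI' (h : Ops I J U) (x : M) : J (I x) = -I (J x) := by
  have h2 := congrArg (fun f : AddMonoid.End M => f x) h.JI
  exact h2

/-- No section of order `3`. -/
theorem Ops.no_three (h : Ops I J U) {W B : AddSubgroup M} (hW : ∀ x ∈ W, I x ∈ W)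
    (hB : ∀ x ∈ B, I x ∈ B) : W.relIndex B ≠ 3 := by
  intro h3
  have hp : Fact (Nat.Prime 3) := ⟨Nat.prime_three⟩
  have hc : Nat.card (↥B ⧸ W.addSubgroupOf B) = 3 := h3
  obtain ⟨x, hx, hxW⟩ : ∃ x ∈ B, x ∉ W := by
    by_contra hcon
    push Not at hcon
    have : W.relIndex B = 1 := AddSubgroup.relIndex_eq_one.2 hcon
    omega
  have hmk : ((⟨x, hx⟩ : ↥B) : ↥B ⧸ W.addSubgroupOf B) ≠ 0 := by
    intro h0
    rw [QuotientAddGroup.eq_zero_iff] at h0
    exact hxW h0
  have htop := zmultiples_eq_top_of_prime_card hc hmk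
  have hm : ((⟨I x, hB x hx⟩ : ↥B) : ↥B ⧸ W.addSubgroupOf B) ∈
      AddSubgroup.zmultiples ((⟨x, hx⟩ : ↥B) : ↥B ⧸ W.addSubgroupOf B) := by rw [htop]; trivial
  obtain ⟨n, hn⟩ := AddSubgroup.mem_zmultiples_iff.1 hm
  have h1 : I x - n • x ∈ W := by
    have h2 : ((n • (⟨x, hx⟩ : ↥B) : ↥B) : ↥B ⧸ W.addSubgroupOf B) =
        ((⟨I x, hB x hx⟩ : ↥B) : ↥B ⧸ W.addSubgroupOf B) := by
      rw [← hn]; rfl
    rw [QuotientAddGroup.eq] at h2
    have h3 : -(n • x) + I x ∈ W := h2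
    rwa [sub_eq_neg_add]
  have h2 := hW _ h1
  rw [map_sub, map_zsmul, h.II'] at h2
  have h4 : (n * n + 1) • x ∈ W := by
    have h5 := W.add_mem h2 (W.zsmul_mem h1 n)
    have h6 := W.neg_mem h5
    convert h6 using 1
    rw [zsmul_sub, smul_smul, add_smul, one_smul]
    abel
  have h3x : (3 : ℤ) • x = 0 := by
    have := h.three_smul x
    rw [← this]; abel
  have key : ∀ k : ℤ, (3 * k) • x = 0 := fun k => by rw [mul_comm, mul_smul, h3x, smul_zero]
  have hn3 : n % 3 = 0 ∨ n % 3 = 1 ∨ n % 3 = 2 := by omega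
  rcases hn3 with h0 | h0 | h0
  · obtain ⟨k, hk⟩ : ∃ k, n = 3 * k := ⟨n / 3, by omega⟩
    have : (n * n + 1) • x = x := by
      have : n * n + 1 = 3 * (3 * k * k) + 1 := by rw [hk]; ring
      rw [this, add_smul, key, zero_add, one_smul]
    rw [this] at h4; exact hxW h4
  · obtain ⟨k, hk⟩ : ∃ k, n = 3 * k + 1 := ⟨n / 3, by omega⟩
    have : (n * n + 1) • x = -x := by
      have : n * n + 1 = 3 * (3 * k * k + 2 * k + 1) + (-1) := by rw [hk]; ring
      rw [this, add_smul, key, zero_add, neg_smul, one_smul]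
    rw [this] at h4; exact hxW (by simpa using W.neg_mem h4)
  · obtain ⟨k, hk⟩ : ∃ k, n = 3 * k + 2 := ⟨n / 3, by omega⟩
    have : (n * n + 1) • x = -x := by
      have : n * n + 1 = 3 * (3 * k * k + 4 * k + 2) + (-1) := by rw [hk]; ring
      rw [this, add_smul, key, zero_add, neg_smul, one_smul]
    rw [this] at h4; exact hxW (by simpa using W.neg_mem h4)

end Mod



section Form

variable {M : Type*} [AddCommGroup M] {I J U : AddMonoid.End M}
variable {A : Type*} [AddCommGroup A]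

/-- an invariant nondegenerate alternating form -/
structure Form (I J U : AddMonoid.End M) (f : M →+ M →+ A) : Prop where
  two : ∀ a : A, a + a = 0 → a = 0
  alt : ∀ x, f x x = 0
  nd : ∀ x, (∀ y, f x y = 0) → x = 0
  fI : ∀ x y, f (I x) (I y) = f x y
  fJ : ∀ x y, f (J x) (J y) = f x y
  fU : ∀ x y, f (U x) (U y) = f x y

variable {f : M →+ M →+ A}

theorem Form.skew (F : Form I J U f) (x y : M) : f x y = - f y x := by
  have h := F.alt (x + y)
  simp only [map_add, AddMonoidHom.add_apply, F.alt, zero_add, add_zero] at h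
  exact eq_neg_of_add_eq_zero_left (by rw [add_comm]; exact h)

theorem Form.adjI (h : Ops I J U) (F : Form I J U f) (x y : M) : f (I x) y = - f x (I y) := by
  have h1 := F.fI (I x) y
  rw [h.II', map_neg, AddMonoidHom.neg_apply] at h1
  exact h1.symm

theorem Form.adjJ (h : Ops I J U) (F : Form I J U f) (x y : M) : f (J x) y = - f x (J y) := by
  have h1 := F.fJ (J x) y
  rw [h.JJ', map_neg, AddMonoidHom.neg_apply] at h1
  exact h1.symm

theorem Form.adjIJ (h : Ops I J U) (F : Form I J U f) (x y : M) : f (I (J x)) y = - f x (I (J y)) := by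
  rw [F.adjI h, F.adjJ h, h.JI', map_neg, neg_neg]

theorem s_apply (I J : AddMonoid.End M) (x : M) : s I J x = I x + J x + I (J x) := rfl

theorem psi_apply (x : M) : psi I J U x = U (x - s I J x) := rfl

theorem N_apply (x : M) : N I J U x = psi I J U x - x := rfl

theorem Form.adjs (h : Ops I J U) (F : Form I J U f) (x y : M) : f (s I J x) y = - f x (s I J y) := by
  rw [s_apply, map_add, map_add, AddMonoidHom.add_apply, AddMonoidHom.add_apply, F.adjIJ h, F.adjI h, F.adjJ h,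
    s_apply, map_add, map_add]
  abel

theorem Ops.ss' (h : Ops I J U) (x : M) : s I J (s I J x) = 0 := by
  have h2 := congrArg (fun f : AddMonoid.End M => f x) h.ss
  exact h2

theorem Ops.NI' (h : Ops I J U) (x : M) : N I J U (I x) = I (N I J U x) := by
  have h2 := congrArg (fun f : AddMonoid.End M => f x) h.NI
  exact h2

theorem Ops.NJ' (h : Ops I J U) (x : M) : N I J U (J x) = J (N I J U x) := by
  have h2 := congrArg (fun f : AddMonoid.End M => f x) h.NJ
  exact h2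

theorem Ops.N3' (h : Ops I J U) (x : M) : N I J U (N I J U (N I J U x)) = 0 := by
  have h2 := congrArg (fun f : AddMonoid.End M => f x) h.N3
  exact h2

theorem Form.fpsi (h : Ops I J U) (F : Form I J U f) (x y : M) :
    f (psi I J U x) (psi I J U y) = f x y := by
  rw [psi_apply, psi_apply, F.fU]
  simp only [map_sub, AddMonoidHom.sub_apply, F.adjs h, h.ss', map_zero]
  abel

end Form

section Main

variable {M : Type*} [AddCommGroup M] {I J U : AddMonoid.End M}
variable {A : Type*} [AddCommGroup A]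
variable {f : M →+ M →+ A}

theorem card_mul_relIndex' {W B : AddSubgroup M} (h : W ≤ B) :
    Nat.card ↥W * W.relIndex B = Nat.card ↥B := by
  have h1 := AddSubgroup.relIndex_mul_relIndex (⊥ : AddSubgroup M) W B bot_le h
  rwa [AddSubgroup.relIndex_bot_left, AddSubgroup.relIndex_bot_left] at h1

theorem eq_nine {n : ℕ} (h : n ∣ 9) (h1 : n ≠ 1) (h3 : n ≠ 3) : n = 9 := by
  have h2 := Nat.le_of_dvd (by norm_num) h
  interval_cases n <;> omega

/-- `N` vanishes on `W` -/
theorem Ops.N_W (h : Ops I J U) [Finite M] {W : AddSubgroup M}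
    (hI : ∀ x ∈ W, I x ∈ W) (hJ : ∀ x ∈ W, J x ∈ W) (hU : ∀ x ∈ W, U x ∈ W)
    (hcW : Nat.card ↥W = 9) : ∀ x ∈ W, N I J U x = 0 := by
  have hN : ∀ x ∈ W, N I J U x ∈ W := by
    intro x hx
    rw [N_apply, psi_apply]
    apply W.sub_mem _ hx
    apply hU
    apply W.sub_mem hx
    rw [s_apply]
    exact W.add_mem (W.add_mem (hI x hx) (hJ x hx)) (hI _ (hJ x hx))
  let K1 : AddSubgroup M := AddMonoidHom.ker (N (R := AddMonoid.End M) I J U) ⊓ W
  have hK1I : ∀ x ∈ K1, I x ∈ K1 := by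
    intro x hx
    refine ⟨?_, hI x hx.2⟩
    have h1 : N I J U x = 0 := hx.1
    have : N I J U (I x) = 0 := by rw [h.NI', h1, map_zero]
    exact this
  have h3 : Nat.card ↥K1 ≠ 3 := by
    have := h.no_three (W := ⊥) (B := K1) (by simp only [_root_.AddSubgroup.mem_bot, _root_.forall_eq, _root_.map_zero]) hK1I
    rwa [AddSubgroup.relIndex_bot_left] at this
  have hdvd : Nat.card ↥K1 ∣ 9 := by
    rw [← hcW]; exact AddSubgroup.card_dvd_of_le inf_le_right
  have hne1 : Nat.card ↥K1 ≠ 1 := by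
    intro h1
    have hbot : K1 = ⊥ := AddSubgroup.eq_bot_of_card_eq _ h1
    obtain ⟨w, hw, hw0⟩ : ∃ w ∈ W, w ≠ 0 := by
      by_contra hcon
      push Not at hcon
      have : W = ⊥ := by
        rw [eq_bot_iff]; intro x hx; exact hcon x hx
      rw [this] at hcW
      simp at hcW
    have key : ∀ x ∈ W, N I J U x = 0 → x = 0 := by
      intro x hx hx0
      have : x ∈ K1 := ⟨hx0, hx⟩
      rw [hbot] at this
      exact this
    exact hw0 (key w hw (key _ (hN _ hw) (key _ (hN _ (hN _ hw)) (h.N3' w))))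
  have h9 : Nat.card ↥K1 = 9 := by
    exact eq_nine hdvd hne1 h3
  have hEq : K1 = W := AddSubgroup.eq_of_le_of_card_ge inf_le_right (by rw [h9, hcW])
  intro x hx
  rw [← hEq] at hx
  exact hx.1

/-- `N` maps `M` into `W` -/
theorem Ops.N_M (h : Ops I J U) [Finite M] {W : AddSubgroup M}
    (hI : ∀ x ∈ W, I x ∈ W) (hJ : ∀ x ∈ W, J x ∈ W) (hU : ∀ x ∈ W, U x ∈ W)
    (hcW : Nat.card ↥W = 9) (hcM : Nat.card M = 81) : ∀ x, N I J U x ∈ W := by
  let K2 : AddSubgroup M := AddSubgroup.comap (N (R := AddMonoid.End M) I J U) W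
  have hWK : W ≤ K2 := by
    intro x hx
    have := h.N_W hI hJ hU hcW x hx
    show N I J U x ∈ W
    rw [this]; exact W.zero_mem
  have hK2I : ∀ x ∈ K2, I x ∈ K2 := by
    intro x hx
    have h1 : N I J U x ∈ W := hx
    show N I J U (I x) ∈ W
    rw [h.NI']; exact hI _ h1
  have h3 := h.no_three hI hK2I
  have hc := card_mul_relIndex' hWK
  have hdvd : Nat.card ↥K2 ∣ 81 := by rw [← hcM]; exact AddSubgroup.card_addSubgroup_dvd_card K2
  have hne1 : W.relIndex K2 ≠ 1 := by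
    intro h1
    have hle : K2 ≤ W := AddSubgroup.relIndex_eq_one.1 h1
    have key : ∀ x, N I J U x ∈ W → x ∈ W := fun x hx => hle hx
    have htop : ∀ x, x ∈ W := by
      intro x
      apply key; apply key; apply key
      rw [h.N3']; exact W.zero_mem
    have : W = ⊤ := by rw [eq_top_iff]; intro x _; exact htop x
    rw [this] at hcW
    rw [AddSubgroup.card_top, hcM] at hcW
    omega
  rw [hcW] at hc
  have h9 : W.relIndex K2 = 9 := by
    have h4 : W.relIndex K2 ∣ 9 := by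
      have : 9 * W.relIndex K2 ∣ 9 * 9 := by rw [hc]; exact hdvd
      exact Nat.dvd_of_mul_dvd_mul_left (by norm_num) this
    exact eq_nine h4 hne1 h3
  have hEq : K2 = ⊤ := by
    apply AddSubgroup.eq_top_of_card_eq
    rw [← hc, h9, hcM]
  intro x
  have : x ∈ K2 := by rw [hEq]; trivial
  exact this

/-- between `W` and `M`: every `x ∉ W` generates `M` modulo `W` together with `I x` -/
theorem Ops.span (h : Ops I J U) [Finite M] {W : AddSubgroup M}
    (hI : ∀ x ∈ W, I x ∈ W) (hcW : Nat.card ↥W = 9) (hcM : Nat.card M = 81) {x : M} (hx : x ∉ W) (y : M) :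
    ∃ a b : ℤ, ∃ w ∈ W, y = w + a • x + b • I x := by
  let P : AddSubgroup M := W ⊔ AddSubgroup.zmultiples x ⊔ AddSubgroup.zmultiples (I x)
  have hmem : ∀ z, z ∈ P ↔ ∃ a b : ℤ, ∃ w ∈ W, z = w + a • x + b • I x := by
    intro z
    constructor
    · intro hz
      obtain ⟨u, hu, v, hv, rfl⟩ := AddSubgroup.mem_sup.1 hz
      obtain ⟨w, hw, v', hv', rfl⟩ := AddSubgroup.mem_sup.1 hu
      obtain ⟨a, rfl⟩ := AddSubgroup.mem_zmultiples_iff.1 hv'
      obtain ⟨b, rfl⟩ := AddSubgroup.mem_zmultiples_iff.1 hv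
      exact ⟨a, b, w, hw, rfl⟩
    · rintro ⟨a, b, w, hw, rfl⟩
      exact AddSubgroup.add_mem_sup (AddSubgroup.add_mem_sup hw (AddSubgroup.zsmul_mem_zmultiples x a))
        (AddSubgroup.zsmul_mem_zmultiples (I x) b)
  have hWP : W ≤ P := le_sup_left.trans le_sup_left
  have hPI : ∀ z ∈ P, I z ∈ P := by
    intro z hz
    obtain ⟨a, b, w, hw, rfl⟩ := (hmem z).1 hz
    rw [hmem]
    refine ⟨-b, a, I w, hI w hw, ?_⟩
    rw [map_add, map_add, map_zsmul, map_zsmul, h.II']
    simp only [smul_neg, neg_smul]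
    abel
  have h3 := h.no_three hI hPI
  have hc := card_mul_relIndex' hWP
  have hdvd : Nat.card ↥P ∣ 81 := by rw [← hcM]; exact AddSubgroup.card_addSubgroup_dvd_card P
  have hne1 : W.relIndex P ≠ 1 := by
    intro h1
    have hle : P ≤ W := AddSubgroup.relIndex_eq_one.1 h1
    apply hx; apply hle
    rw [hmem]
    exact ⟨1, 0, 0, W.zero_mem, by simp⟩
  rw [hcW] at hc
  have h9 : W.relIndex P = 9 := by
    have h4 : W.relIndex P ∣ 9 := by
      have : 9 * W.relIndex P ∣ 9 * 9 := by rw [hc]; exact hdvd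
      exact Nat.dvd_of_mul_dvd_mul_left (by norm_num) this
    exact eq_nine h4 hne1 h3
  have hEq : P = ⊤ := by
    apply AddSubgroup.eq_top_of_card_eq
    rw [← hc, h9, hcM]
  exact (hmem y).1 (by rw [hEq]; trivial)

/-- **(L1)** -/
theorem Form.U_eq (h : Ops I J U) (F : Form I J U f) [Finite M] {W : AddSubgroup M}
    (hI : ∀ x ∈ W, I x ∈ W) (hJ : ∀ x ∈ W, J x ∈ W) (hU : ∀ x ∈ W, U x ∈ W)
    (hcW : Nat.card ↥W = 9) (hcM : Nat.card M = 81) : U = 1 + s I J := by
  apply h.U_eq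
  have hNW := h.N_W hI hJ hU hcW
  have hNM := h.N_M hI hJ hU hcW hcM
  have hNN : ∀ x, N I J U (N I J U x) = 0 := fun x => hNW _ (hNM x)
  have hpsi : ∀ x, psi I J U x = x + N I J U x := by intro x; rw [N_apply]; abel
  -- `f (N x) y = - f x (N y)`
  have hadj : ∀ x y, f (N I J U x) y = - f x (N I J U y) := by
    intro x y
    have h1 := F.fpsi h x (y - N I J U y)
    rw [hpsi, hpsi, map_sub, hNN] at h1
    simp only [map_add, map_sub, AddMonoidHom.add_apply, sub_zero] at h1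
    have h2 : f x (y - N I J U y + N I J U y) + f (N I J U x) (y - N I J U y + N I J U y)
        = f x (y - N I J U y) := by simpa only [_root_.sub_add_cancel, _root_.map_sub] using h1
    rw [sub_add_cancel, map_sub] at h2
    have h3 : f (N I J U x) y = (f x y + f (N I J U x) y) - f x y := by abel
    rw [h3, h2]; abel
  have hsym : ∀ x y, f (N I J U x) y = f (N I J U y) x := by
    intro x y
    rw [hadj, F.skew x, neg_neg]
  have hgI : ∀ x, f (N I J U x) (I x) = 0 := by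
    intro x
    apply F.two
    have h1 : f (N I J U x) (I x) = - f (N I J U x) (I x) := by
      calc f (N I J U x) (I x) = f (I (N I J U x)) (I (I x)) := (F.fI _ _).symm
        _ = - f (N I J U (I x)) x := by rw [h.II', map_neg, h.NI']
        _ = - f (N I J U x) (I x) := by rw [hsym]
    nth_rewrite 1 [h1]; simp
  have hgJ : ∀ x, f (N I J U x) (J x) = 0 := by
    intro x
    apply F.two
    have h1 : f (N I J U x) (J x) = - f (N I J U x) (J x) := by
      calc f (N I J U x) (J x) = f (J (N I J U x)) (J (J x)) := (F.fJ _ _).symm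
        _ = - f (N I J U (J x)) x := by rw [h.JJ', map_neg, h.NJ']
        _ = - f (N I J U x) (J x) := by rw [hsym]
    nth_rewrite 1 [h1]; simp
  have hgK : ∀ x, f (N I J U x) (I (J x)) = 0 := by
    intro x
    have e : I (J (I (J x))) = -x := by
      rw [h.JI', map_neg, h.II', neg_neg, h.JJ']
    apply F.two
    have h1 : f (N I J U x) (I (J x)) = - f (N I J U x) (I (J x)) := by
      calc f (N I J U x) (I (J x)) = f (I (J (N I J U x))) (I (J (I (J x)))) := by
            rw [F.fI, F.fJ]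
        _ = - f (N I J U (I (J x))) x := by rw [e, map_neg, h.NI', h.NJ']
        _ = - f (N I J U x) (I (J x)) := by rw [hsym]
    nth_rewrite 1 [h1]; simp
  have hgW : ∀ x, ∀ w ∈ W, f (N I J U x) w = 0 := by
    intro x w hw
    rw [hsym, hNW w hw, map_zero, AddMonoidHom.zero_apply]
  have h3A : ∀ x y, (3 : ℤ) • f x y = 0 := by
    intro x y
    have := h.three_smul y
    have h1 : f x (y + y + y) = 0 := by rw [this, map_zero]
    rw [map_add, map_add] at h1
    rw [← h1]; abel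
  -- diagonal
  have hdiag : ∀ x, f (N I J U x) x = 0 := by
    intro x
    by_cases hx : x ∈ W
    · exact hgW x x hx
    · obtain ⟨a, b, w, hw, he⟩ := h.span hI hcW hcM hx (J x)
      have h1 := hgJ x
      rw [he, map_add, map_add, hgW x w hw, map_zsmul, map_zsmul, hgI, smul_zero, add_zero, zero_add] at h1
      have h2 := hgK x
      rw [he, map_add, map_add, map_add, map_add, hgW x _ (hI w hw), map_zsmul, map_zsmul, map_zsmul, map_zsmul,
        hgI, smul_zero, h.II', zero_add, zero_add, map_neg] at h2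
      have h2' : b • f (N I J U x) x = 0 := by
        rw [smul_neg] at h2; exact neg_eq_zero.1 h2
      have key : ∀ n : ℤ, n % 3 ≠ 0 → n • f (N I J U x) x = 0 → f (N I J U x) x = 0 := by
        intro n hn hn0
        have h3' := h3A (N I J U x) x
        have hn3 : n % 3 = 1 ∨ n % 3 = 2 := by omega
        rcases hn3 with h0 | h0
        · obtain ⟨k, hk⟩ : ∃ k, n = k * 3 + 1 := ⟨n / 3, by omega⟩
          rw [hk, add_smul, mul_smul, h3', smul_zero, zero_add, one_smul] at hn0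
          exact hn0
        · obtain ⟨k, hk⟩ : ∃ k, n = k * 3 + 2 := ⟨n / 3, by omega⟩
          rw [hk, add_smul, mul_smul, h3', smul_zero, zero_add, two_smul] at hn0
          exact F.two _ hn0
      by_cases ha : a % 3 = 0
      · by_cases hb : b % 3 = 0
        · exfalso
          -- then `J x ∈ W`
          obtain ⟨k, hk⟩ : ∃ k, a = k * 3 := ⟨a / 3, by omega⟩
          obtain ⟨l, hl⟩ : ∃ k, b = k * 3 := ⟨b / 3, by omega⟩
          have h3x : ∀ y : M, (3 : ℤ) • y = 0 := by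
            intro y; have := h.three_smul y; rw [← this]; abel
          rw [hk, hl, mul_smul, mul_smul, h3x, h3x, smul_zero, smul_zero, add_zero, add_zero] at he
          have h5 : J (J x) ∈ W := hJ _ (by rw [he]; exact hw)
          rw [h.JJ'] at h5
          exact hx (by simpa using W.neg_mem h5)
        · exact key b hb h2'
      · exact key a ha h1
  -- conclusion
  have hall : ∀ x, N I J U x = 0 := by
    intro x
    apply F.nd
    intro y
    apply F.two
    have h1 := hdiag (x + y)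
    rw [map_add (N I J U), map_add f, map_add, AddMonoidHom.add_apply, AddMonoidHom.add_apply, hdiag, hdiag,
      zero_add, add_zero, hsym y x] at h1
    exact h1
  ext x
  exact hall x

end Main


section LTwo

variable {M : Type*} [AddCommGroup M] {I J U : AddMonoid.End M}
variable {A : Type*} [AddCommGroup A]
variable {f : M →+ M →+ A}

theorem U_apply (hU : U = 1 + s I J) (x : M) : U x = x + s I J x := by rw [hU]; rfl

/-- `U b = b` implies `J b = b + I b`. -/
theorem Ops.J_fix (h : Ops I J U) (hU : U = 1 + s I J) {b : M} (hb : U b = b) : J b = b + I b := by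
  have h1 : s I J b = 0 := by
    rw [U_apply hU] at hb; simpa using hb
  have h2 : I (s I J b) = 0 := by rw [h1, map_zero]
  rw [s_apply] at h1
  rw [s_apply, map_add, map_add, h.II', h.II'] at h2
  -- h1 : I b + J b + I (J b) = 0 ; h2 : -b + I (J b) + -J b = 0
  have h3 : I b + J b + J b + b = 0 := by
    have : I b + J b + J b + b = (I b + J b + I (J b)) - (-b + I (J b) + -J b) := by abel
    rw [this, h1, h2, sub_zero]
  have h4 := h.three_smul (J b)
  have h5 : J b + J b = - J b := eq_neg_of_add_eq_zero_left h4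
  have h6 : I b + -J b + b = 0 := by rw [← h5, ← add_assoc, h3]
  have : J b = (b + I b) - (I b + -J b + b) := by abel
  rw [this, h6, sub_zero]

theorem Ops.IJ_fix (h : Ops I J U) (hU : U = 1 + s I J) {b : M} (hb : U b = b) : I (J b) = I b - b := by
  rw [h.J_fix hU hb, map_add, h.II']; abel

theorem Ops.U_Ib (h : Ops I J U) (hU : U = 1 + s I J) {b : M} (hb : U b = b) : U (I b) = I b + b := by
  have h1 := h.J_fix hU hb
  have h2 := h.IJ_fix hU hb
  rw [U_apply hU, s_apply, h.II', h.JI', h2, map_neg, map_sub, h.II']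
  have h4 := h.three_smul b
  have h5 : b + b = - b := eq_neg_of_add_eq_zero_left h4
  have h6 : -b + -b = b := by rw [← neg_add, h5, neg_neg]
  calc I b + (-b + -(I b - b) + -(-b - I b)) = I b + (b + b + (-b + I b - I b)) := by abel
    _ = I b + b := by rw [h5]; simp only [add_sub_cancel_right]; rw [h6]

/-- isotropic -/
theorem Form.iso (h : Ops I J U) (F : Form I J U f) (hU : U = 1 + s I J) {b m : M} (hb : U b = b)
    (hm : U m = m + b) (hbm : f b m = 0) : f b (I b) = 0 := by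
  have h1 : U (m - I b) = m - I b := by rw [map_sub, hm, h.U_Ib hU hb]; abel
  have h2 : ∀ y, U y = y → f b y = 0 := by
    intro y hy
    have h3 : f (U m) (U y) = f m y := F.fU m y
    rw [hm, hy, map_add, AddMonoidHom.add_apply] at h3
    simpa using h3
  have h3 := h2 _ h1
  rw [map_sub, hbm, zero_sub, neg_eq_zero] at h3
  exact h3

end LTwo

section LemA

variable {V : Type*} [AddCommGroup V]

/-- **Lemma A**: on an irreducible module of order `9` for `SL(2,3)` the central involution acts as `-1`. -/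
theorem neg_of_irr {I J U T : AddMonoid.End V} (hcard : Nat.card V = 9) (h3 : ∀ x : V, x + x + x = 0)
    (II : ∀ x, I (I x) = T x) (JJ : ∀ x, J (J x) = T x) (JI : ∀ x, J (I x) = T (I (J x)))
    (UI : ∀ x, U (I x) = J (U x)) (UJ : ∀ x, U (J x) = I (J (U x))) (U3 : ∀ x, U (U (U x)) = x)
    (TT : ∀ x, T (T x) = x)
    (irr : ∀ X : AddSubgroup V, (∀ x ∈ X, I x ∈ X) → (∀ x ∈ X, J x ∈ X) → (∀ x ∈ X, U x ∈ X) → X = ⊥ ∨ X = ⊤) :
    ∀ x, T x = -x := by
  have hfin : Finite V := Nat.finite_of_card_ne_zero (by rw [hcard]; norm_num)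
  have two : ∀ x : V, x = -x → x = 0 := by
    intro x hx
    have := h3 x
    nth_rewrite 1 [hx] at this
    simpa using this
  have TI : ∀ x, T (I x) = I (T x) := by intro x; rw [← II, ← II]
  have TJ : ∀ x, T (J x) = J (T x) := by intro x; rw [← JJ, ← JJ]
  have TU : ∀ x, T (U x) = U (T x) := by intro x; rw [← JJ, ← UI, ← UI, II]
  let X : AddSubgroup V :=
    { carrier := {x | T x = x}
      zero_mem' := map_zero T
      add_mem' := by intro a b ha hb; show T (a + b) = a + b; rw [map_add, ha, hb]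
      neg_mem' := by intro a ha; show T (-a) = -a; rw [map_neg, ha] }
  have hXm : ∀ x, x ∈ X ↔ T x = x := fun x => Iff.rfl
  rcases irr X (fun x hx => by rw [hXm, TI, (hXm x).1 hx]) (fun x hx => by rw [hXm, TJ, (hXm x).1 hx])
    (fun x hx => by rw [hXm, TU, (hXm x).1 hx]) with hX | hX
  · intro x
    have h1 : x + T x ∈ X := by rw [hXm, map_add, TT, add_comm]
    rw [hX, AddSubgroup.mem_bot] at h1
    exact eq_neg_of_add_eq_zero_right h1
  · exfalso
    have T1 : ∀ x, T x = x := fun x => (hXm x).1 (by rw [hX]; trivial)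
    simp only [T1] at II JJ JI
    have cardcontra : ∀ x : V, x ≠ 0 → AddSubgroup.zmultiples x ≠ ⊤ := by
      intro x hx htop
      have h1 : Nat.card ↥(AddSubgroup.zmultiples x) = addOrderOf x := Nat.card_zmultiples x
      have h2 : addOrderOf x ∣ 3 := by
        apply addOrderOf_dvd_of_nsmul_eq_zero
        rw [← h3 x]; abel
      have h4 : Nat.card ↥(AddSubgroup.zmultiples x) = 9 := by rw [htop, AddSubgroup.card_top, hcard]
      rw [h1] at h4
      rw [h4] at h2
      omega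
    let Y : AddSubgroup V :=
      { carrier := {x | I x = x ∧ J x = x}
        zero_mem' := ⟨map_zero I, map_zero J⟩
        add_mem' := by
          intro a b ha hb
          exact ⟨by rw [map_add, ha.1, hb.1], by rw [map_add, ha.2, hb.2]⟩
        neg_mem' := by
          intro a ha
          exact ⟨by rw [map_neg, ha.1], by rw [map_neg, ha.2]⟩ }
    have hYm : ∀ x, x ∈ Y ↔ (I x = x ∧ J x = x) := fun x => Iff.rfl
    rcases irr Y (fun x hx => by
        have := (hYm x).1 hx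
        rw [hYm]; rw [this.1]; exact this)
      (fun x hx => by
        have := (hYm x).1 hx
        rw [hYm]; rw [this.2]; exact this)
      (fun x hx => by
        have h1 := (hYm x).1 hx
        have h2 : J (U x) = U x := by rw [← UI, h1.1]
        have h3 : I (J (U x)) = U x := by rw [← UJ, h1.2]
        rw [hYm]
        exact ⟨by rw [h2] at h3; exact h3, h2⟩) with hY | hY
    · -- no fixed points
      have E : ∀ x, x + I x + J x + I (J x) = 0 := by
        intro x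
        have : x + I x + J x + I (J x) ∈ Y := by
          rw [hYm]
          constructor
          · simp only [map_add, II]; abel
          · simp only [map_add, JI, JJ]; abel
        rw [hY, AddSubgroup.mem_bot] at this
        exact this
      -- a vector of weight (-1, 1)
      obtain ⟨a, ha0, haI, haJ⟩ : ∃ a : V, a ≠ 0 ∧ I a = -a ∧ J a = a := by
        -- first some `x ≠ 0` with `I x = -x`
        obtain ⟨x, hx0, hxI⟩ : ∃ x : V, x ≠ 0 ∧ I x = -x := by
          by_contra hcon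
          push Not at hcon
          have hI1 : ∀ x, I x = x := by
            intro x
            by_contra hne
            apply hcon (x - I x) (sub_ne_zero.2 (Ne.symm hne))
            rw [map_sub, II]; abel
          have hJ1 : ∀ x, J x = x := by
            intro x
            have h1 := UI (U (U x))
            rw [U3, hI1, U3] at h1
            exact h1.symm
          have hne : Nontrivial V := by
            by_contra h
            rw [not_nontrivial_iff_subsingleton] at h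
            have := Nat.card_of_subsingleton (0 : V)
            omega
          obtain ⟨v, hv⟩ := exists_ne (0 : V)
          have : v ∈ Y := ⟨hI1 v, hJ1 v⟩
          rw [hY, AddSubgroup.mem_bot] at this
          exact hv this
        by_cases hcase : x + J x = 0
        · -- weight (-1,-1)
          have hxJ : J x = -x := eq_neg_of_add_eq_zero_right hcase
          refine ⟨U (U x), ?_, ?_, ?_⟩
          · intro h0
            apply hx0
            rw [← U3 x, h0, map_zero]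
          · have h1 : J (U x) = -U x := by rw [← UI, hxI, map_neg]
            have h2 : I (J (U x)) = -U x := by rw [← UJ, hxJ, map_neg]
            have h3' : I (U x) = U x := by
              rw [h1, map_neg] at h2; exact neg_injective h2
            have h4 : J (U (U x)) = U (U x) := by rw [← UI, h3']
            have h5 : I (J (U (U x))) = - U (U x) := by rw [← UJ, h1, map_neg]
            rw [h4] at h5; exact h5
          · have h1 : J (U x) = -U x := by rw [← UI, hxI, map_neg]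
            have h2 : I (J (U x)) = -U x := by rw [← UJ, hxJ, map_neg]
            have h3' : I (U x) = U x := by
              rw [h1, map_neg] at h2; exact neg_injective h2
            rw [← UI, h3']
        · refine ⟨x + J x, hcase, ?_, ?_⟩
          · have h1 : I (J x) = - J x := by
              have := E x
              rw [hxI] at this
              have h2 : J x + I (J x) = 0 := by simpa only [_root_.add_neg_cancel, _root_.zero_add] using this
              exact eq_neg_of_add_eq_zero_right h2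
            rw [map_add, hxI, h1]; abel
          · rw [map_add, JJ]; abel
      have hUJ : J (U a) = - U a := by rw [← UI, haI, map_neg]
      have hUI : I (U a) = - U a := by
        have h2 : I (J (U a)) = U a := by rw [← UJ, haJ]
        rw [hUJ, map_neg] at h2
        exact neg_eq_iff_eq_neg.1 h2
      have hUUJ : J (U (U a)) = - U (U a) := by rw [← UI, hUI, map_neg]
      have hUUI : I (U (U a)) = U (U a) := by
        have h2 : I (J (U (U a))) = - U (U a) := by rw [← UJ, hUJ, map_neg]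
        rw [hUUJ, map_neg] at h2
        exact neg_injective h2
      -- `a, U a` generate
      let P : AddSubgroup V := AddSubgroup.zmultiples a ⊔ AddSubgroup.zmultiples (U a)
      have hUa0 : U a ≠ 0 := by
        intro h0; apply ha0; rw [← U3 a, h0, map_zero, map_zero]
      have hnot : U a ∉ AddSubgroup.zmultiples a := by
        intro hm
        obtain ⟨n, hn⟩ := AddSubgroup.mem_zmultiples_iff.1 hm
        have h1 : J (U a) = U a := by rw [← hn, map_zsmul, haJ]
        rw [hUJ] at h1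
        exact hUa0 (two _ h1.symm)
      have hca : Nat.card ↥(AddSubgroup.zmultiples a) = 3 := by
        rw [Nat.card_zmultiples]
        have h2 : addOrderOf a ∣ 3 := by
          apply addOrderOf_dvd_of_nsmul_eq_zero
          rw [← h3 a]; abel
        rcases (Nat.dvd_prime Nat.prime_three).1 h2 with h | h
        · rw [AddMonoid.addOrderOf_eq_one_iff] at h; exact absurd h ha0
        · exact h
      have hPtop : P = ⊤ := by
        apply AddSubgroup.eq_top_of_card_eq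
        rw [hcard]
        have h1 : Nat.card ↥P ∣ 9 := by rw [← hcard]; exact AddSubgroup.card_addSubgroup_dvd_card P
        have h2 : Nat.card ↥(AddSubgroup.zmultiples a) ∣ Nat.card ↥P := AddSubgroup.card_dvd_of_le le_sup_left
        rw [hca] at h2
        apply eq_nine h1
        · intro h; rw [h] at h2; omega
        · intro h
          have : AddSubgroup.zmultiples a = P :=
            AddSubgroup.eq_of_le_of_card_ge le_sup_left (by rw [hca, h])
          apply hnot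
          rw [this]
          exact (le_sup_right : AddSubgroup.zmultiples (U a) ≤ P) (AddSubgroup.mem_zmultiples _)
      have hIneg : ∀ x, I x = -x := by
        intro x
        have hx : x ∈ P := by rw [hPtop]; trivial
        obtain ⟨u, hu, v, hv, rfl⟩ := AddSubgroup.mem_sup.1 hx
        obtain ⟨m, rfl⟩ := AddSubgroup.mem_zmultiples_iff.1 hu
        obtain ⟨n, rfl⟩ := AddSubgroup.mem_zmultiples_iff.1 hv
        rw [map_add, map_zsmul, map_zsmul, haI, hUI, smul_neg, smul_neg]; abel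
      have := hIneg (U (U a))
      rw [hUUI] at this
      have h0 := two _ this
      apply ha0
      rw [← U3 a, h0, map_zero]
    · -- `I = J = 1`
      have hI1 : ∀ x, I x = x := fun x => ((hYm x).1 (by rw [hY]; trivial)).1
      have hJ1 : ∀ x, J x = x := fun x => ((hYm x).1 (by rw [hY]; trivial)).2
      let X' : AddSubgroup V :=
        { carrier := {x | U x = x}
          zero_mem' := map_zero U
          add_mem' := by intro a b ha hb; show U (a + b) = a + b; rw [map_add, ha, hb]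
          neg_mem' := by intro a ha; show U (-a) = -a; rw [map_neg, ha] }
      have hX'm : ∀ x, x ∈ X' ↔ U x = x := fun x => Iff.rfl
      have hne : Nontrivial V := by
        by_contra h
        rw [not_nontrivial_iff_subsingleton] at h
        have := Nat.card_of_subsingleton (0 : V)
        omega
      obtain ⟨v, hv⟩ := exists_ne (0 : V)
      rcases irr X' (fun x hx => by rw [hI1]; exact hx) (fun x hx => by rw [hJ1]; exact hx)
        (fun x hx => by rw [hX'm, (hX'm x).1 hx]; exact (hX'm x).1 hx) with hX' | hX'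
      · -- no fixed vector: impossible
        have key : ∀ x, U x - x = 0 → x = 0 := by
          intro x hx
          have : x ∈ X' := sub_eq_zero.1 hx
          rw [hX', AddSubgroup.mem_bot] at this
          exact this
        have hN : (U (U (U v - v) - (U v - v)) - (U (U v - v) - (U v - v))) = 0 := by
          simp only [map_sub, U3]
          have h1 := h3 (U v)
          have h2 := h3 (U (U v))
          calc _ = (U v + U v + U v) - (U (U v) + U (U v) + U (U v)) := by abel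
            _ = 0 := by rw [h1, h2, sub_zero]
        exact hv (key _ (key _ (key _ hN)))
      · have hU1 : ∀ x, U x = x := fun x => (hX'm x).1 (by rw [hX']; trivial)
        rcases irr (AddSubgroup.zmultiples v) (fun x hx => by rw [hI1]; exact hx)
          (fun x hx => by rw [hJ1]; exact hx) (fun x hx => by rw [hU1]; exact hx) with h | h
        · apply hv
          have := AddSubgroup.mem_zmultiples v
          rw [h, AddSubgroup.mem_bot] at this
          exact this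
        · exact cardcontra v hv h

end LemA

end Cfsg.Agent.H352.L43
end

-- part: H352/L43/Ext
section
/-!
# The module `Q / Z` of an extraspecial normal subgroup (helper352)

`MM Q = Additive (Abelianization Q)`, the commutator form and the action of the normalizer of `Q`.
-/

set_option autoImplicit false

namespace Cfsg.Agent.H352.L43

open scoped commutatorElement IsMulCommutative

section Pairing

variable {P : Type*} [Group P]

/-- `b ↦ [a, b]` -/
def pairHom (hc : ∀ a b : P, ⁅a, b⁆ ∈ Subgroup.center P) (a : P) : P →* ↥(Subgroup.center P) where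
  toFun b := ⟨⁅a, b⁆, hc a b⟩
  map_one' := by
    apply Subtype.ext
    simp
  map_mul' b c := by
    apply Subtype.ext
    show ⁅a, b * c⁆ = ⁅a, b⁆ * ⁅a, c⁆
    have h1 := Subgroup.mem_center_iff.1 (hc a c) b
    rw [commutatorElement_def, commutatorElement_def, commutatorElement_def] at *
    calc a * (b * c) * a⁻¹ * (b * c)⁻¹ = a * b * a⁻¹ * (a * c * a⁻¹ * c⁻¹) * b⁻¹ := by group
      _ = a * b * a⁻¹ * b⁻¹ * (b * (a * c * a⁻¹ * c⁻¹)) * b⁻¹ := by group
      _ = a * b * a⁻¹ * b⁻¹ * ((a * c * a⁻¹ * c⁻¹) * b) * b⁻¹ := by rw [h1]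
      _ = a * b * a⁻¹ * b⁻¹ * (a * c * a⁻¹ * c⁻¹) := by group

theorem comm_mul_left (hc : ∀ a b : P, ⁅a, b⁆ ∈ Subgroup.center P) (a b c : P) :
    ⁅a * b, c⁆ = ⁅a, c⁆ * ⁅b, c⁆ := by
  have h1 := (pairHom hc c).map_mul a b
  have h2 := congrArg Subtype.val h1
  have h3 : ⁅c, a * b⁆ = ⁅c, a⁆ * ⁅c, b⁆ := h2
  have h4 : ⁅c, b⁆⁻¹ * ⁅c, a⁆⁻¹ = ⁅c, a⁆⁻¹ * ⁅c, b⁆⁻¹ := by
    have := Subgroup.mem_center_iff.1 (hc c a) (⁅c, b⁆)
    rw [← mul_inv_rev, ← mul_inv_rev, this]
  rw [← commutatorElement_inv c, h3, mul_inv_rev, h4, commutatorElement_inv, commutatorElement_inv]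

/-- the commutator pairing on the abelianization -/
def pairAb (hc : ∀ a b : P, ⁅a, b⁆ ∈ Subgroup.center P) :
    Abelianization P →* (Abelianization P →* ↥(Subgroup.center P)) :=
  Abelianization.lift
    { toFun := fun a => Abelianization.lift (pairHom hc a)
      map_one' := by
        apply Abelianization.hom_ext
        ext b
        simp only [pairHom, _root_.Cfsg.Agent.H352.L43.pairHom, _root_.commutatorElement_one_left, _root_.MonoidHom.coe_comp, _root_.Function.comp_apply, _root_.Abelianization.lift_apply_of, _root_.MonoidHom.coe_mk, _root_.OneHom.coe_mk, _root_.MonoidHom.one_comp, _root_.MonoidHom.one_apply, _root_.OneMemClass.coe_one]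
      map_mul' := by
        intro a a'
        apply Abelianization.hom_ext
        ext b
        simp only [MonoidHom.comp_apply, Abelianization.lift_apply_of, MonoidHom.mul_apply]
        exact comm_mul_left hc a a' b }

/-- the commutator form -/
def pair (hc : ∀ a b : P, ⁅a, b⁆ ∈ Subgroup.center P) :
    Additive (Abelianization P) →+ Additive (Abelianization P) →+ Additive ↥(Subgroup.center P) :=
  AddMonoidHom.mk' (fun x => MonoidHom.toAdditive (pairAb hc x.toMul)) (by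
    intro x y
    ext z
    simp only [map_mul, _root_.toMul_add, _root_.map_mul, _root_.MonoidHom.coe_comp, _root_.AddMonoidHom.coe_toMultiplicativeRight, _root_.MonoidHom.coe_toAdditive, _root_.Function.comp_apply, _root_.toMul_ofMul, _root_.MonoidHom.mul_apply, _root_.ofMul_mul, _root_.ofAdd_add, _root_.toAdd_mul, _root_.toAdd_ofAdd, _root_.Subgroup.coe_mul, _root_.AddMonoidHom.add_apply, _root_.MonoidHom.toAdditive_apply_apply])

/-- the class of an element -/
def bar (a : P) : Additive (Abelianization P) := Additive.ofMul (Abelianization.of a)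

theorem bar_mul (a b : P) : bar (a * b) = bar a + bar b := by
  unfold bar; rw [map_mul]; rfl

theorem bar_inv (a : P) : bar (a⁻¹) = - bar a := by
  unfold bar; rw [map_inv]; rfl

theorem bar_one : bar (1 : P) = 0 := by unfold bar; rw [map_one]; rfl

theorem bar_eq_zero {a : P} : bar a = 0 ↔ a ∈ commutator P := by
  unfold bar
  rw [← Abelianization.ker_of, MonoidHom.mem_ker]
  exact Iff.rfl

theorem bar_surj (x : Additive (Abelianization P)) : ∃ a : P, bar a = x := by
  obtain ⟨a, ha⟩ := QuotientGroup.mk_surjective (s := commutator P) x.toMul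
  exact ⟨a, ha⟩

end Pairing

section Perp

variable {P : Type*} [Group P]

theorem mem_ker_pairHom (hc : ∀ a b : P, ⁅a, b⁆ ∈ Subgroup.center P) {y a : P} :
    a ∈ (pairHom hc y).ker ↔ y * a = a * y := by
  rw [MonoidHom.mem_ker, Subtype.ext_iff]
  show ⁅y, a⁆ = 1 ↔ _
  rw [commutatorElement_eq_one_iff_mul_comm]

theorem index_ker_pairHom (hc : ∀ a b : P, ⁅a, b⁆ ∈ Subgroup.center P)
    (h3 : Nat.card ↥(Subgroup.center P) = 3) {y : P} (hy : y ∉ Subgroup.center P) :
    (pairHom hc y).ker.index = 3 := by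
  rw [Subgroup.index_ker]
  have h1 : Nat.card ↥(pairHom hc y).range ∣ 3 := by
    rw [← h3]; exact Subgroup.card_subgroup_dvd_card _
  rcases (Nat.dvd_prime Nat.prime_three).1 h1 with h | h
  · exfalso
    apply hy
    have hbot := Subgroup.eq_bot_of_card_eq _ h
    rw [Subgroup.mem_center_iff]
    intro a
    have : a ∈ (pairHom hc y).ker := by
      rw [MonoidHom.mem_ker]
      have h2 : pairHom hc y a ∈ (pairHom hc y).range := ⟨a, rfl⟩
      rw [hbot] at h2
      exact h2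
    exact ((mem_ker_pairHom hc).1 this).symm
  · exact h

/-- if everything commuting with `y₁` commutes with `y₂`, then `y₂ ∈ ⟨y₁⟩ Z(P)`. -/
theorem exists_zpow (hc : ∀ a b : P, ⁅a, b⁆ ∈ Subgroup.center P)
    (h3 : Nat.card ↥(Subgroup.center P) = 3) {y₁ y₂ : P} (hy : y₁ ∉ Subgroup.center P)
    (hle : (pairHom hc y₁).ker ≤ (pairHom hc y₂).ker) : ∃ k : ℤ, y₂ * y₁ ^ k ∈ Subgroup.center P := by
  have hp : Fact (Nat.Prime 3) := ⟨Nat.prime_three⟩
  have hidx := index_ker_pairHom hc h3 hy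
  obtain ⟨q, hq⟩ : ∃ q, q ∉ (pairHom hc y₁).ker := by
    by_contra hcon
    push Not at hcon
    have : (pairHom hc y₁).ker = ⊤ := by rw [eq_top_iff]; intro x _; exact hcon x
    rw [this, Subgroup.index_top] at hidx
    omega
  have hz1 : pairHom hc q y₁ ≠ 1 := by
    intro h1
    apply hq
    rw [mem_ker_pairHom]
    exact ((mem_ker_pairHom hc).1 (MonoidHom.mem_ker.2 h1)).symm
  have htop := zpowers_eq_top_of_prime_card h3 hz1
  have hm : (pairHom hc q y₂)⁻¹ ∈ Subgroup.zpowers (pairHom hc q y₁) := by rw [htop]; trivial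
  obtain ⟨k, hk⟩ := Subgroup.mem_zpowers_iff.1 hm
  refine ⟨k, ?_⟩
  -- `y₂ y₁ ^ k` commutes with `q` and with the kernel
  have hq' : pairHom hc q (y₂ * y₁ ^ k) = 1 := by
    rw [map_mul, map_zpow, hk, mul_inv_cancel]
  have hcomm : ∀ a ∈ (pairHom hc y₁).ker, y₂ * y₁ ^ k * a = a * (y₂ * y₁ ^ k) := by
    intro a ha
    have h1 := (mem_ker_pairHom hc).1 ha
    have h2 := (mem_ker_pairHom hc).1 (hle ha)
    have c1 : Commute y₁ a := h1
    have c2 : Commute y₂ a := h2
    exact (c2.mul_left (c1.zpow_left k))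
  have hker : (pairHom hc (y₂ * y₁ ^ k)).ker = ⊤ := by
    have hlt : (pairHom hc y₁).ker < (pairHom hc (y₂ * y₁ ^ k)).ker := by
      refine lt_of_le_of_ne (fun a ha => (mem_ker_pairHom hc).2 (hcomm a ha)) ?_
      intro heq
      apply hq
      rw [heq, mem_ker_pairHom]
      exact ((mem_ker_pairHom hc).1 (MonoidHom.mem_ker.2 hq')).symm
    have h1 : (pairHom hc (y₂ * y₁ ^ k)).ker.index ∣ 3 := by
      rw [← hidx]; exact Subgroup.index_dvd_of_le hlt.le
    rcases (Nat.dvd_prime Nat.prime_three).1 h1 with h | h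
    · exact Subgroup.index_eq_one.1 h
    · exfalso
      have h2 := Subgroup.relIndex_mul_index hlt.le
      rw [h, hidx] at h2
      have h4 : (pairHom hc y₁).ker.relIndex (pairHom hc (y₂ * y₁ ^ k)).ker = 1 := by omega
      exact (not_le_of_gt hlt) (Subgroup.relIndex_eq_one.1 h4)
  rw [Subgroup.mem_center_iff]
  intro a
  have : a ∈ (pairHom hc (y₂ * y₁ ^ k)).ker := by rw [hker]; trivial
  exact ((mem_ker_pairHom hc).1 this).symm

theorem relIndex_two (hc : ∀ a b : P, ⁅a, b⁆ ∈ Subgroup.center P)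
    (h3 : Nat.card ↥(Subgroup.center P) = 3) {y₁ y₂ : P} (hy : y₁ ∉ Subgroup.center P)
    (hy2 : ∀ k : ℤ, y₂ * y₁ ^ k ∉ Subgroup.center P) :
    ((pairHom hc y₁).ker ⊓ (pairHom hc y₂).ker).index = 9 := by
  have hnle : ¬ (pairHom hc y₁).ker ≤ (pairHom hc y₂).ker := by
    intro hle
    obtain ⟨k, hk⟩ := exists_zpow hc h3 hy hle
    exact hy2 k hk
  have hy2' : y₂ ∉ Subgroup.center P := by
    have := hy2 0
    simpa using this
  have h1 := index_ker_pairHom hc h3 hy
  have h2 := index_ker_pairHom hc h3 hy2'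
  have h4 : (pairHom hc y₂).ker.relIndex (pairHom hc y₁).ker = 3 := by
    have h5 : (pairHom hc y₂).ker.relIndex (pairHom hc y₁).ker ∣ 3 := by
      rw [← h2]; exact Subgroup.relIndex_dvd_index_of_normal _ _
    rcases (Nat.dvd_prime Nat.prime_three).1 h5 with h | h
    · exact absurd (Subgroup.relIndex_eq_one.1 h) hnle
    · exact h
  have h5 := Subgroup.relIndex_mul_index (inf_le_left : (pairHom hc y₁).ker ⊓ (pairHom hc y₂).ker ≤ _)
  rw [Subgroup.inf_relIndex_left, h4, h1] at h5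
  exact h5.symm

end Perp

section Act

variable {P : Type*} [Group P]

/-- automorphisms of `P` act on `P / P'` -/
def actHom (P : Type*) [Group P] : MulAut P →* AddMonoid.End (Additive (Abelianization P)) where
  toFun φ := MonoidHom.toAdditive (Abelianization.map φ.toMonoidHom)
  map_one' := by
    ext x
    obtain ⟨a, rfl⟩ := bar_surj x
    rfl
  map_mul' φ ψ := by
    ext x
    obtain ⟨a, rfl⟩ := bar_surj x
    rfl

variable {G : Type*} [Group G] (Q : Subgroup G)

/-- the normalizer of `Q` acts on `Q / Q'` -/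
def act : ↥(Subgroup.normalizer (Q : Set G)) →* AddMonoid.End (Additive (Abelianization ↥Q)) :=
  (actHom ↥Q).comp Q.normalizerMonoidHom

theorem act_bar (g : ↥(Subgroup.normalizer (Q : Set G))) (a b : ↥Q) (h : (b : G) = g * a * (g : G)⁻¹) :
    act Q g (bar a) = bar b := by
  show bar (Q.normalizerMonoidHom g a) = bar b
  congr 1
  apply Subtype.ext
  rw [h]
  rfl

end Act

end Cfsg.Agent.H352.L43
end

-- part: H352/L43/Cfg
section
/-!
# The configuration `(Z, Q)`: `Q = O₃(C_G(Z))` extraspecial of order `3⁵` and exponent `3` (helper352)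
-/

set_option autoImplicit false

namespace Cfsg.Agent.H352.L43

open scoped commutatorElement IsMulCommutative
open Subgroup

variable {G : Type*} [Group G]

/-- The local configuration. -/
structure Cfg (Z Q : Subgroup G) : Prop where
  cardZ : Nat.card ↥Z = 3
  cardQ : Nat.card ↥Q = 243
  le : Z ≤ Q
  leC : Q ≤ centralizer (Z : Set G)
  normZ : ∀ g : G, (∀ z ∈ Z, g * z * g⁻¹ ∈ Z) → ∀ q ∈ Q, g * q * g⁻¹ ∈ Q
  comm : ∀ a ∈ Q, ∀ b ∈ Q, a * b * a⁻¹ * b⁻¹ ∈ Z
  cen : ∀ a ∈ Q, (∀ b ∈ Q, a * b = b * a) → a ∈ Z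
  exp : ∀ a ∈ Q, a * a * a = 1
  CQ : centralizer (Q : Set G) ≤ Q
  cardC : Nat.card ↥(centralizer (Z : Set G)) = 5832

namespace Cfg

variable {Z Q : Subgroup G}

theorem center_eq (h : Cfg Z Q) : center ↥Q = Z.subgroupOf Q := by
  ext a
  rw [Subgroup.mem_center_iff, Subgroup.mem_subgroupOf]
  constructor
  · intro ha
    apply h.cen a.1 a.2
    intro b hb
    have := ha ⟨b, hb⟩
    exact (congrArg Subtype.val this).symm
  · intro ha b
    apply Subtype.ext
    have h1 := Subgroup.mem_centralizer_iff.1 (h.leC b.2) a.1 ha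
    exact h1.symm

theorem card_center (h : Cfg Z Q) : Nat.card ↥(center ↥Q) = 3 := by
  rw [h.center_eq, Nat.card_congr (Subgroup.subgroupOfEquivOfLe h.le).toEquiv, h.cardZ]

theorem hc (h : Cfg Z Q) : ∀ a b : ↥Q, ⁅a, b⁆ ∈ center ↥Q := by
  intro a b
  rw [h.center_eq, Subgroup.mem_subgroupOf]
  exact h.comm a.1 a.2 b.1 b.2

theorem finiteQ (h : Cfg Z Q) : Finite ↥Q := Nat.finite_of_card_ne_zero (by rw [h.cardQ]; norm_num)

theorem commutator_eq (h : Cfg Z Q) : commutator ↥Q = center ↥Q := by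
  have hle : commutator ↥Q ≤ center ↥Q := by
    rw [commutator_def, Subgroup.commutator_le]
    intro a _ b _
    exact h.hc a b
  have hfin := h.finiteQ
  apply Subgroup.eq_of_le_of_card_ge hle
  rw [h.card_center]
  have h1 : Nat.card ↥(commutator ↥Q) ∣ 3 := by
    rw [← h.card_center]; exact Subgroup.card_dvd_of_le hle
  rcases (Nat.dvd_prime Nat.prime_three).1 h1 with h2 | h2
  · exfalso
    have hbot := Subgroup.eq_bot_of_card_eq _ h2
    have htop : center ↥Q = ⊤ := by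
      rw [eq_top_iff]
      intro a _
      rw [Subgroup.mem_center_iff]
      intro b
      have : ⁅b, a⁆ ∈ commutator ↥Q := Subgroup.commutator_mem_commutator (Subgroup.mem_top _) (Subgroup.mem_top _)
      rw [hbot, Subgroup.mem_bot, commutatorElement_eq_one_iff_mul_comm] at this
      exact this
    have h4 := h.card_center
    rw [htop, Subgroup.card_top, h.cardQ] at h4
    omega
  · rw [h2]

theorem card_M (h : Cfg Z Q) : Nat.card (Additive (Abelianization ↥Q)) = 81 := by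
  have h1 : Nat.card (↥Q ⧸ commutator ↥Q) = 81 := by
    have h2 := Subgroup.card_mul_index (commutator ↥Q)
    rw [h.commutator_eq, h.card_center, h.cardQ] at h2
    have h3 : (commutator ↥Q).index = 81 := by rw [h.commutator_eq]; omega
    exact h3
  exact h1

theorem bar_eq_zero_iff (h : Cfg Z Q) (a : ↥Q) : bar a = 0 ↔ (a : G) ∈ Z := by
  rw [bar_eq_zero, h.commutator_eq, h.center_eq, Subgroup.mem_subgroupOf]

theorem bar_eq_iff (h : Cfg Z Q) (a b : ↥Q) : bar a = bar b ↔ (a : G) * (b : G)⁻¹ ∈ Z := by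
  rw [← sub_eq_zero, sub_eq_add_neg, ← bar_inv, ← bar_mul, h.bar_eq_zero_iff]
  rfl

theorem three_M (h : Cfg Z Q) (x : Additive (Abelianization ↥Q)) : x + x + x = 0 := by
  obtain ⟨a, rfl⟩ := bar_surj x
  rw [← bar_mul, ← bar_mul]
  have : a * a * a = 1 := Subtype.ext (h.exp a.1 a.2)
  rw [this, bar_one]

theorem normQ (h : Cfg Z Q) {g : G} (hg : g ∈ centralizer (Z : Set G)) : g ∈ normalizer (Q : Set G) := by
  have hz : ∀ z ∈ Z, g * z * g⁻¹ ∈ Z := by
    intro z hz
    have h1 := Subgroup.mem_centralizer_iff.1 hg z hz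
    rw [← h1]; simpa using hz
  have hz' : ∀ z ∈ Z, g⁻¹ * z * g⁻¹⁻¹ ∈ Z := by
    intro z hz
    have h1 := Subgroup.mem_centralizer_iff.1 hg z hz
    have : g⁻¹ * z * g⁻¹⁻¹ = z := by rw [inv_inv, mul_assoc, h1]; group
    rw [this]; exact hz
  rw [Subgroup.mem_normalizer_iff]
  intro q
  constructor
  · exact h.normZ g hz q
  · intro hq
    have := h.normZ g⁻¹ hz' _ hq
    have e : g⁻¹ * (g * q * g⁻¹) * g⁻¹⁻¹ = q := by group
    rwa [e] at this

theorem normQ' (h : Cfg Z Q) {g : G} (hg : g ∈ centralizer (Z : Set G)) {q : G} (hq : q ∈ Q) :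
    g * q * g⁻¹ ∈ Q := (Subgroup.mem_normalizer_iff.1 (h.normQ hg) q).1 hq

/-- conjugation -/
theorem map (h : Cfg Z Q) (φ : G ≃* G) : Cfg (Z.map φ.toMonoidHom) (Q.map φ.toMonoidHom) := by
  have hcent : centralizer ((Z.map φ.toMonoidHom : Subgroup G) : Set G)
      = (centralizer (Z : Set G)).map φ.toMonoidHom := by
    ext x
    rw [Subgroup.mem_centralizer_iff]
    constructor
    · intro hx
      refine ⟨φ.symm x, ?_, by simp⟩
      rw [SetLike.mem_coe, Subgroup.mem_centralizer_iff]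
      intro z hz
      apply φ.injective
      have := hx (φ z) ⟨z, hz, rfl⟩
      simpa only [_root_.map_mul, _root_.MulEquiv.apply_symm_apply] using this
    · rintro ⟨y, hy, rfl⟩ _ ⟨z, hz, rfl⟩
      have := Subgroup.mem_centralizer_iff.1 hy z hz
      show φ z * φ y = φ y * φ z
      rw [← map_mul, this, map_mul]
  have hcard : ∀ K : Subgroup G, Nat.card ↥(K.map φ.toMonoidHom) = Nat.card ↥K := fun K =>
    (Nat.card_congr (K.equivMapOfInjective φ.toMonoidHom φ.injective).toEquiv).symm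
  refine ⟨?_, ?_, ?_, ?_, ?_, ?_, ?_, ?_, ?_, ?_⟩
  · rw [hcard, h.cardZ]
  · rw [hcard, h.cardQ]
  · exact Subgroup.map_mono h.le
  · rw [hcent]; exact Subgroup.map_mono h.leC
  · rintro g hg _ ⟨q, hq, rfl⟩
    refine ⟨φ.symm g * q * (φ.symm g)⁻¹, ?_, by simp only [_root_.MulEquiv.toMonoidHom_eq_coe, _root_.MonoidHom.coe_coe, _root_.map_mul, _root_.MulEquiv.apply_symm_apply, _root_.map_inv]⟩
    apply h.normZ _ _ q hq
    intro z hz
    obtain ⟨w, hw, he⟩ := hg (φ z) ⟨z, hz, rfl⟩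
    have : φ.symm g * z * (φ.symm g)⁻¹ = w := by
      apply φ.injective
      have he' : φ w = g * φ z * g⁻¹ := he
      rw [he']; simp only [_root_.map_mul, _root_.MulEquiv.apply_symm_apply, _root_.map_inv]
    rw [this]; exact hw
  · rintro _ ⟨a, ha, rfl⟩ _ ⟨b, hb, rfl⟩
    exact ⟨a * b * a⁻¹ * b⁻¹, h.comm a ha b hb, by simp only [_root_.MulEquiv.toMonoidHom_eq_coe, _root_.MonoidHom.coe_coe, _root_.map_mul, _root_.map_inv]⟩
  · rintro _ ⟨a, ha, rfl⟩ hab
    refine ⟨a, h.cen a ha ?_, rfl⟩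
    intro b hb
    apply φ.injective
    have := hab (φ b) ⟨b, hb, rfl⟩
    rw [map_mul, map_mul]; exact this
  · rintro _ ⟨a, ha, rfl⟩
    show φ a * φ a * φ a = 1
    rw [← map_mul, ← map_mul, h.exp a ha, map_one]
  · intro x hx
    rw [Subgroup.mem_centralizer_iff] at hx
    refine ⟨φ.symm x, ?_, by simp⟩
    apply h.CQ
    rw [Subgroup.mem_centralizer_iff]
    intro q hq
    apply φ.injective
    have := hx (φ q) ⟨q, hq, rfl⟩
    simpa only [_root_.map_mul, _root_.MulEquiv.apply_symm_apply] using this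
  · rw [hcent, hcard, h.cardC]

end Cfg

end Cfsg.Agent.H352.L43
end

-- part: H352/L43/Two
section
/-!
# Two configurations `(Z, Q)`, `(Y, R)` with `Y ≤ Q`: the intersection `A = Q ∩ R` (helper352)
-/

set_option autoImplicit false

namespace Cfsg.Agent.H352.L43

open scoped commutatorElement IsMulCommutative
open Subgroup

variable {G : Type*} [Group G]

theorem eq_of_mem_ne_one {Z Y : Subgroup G} (hZ : Nat.card ↥Z = 3) (hY : Nat.card ↥Y = 3) {x : G} (hx : x ≠ 1)
    (h1 : x ∈ Z) (h2 : x ∈ Y) : Z = Y := by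
  have key : ∀ W : Subgroup G, Nat.card ↥W = 3 → x ∈ W → zpowers x = W := by
    intro W hW hxW
    have hfin : Finite ↥W := Nat.finite_of_card_ne_zero (by rw [hW]; norm_num)
    have hle : zpowers x ≤ W := by rwa [Subgroup.zpowers_le]
    apply Subgroup.eq_of_le_of_card_ge hle
    have h3 : Nat.card ↥(zpowers x) ∣ 3 := by rw [← hW]; exact Subgroup.card_dvd_of_le hle
    rcases (Nat.dvd_prime Nat.prime_three).1 h3 with h | h
    · exfalso; apply hx
      have := Subgroup.eq_bot_of_card_eq _ h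
      rwa [Subgroup.zpowers_eq_bot] at this
    · rw [h, hW]
  rw [← key Z hZ h1, ← key Y hY h2]

namespace Cfg

variable {Z Q : Subgroup G}

theorem subgroupOf_cent (h : Cfg Z Q) {y : G} (hy : y ∈ Q) :
    (Q ⊓ centralizer {y}).subgroupOf Q = (pairHom h.hc ⟨y, hy⟩).ker := by
  ext a
  rw [Subgroup.mem_subgroupOf, mem_ker_pairHom, Subgroup.mem_inf, Subgroup.mem_centralizer_singleton_iff]
  constructor
  · intro ha
    exact Subtype.ext ha.2.symm
  · intro ha
    exact ⟨a.2, (congrArg Subtype.val ha).symm⟩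

theorem cent_card (h : Cfg Z Q) {y : G} (hy : y ∈ Q) (hyZ : y ∉ Z) :
    Nat.card ↥(Q ⊓ centralizer {y}) = 81 := by
  have hfin := h.finiteQ
  have h1 := h.subgroupOf_cent hy
  have h2 : Nat.card ↥((Q ⊓ centralizer {y}).subgroupOf Q) = Nat.card ↥(Q ⊓ centralizer {y}) :=
    Nat.card_congr (Subgroup.subgroupOfEquivOfLe inf_le_left).toEquiv
  rw [← h2, h1]
  have h3 := Subgroup.card_mul_index (pairHom h.hc ⟨y, hy⟩).ker
  rw [index_ker_pairHom h.hc h.card_center (by
    rw [h.center_eq, Subgroup.mem_subgroupOf]; exact hyZ), h.cardQ] at h3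
  omega

theorem cent2_card (h : Cfg Z Q) {y y' : G} (hy : y ∈ Q) (hyZ : y ∉ Z) (hy' : y' ∈ Q)
    (hyy : ∀ k : ℤ, y' * y ^ k ∉ Z) :
    Nat.card ↥(Q ⊓ centralizer {y} ⊓ centralizer {y'}) = 27 := by
  have hfin := h.finiteQ
  have h1 := h.subgroupOf_cent hy
  have h1' := h.subgroupOf_cent hy'
  have h2 : Nat.card ↥((Q ⊓ centralizer {y} ⊓ centralizer {y'}).subgroupOf Q)
      = Nat.card ↥(Q ⊓ centralizer {y} ⊓ centralizer {y'}) :=
    Nat.card_congr (Subgroup.subgroupOfEquivOfLe (inf_le_left.trans inf_le_left)).toEquiv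
  have h3 : (Q ⊓ centralizer {y} ⊓ centralizer {y'}).subgroupOf Q =
      (pairHom h.hc ⟨y, hy⟩).ker ⊓ (pairHom h.hc ⟨y', hy'⟩).ker := by
    rw [← h1, ← h1']
    ext a
    simp only [Subgroup.mem_subgroupOf, Subgroup.mem_inf]
    (clear * -; tauto)
  rw [← h2, h3]
  have h4 := Subgroup.card_mul_index ((pairHom h.hc ⟨y, hy⟩).ker ⊓ (pairHom h.hc ⟨y', hy'⟩).ker)
  rw [relIndex_two h.hc h.card_center (by
    rw [h.center_eq, Subgroup.mem_subgroupOf]; exact hyZ) (by
    intro k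
    rw [h.center_eq, Subgroup.mem_subgroupOf]; exact hyy k), h.cardQ] at h4
  omega

/-- an element outside `Z⟨y⟩` in a big subgroup -/
theorem exists_out (h : Cfg Z Q) {D : Subgroup G} (_hD : D ≤ Q) (hcard : 9 < Nat.card ↥D) {y : G}
    (hy : y ∈ Q) : ∃ y' ∈ D, ∀ k : ℤ, y' * y ^ k ∉ Z := by
  by_contra hcon
  push Not at hcon
  -- then `D ≤ Z ⊔ ⟨y⟩`, of order at most 9
  have hfin := h.finiteQ
  have hn : ∀ z ∈ Z, z * y = y * z := fun z hz => (Subgroup.mem_centralizer_iff.1 (h.leC hy) z hz)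
  let φ : ↥Z × ZMod 3 → G := fun p => p.1 * y ^ (p.2.val)
  have hD' : (D : Set G) ⊆ Set.range φ := by
    intro d hd
    obtain ⟨k, hk⟩ := hcon d hd
    have hy3 : y ^ (3 : ℤ) = 1 := by
      have := h.exp y hy
      rw [show (3 : ℤ) = 1 + 1 + 1 by norm_num, zpow_add, zpow_add, zpow_one, this]
    refine ⟨(⟨d * y ^ k, hk⟩, (((-k : ℤ)) : ZMod 3)), ?_⟩
    have hval : ∃ m : ℤ, (((((-k : ℤ)) : ZMod 3)).val : ℤ) = -k + 3 * m := by
      have h1 := ZMod.val_intCast (n := 3) (-k)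
      refine ⟨-((-k) / 3), ?_⟩
      rw [h1]
      have := Int.emod_add_mul_ediv (-k) 3
      push_cast
      omega
    obtain ⟨m, hm⟩ := hval
    show d * y ^ k * y ^ (((((-k : ℤ)) : ZMod 3)).val) = d
    rw [← zpow_natCast, hm, zpow_add, zpow_mul, hy3, one_zpow, mul_one, mul_assoc, ← zpow_add]
    simp
  have hZfin : Finite ↥Z := Nat.finite_of_card_ne_zero (by rw [h.cardZ]; norm_num)
  have h1 : Nat.card ↥D ≤ Nat.card (Set.range φ) := Nat.card_mono (Set.finite_range φ) hD'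
  have h2 : Nat.card (Set.range φ) ≤ Nat.card (↥Z × ZMod 3) := by
    exact Finite.card_range_le φ
  rw [Nat.card_prod, h.cardZ, Nat.card_zmod] at h2
  omega

end Cfg

/-- two configurations with `Y ≤ Q` -/
structure Two (Z Q Y R : Subgroup G) : Prop where
  h : Cfg Z Q
  h' : Cfg Y R
  YQ : Y ≤ Q
  ne : Y ≠ Z

namespace Two

variable {Z Q Y R : Subgroup G}

theorem disj (t : Two Z Q Y R) {x : G} (h1 : x ∈ Z) (h2 : x ∈ Y) : x = 1 := by
  by_contra hx
  exact t.ne (eq_of_mem_ne_one t.h.cardZ t.h'.cardZ hx h1 h2).symm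

theorem cent_Y (t : Two Z Q Y R) {y : G} (hy : y ∈ Y) (hy1 : y ≠ 1) : centralizer ({y} : Set G) = centralizer (Y : Set G) := by
  apply le_antisymm
  · intro x hx
    rw [Subgroup.mem_centralizer_singleton_iff] at hx
    rw [Subgroup.mem_centralizer_iff]
    intro w hw
    have hz : zpowers y = Y := by
      have hc3 : Nat.card ↥(zpowers y) = 3 := by
        have h3 : Nat.card ↥(zpowers y) ∣ 3 := by
          rw [← t.h'.cardZ]; exact Subgroup.card_dvd_of_le (by rwa [Subgroup.zpowers_le])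
        rcases (Nat.dvd_prime Nat.prime_three).1 h3 with h | h
        · exfalso; apply hy1
          have := Subgroup.eq_bot_of_card_eq _ h
          rwa [Subgroup.zpowers_eq_bot] at this
        · exact h
      exact eq_of_mem_ne_one hc3 t.h'.cardZ hy1 (Subgroup.mem_zpowers y) hy
    rw [← hz] at hw
    obtain ⟨k, rfl⟩ := Subgroup.mem_zpowers_iff.1 hw
    have : Commute x y := hx
    exact (this.symm.zpow_left k)
  · exact Subgroup.centralizer_le (by simpa using hy)

theorem exists_y (t : Two Z Q Y R) : ∃ y ∈ Y, y ≠ 1 := by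
  by_contra hcon
  push Not at hcon
  have : Y = ⊥ := by rw [eq_bot_iff]; intro x hx; exact hcon x hx
  have h2 := t.h'.cardZ
  rw [this] at h2
  simp at h2

theorem notMem (t : Two Z Q Y R) {y : G} (hy : y ∈ Y) (hy1 : y ≠ 1) : y ∉ Z := fun h => hy1 (t.disj h hy)

/-- `D = C_Q(Y)` has order `81` -/
theorem card_D (t : Two Z Q Y R) : Nat.card ↥(Q ⊓ centralizer (Y : Set G)) = 81 := by
  obtain ⟨y, hy, hy1⟩ := t.exists_y
  rw [← t.cent_Y hy hy1]
  exact t.h.cent_card (t.YQ hy) (t.notMem hy hy1)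

theorem A_le (t : Two Z Q Y R) : Q ⊓ R ≤ Q ⊓ centralizer (Y : Set G) :=
  le_inf inf_le_left (inf_le_right.trans t.h'.leC)

theorem not_le (t : Two Z Q Y R) : ¬ (Q ⊓ centralizer (Y : Set G) ≤ R) := by
  intro hle
  obtain ⟨y, hy, hy1⟩ := t.exists_y
  obtain ⟨y', hy', hyy⟩ := t.h.exists_out (D := Q ⊓ centralizer (Y : Set G)) inf_le_left
    (by rw [t.card_D]; norm_num) (t.YQ hy)
  have h27 := t.h.cent2_card (t.YQ hy) (t.notMem hy hy1) hy'.1 hyy
  have hle2 : Q ⊓ centralizer (Y : Set G) ≤ Q ⊓ centralizer {y} ⊓ centralizer {y'} := by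
    rw [t.cent_Y hy hy1]
    refine le_inf le_rfl ?_
    intro x hx
    rw [Subgroup.mem_centralizer_singleton_iff]
    have h1 := t.h.comm x hx.1 y' hy'.1
    have h2 := t.h'.comm x (hle hx) y' (hle hy')
    have h3 := t.disj h1 h2
    calc x * y' = (x * y' * x⁻¹ * y'⁻¹) * (y' * x) := by group
      _ = y' * x := by rw [h3, one_mul]
  have hfin := t.h.finiteQ
  have hfin2 : Finite ↥(Q ⊓ centralizer {y} ⊓ centralizer {y'}) :=
    Nat.finite_of_card_ne_zero (by rw [h27]; norm_num)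
  have := Subgroup.card_dvd_of_le hle2
  rw [t.card_D, h27] at this
  omega

/-- `|A| = 27` -/
theorem card_A (t : Two Z Q Y R) : Nat.card ↥(Q ⊓ R) = 27 := by
  have hEq : (Q ⊓ centralizer (Y : Set G)) ⊓ R = Q ⊓ R := by
    apply le_antisymm
    · exact le_inf (inf_le_left.trans inf_le_left) inf_le_right
    · exact le_inf t.A_le inf_le_right
  -- the relative index
  set D := Q ⊓ centralizer (Y : Set G)
  set C' := centralizer (Y : Set G) with hC'
  have hDC : D ≤ C' := inf_le_right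
  have hRn : (R.subgroupOf C').Normal := by
    rw [Subgroup.normal_subgroupOf_iff_le_normalizer t.h'.leC]
    intro g hg
    exact t.h'.normQ hg
  have hidx : (R.subgroupOf C').index = 24 := by
    have h1 := Subgroup.card_mul_index (R.subgroupOf C')
    rw [t.h'.cardC, Nat.card_congr (Subgroup.subgroupOfEquivOfLe t.h'.leC).toEquiv, t.h'.cardQ] at h1
    omega
  have h2 : (R.subgroupOf C').relIndex (D.subgroupOf C') ∣ 24 := by
    rw [← hidx]
    exact Subgroup.relIndex_dvd_index_of_normal _ _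
  have h3 : (R.subgroupOf C').relIndex (D.subgroupOf C') = R.relIndex D := by
    exact Subgroup.relIndex_subgroupOf hDC
  rw [h3] at h2
  have h4 : R.relIndex D ∣ 81 := by
    rw [← t.card_D]
    exact Subgroup.relIndex_dvd_card R D
  have h5 : R.relIndex D ∣ 3 := by
    have := Nat.dvd_gcd h2 h4
    norm_num at this
    exact this
  have h6 : R.relIndex D ≠ 1 := by
    intro h7
    exact t.not_le (Subgroup.relIndex_eq_one.1 h7)
  have h7 : R.relIndex D = 3 := ((Nat.dvd_prime Nat.prime_three).1 h5).resolve_left h6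
  have h8 := Subgroup.relIndex_mul_relIndex (⊥ : Subgroup G) (D ⊓ R) D bot_le inf_le_left
  rw [Subgroup.relIndex_bot_left, Subgroup.relIndex_bot_left, t.card_D, Subgroup.inf_relIndex_left, h7, hEq] at h8
  omega

/-- `A` is abelian -/
theorem comm_A (t : Two Z Q Y R) {a b : G} (ha : a ∈ Q ⊓ R) (hb : b ∈ Q ⊓ R) : a * b = b * a := by
  have h1 := t.h.comm a ha.1 b hb.1
  have h2 := t.h'.comm a ha.2 b hb.2
  have h3 := t.disj h1 h2
  calc a * b = (a * b * a⁻¹ * b⁻¹) * (b * a) := by group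
    _ = b * a := by rw [h3, one_mul]

theorem Y_le_A (t : Two Z Q Y R) : Y ≤ Q ⊓ R := le_inf t.YQ t.h'.le

/-- `C_Q(A) = A` -/
theorem cent_A (t : Two Z Q Y R) {x : G} (hx : x ∈ Q) (hxA : ∀ a ∈ Q ⊓ R, x * a = a * x) : x ∈ Q ⊓ R := by
  obtain ⟨y, hy, hy1⟩ := t.exists_y
  obtain ⟨y', hy', hyy⟩ := t.h.exists_out (D := Q ⊓ R) inf_le_left
    (by rw [t.card_A]; norm_num) (t.YQ hy)
  have h27 := t.h.cent2_card (t.YQ hy) (t.notMem hy hy1) hy'.1 hyy
  have hle2 : Q ⊓ R ≤ Q ⊓ centralizer {y} ⊓ centralizer {y'} := by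
    intro a ha
    refine ⟨⟨ha.1, ?_⟩, ?_⟩
    · exact Subgroup.mem_centralizer_singleton_iff.2 (t.comm_A ha (t.Y_le_A hy))
    · exact Subgroup.mem_centralizer_singleton_iff.2 (t.comm_A ha hy')
  have hfin2 : Finite ↥(Q ⊓ centralizer {y} ⊓ centralizer {y'}) :=
    Nat.finite_of_card_ne_zero (by rw [h27]; norm_num)
  have hEq : Q ⊓ R = Q ⊓ centralizer {y} ⊓ centralizer {y'} :=
    Subgroup.eq_of_le_of_card_ge hle2 (by rw [h27, t.card_A])
  rw [hEq]
  refine ⟨⟨hx, ?_⟩, ?_⟩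
  · exact Subgroup.mem_centralizer_singleton_iff.2 (hxA y (t.Y_le_A hy))
  · exact Subgroup.mem_centralizer_singleton_iff.2 (hxA y' hy')

theorem Z_le_A (t : Two Z Q Y R) : Z ≤ Q ⊓ R := by
  intro z hz
  apply t.cent_A (t.h.le hz)
  intro a ha
  exact Subgroup.mem_centralizer_iff.1 (t.h.leC ha.1) z hz

/-- the symmetric situation -/
theorem symm (t : Two Z Q Y R) : Two Y R Z Q :=
  ⟨t.h', t.h, t.Z_le_A.trans inf_le_right, t.ne.symm⟩

theorem eq_or_inv {W : Subgroup G} (hW : Nat.card ↥W = 3) {x y : G} (hx : x ∈ W) (hy : y ∈ W) (hx1 : x ≠ 1)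
    (hy1 : y ≠ 1) : x = y ∨ x = y⁻¹ := by
  have hc3 : Nat.card ↥(zpowers y) = 3 := by
    have h3 : Nat.card ↥(zpowers y) ∣ 3 := by
      rw [← hW]; exact Subgroup.card_dvd_of_le (by rwa [Subgroup.zpowers_le])
    rcases (Nat.dvd_prime Nat.prime_three).1 h3 with h | h
    · exfalso; apply hy1
      have := Subgroup.eq_bot_of_card_eq _ h
      rwa [Subgroup.zpowers_eq_bot] at this
    · exact h
  have hz : zpowers y = W := eq_of_mem_ne_one hc3 hW hy1 (Subgroup.mem_zpowers y) hy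
  rw [← hz] at hx
  obtain ⟨k, rfl⟩ := Subgroup.mem_zpowers_iff.1 hx
  have hord : orderOf y = 3 := by rw [← Nat.card_zpowers]; exact hc3
  have h3 : y ^ (3 : ℤ) = 1 := by
    have := pow_orderOf_eq_one y
    rw [hord] at this
    exact_mod_cast this
  have hk : k % 3 = 0 ∨ k % 3 = 1 ∨ k % 3 = 2 := by omega
  rcases hk with h | h | h
  · exfalso; apply hx1
    rw [show k = 3 * (k / 3) by omega, zpow_mul, h3, one_zpow]
  · left
    rw [show k = 3 * (k / 3) + 1 by omega, zpow_add, zpow_mul, h3, one_zpow, one_mul, zpow_one]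
  · right
    rw [show k = 3 * (k / 3 + 1) + (-1) by omega, zpow_add, zpow_mul, h3, one_zpow, one_mul, zpow_neg_one]

/-- `g` acts trivially on `A / ZY` -/
def Sm (Z Q Y R : Subgroup G) (g : G) : Prop := ∀ a ∈ Q ⊓ R, g * a * g⁻¹ * a⁻¹ ∈ Z ⊔ Y

theorem B_le (t : Two Z Q Y R) : Z ⊔ Y ≤ Q ⊓ R := sup_le t.Z_le_A t.Y_le_A

theorem Sm.mul (t : Two Z Q Y R) {g h : G} (hg : Sm Z Q Y R g) (hh : Sm Z Q Y R h) : Sm Z Q Y R (g * h) := by
  intro a ha
  have h1 := hh a ha
  have h2 := hg _ (t.B_le h1)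
  have h3 := hg a ha
  have h4 := (Z ⊔ Y).mul_mem h2 ((Z ⊔ Y).mul_mem h1 h3)
  have h5 : g * (h * a * h⁻¹ * a⁻¹) * g⁻¹ * (h * a * h⁻¹ * a⁻¹)⁻¹ * ((h * a * h⁻¹ * a⁻¹) * (g * a * g⁻¹ * a⁻¹))
      = g * h * a * (g * h)⁻¹ * a⁻¹ := by group
  rwa [h5] at h4

theorem Sm.mem (t : Two Z Q Y R) {g : G} (hg : Sm Z Q Y R g) {a : G} (ha : a ∈ Q ⊓ R) : g * a * g⁻¹ ∈ Q ⊓ R := by
  have h1 := (Q ⊓ R).mul_mem (t.B_le (hg a ha)) ha
  have h2 : g * a * g⁻¹ * a⁻¹ * a = g * a * g⁻¹ := by group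
  rwa [h2] at h1

theorem Sm.of_Q (t : Two Z Q Y R) {q : G} (hq : q ∈ Q) : Sm Z Q Y R q := fun a ha =>
  (le_sup_left : Z ≤ Z ⊔ Y) (t.h.comm q hq a ha.1)

theorem Sm.of_R (t : Two Z Q Y R) {q : G} (hq : q ∈ R) : Sm Z Q Y R q := fun a ha =>
  (le_sup_right : Y ≤ Z ⊔ Y) (t.h'.comm q hq a ha.2)

/-- the element `g` of `⟨Q, R⟩` swapping `Z` and `Y` -/
theorem exists_swap (t : Two Z Q Y R) : ∃ z ∈ Z, ∃ y ∈ Y, z ≠ 1 ∧ y ≠ 1 ∧ ∃ g : G, Sm Z Q Y R g ∧
    g * z * g⁻¹ = y⁻¹ ∧ g * y * g⁻¹ = z := by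
  obtain ⟨y, hy, hy1⟩ := t.exists_y
  obtain ⟨q, hq, hqy⟩ : ∃ q ∈ Q, y * q ≠ q * y := by
    by_contra hcon
    push Not at hcon
    exact t.notMem hy hy1 (t.h.cen y (t.YQ hy) hcon)
  have hzmem := t.h.comm q hq y (t.YQ hy)
  set z := q * y * q⁻¹ * y⁻¹ with hz
  have hz1 : z ≠ 1 := by
    intro h1
    apply hqy
    have : q * y * q⁻¹ = y := by
      have := congrArg (· * y) h1
      simpa only [hz, _root_.inv_mul_cancel_right, _root_.one_mul] using this
    calc y * q = q * y * q⁻¹ * q := by rw [this]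
      _ = q * y := by group
  have hqz : q * y * q⁻¹ = z * y := by rw [hz]; group
  clear_value z
  have hZR : Z ≤ R := t.symm.YQ
  obtain ⟨r, hr, hrz⟩ : ∃ r ∈ R, r * z * r⁻¹ = y⁻¹ * z := by
    obtain ⟨r, hr, hrz⟩ : ∃ r ∈ R, z * r ≠ r * z := by
      by_contra hcon
      push Not at hcon
      exact t.symm.notMem hzmem hz1 (t.h'.cen z (hZR hzmem) hcon)
    have h1 := t.h'.comm r hr z (hZR hzmem)
    have h2 : r * z * r⁻¹ * z⁻¹ ≠ 1 := by
      intro h3
      apply hrz
      have h4 : r * z * r⁻¹ = z := by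
        have := congrArg (· * z) h3
        simpa only [_root_.inv_mul_cancel_right, _root_.one_mul] using this
      calc z * r = r * z * r⁻¹ * r := by rw [h4]
        _ = r * z := by group
    have hyR := t.h'.le hy
    have hyr : y * r = r * y := Subgroup.mem_centralizer_iff.1 (t.h'.leC hr) y hy
    rcases eq_or_inv t.h'.cardZ h1 hy h2 hy1 with h3 | h3
    · refine ⟨r⁻¹, R.inv_mem hr, ?_⟩
      have h4 : r * z * r⁻¹ = y * z := by rw [← h3]; group
      have h5 : r⁻¹ * y = y * r⁻¹ := by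
        calc r⁻¹ * y = r⁻¹ * (y * r) * r⁻¹ := by group
          _ = r⁻¹ * (r * y) * r⁻¹ := by rw [hyr]
          _ = y * r⁻¹ := by group
      have h6 : z = r⁻¹ * (y * z) * r := by rw [← h4]; group
      have h7 : z = y * (r⁻¹ * z * r⁻¹⁻¹) := by
        calc z = r⁻¹ * (y * z) * r := h6
          _ = (r⁻¹ * y) * z * r := by group
          _ = (y * r⁻¹) * z * r := by rw [h5]
          _ = y * (r⁻¹ * z * r⁻¹⁻¹) := by group
      calc r⁻¹ * z * r⁻¹⁻¹ = y⁻¹ * (y * (r⁻¹ * z * r⁻¹⁻¹)) := by group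
        _ = y⁻¹ * z := by rw [← h7]
    · refine ⟨r, hr, ?_⟩
      rw [← h3]; group
  have hcomm : y * z = z * y := t.comm_A (t.Y_le_A hy) (t.Z_le_A hzmem)
  have hqz' : q * z * q⁻¹ = z := by
    have := Subgroup.mem_centralizer_iff.1 (t.h.leC hq) z hzmem
    rw [← this]; group
  have hry' : r * y * r⁻¹ = y := by
    have := Subgroup.mem_centralizer_iff.1 (t.h'.leC hr) y hy
    rw [← this]; group
  refine ⟨z, hzmem, y, hy, hz1, hy1, q * r * q, ?_, ?_, ?_⟩
  · exact ((Sm.of_Q t hq).mul t (Sm.of_R t hr)).mul t (Sm.of_Q t hq)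
  · calc q * r * q * z * (q * r * q)⁻¹ = q * (r * (q * z * q⁻¹) * r⁻¹) * q⁻¹ := by group
      _ = q * (y⁻¹ * z) * q⁻¹ := by rw [hqz', hrz]
      _ = (q * y * q⁻¹)⁻¹ * (q * z * q⁻¹) := by group
      _ = (z * y)⁻¹ * z := by rw [hqz, hqz']
      _ = y⁻¹ := by group
  · calc q * r * q * y * (q * r * q)⁻¹ = q * (r * (q * y * q⁻¹) * r⁻¹) * q⁻¹ := by group
      _ = q * ((r * z * r⁻¹) * (r * y * r⁻¹)) * q⁻¹ := by rw [hqz]; group
      _ = q * (y⁻¹ * z * y) * q⁻¹ := by rw [hrz, hry']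
      _ = q * z * q⁻¹ := by rw [mul_assoc y⁻¹, ← hcomm]; group
      _ = z := hqz'

/-- the element `τ` -/
structure Tau (Z Q Y R : Subgroup G) (τ : G) : Prop where
  zinv : ∀ z ∈ Z, τ * z * τ⁻¹ = z⁻¹
  yinv : ∀ z ∈ Y, τ * z * τ⁻¹ = z⁻¹
  sm : Sm Z Q Y R τ

theorem inv_of_gen {W : Subgroup G} (hW : Nat.card ↥W = 3) {x τ : G} (hx : x ∈ W) (hx1 : x ≠ 1)
    (h : τ * x * τ⁻¹ = x⁻¹) : ∀ w ∈ W, τ * w * τ⁻¹ = w⁻¹ := by
  intro w hw
  by_cases hw1 : w = 1
  · rw [hw1]; simp
  rcases eq_or_inv hW hw hx hw1 hx1 with h1 | h1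
  · rw [h1]; exact h
  · rw [h1]
    have := congrArg (·⁻¹) h
    simp only [mul_inv_rev, inv_inv] at this
    rw [← mul_assoc] at this
    rw [inv_inv]; exact this

theorem exists_tau (t : Two Z Q Y R) : ∃ τ, Tau Z Q Y R τ := by
  obtain ⟨z, hz, y, hy, hz1, hy1, g, hg, h1, h2⟩ := t.exists_swap
  refine ⟨g * g, inv_of_gen t.h.cardZ hz hz1 ?_, inv_of_gen t.h'.cardZ hy hy1 ?_, hg.mul t hg⟩
  · calc g * g * z * (g * g)⁻¹ = g * (g * z * g⁻¹) * g⁻¹ := by group
      _ = (g * y * g⁻¹)⁻¹ := by rw [h1]; group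
      _ = z⁻¹ := by rw [h2]
  · calc g * g * y * (g * g)⁻¹ = g * (g * y * g⁻¹) * g⁻¹ := by group
      _ = y⁻¹ := by rw [h2, h1]

theorem Tau.symm (t : Two Z Q Y R) {τ : G} (h : Tau Z Q Y R τ) : Tau Y R Z Q τ := by
  refine ⟨h.yinv, h.zinv, ?_⟩
  intro a ha
  rw [sup_comm]
  exact h.sm a ⟨ha.2, ha.1⟩

theorem Tau.normQ (t : Two Z Q Y R) {τ : G} (h : Tau Z Q Y R τ) {q : G} (hq : q ∈ Q) : τ * q * τ⁻¹ ∈ Q := by
  apply t.h.normZ τ ?_ q hq
  intro z hz
  rw [h.zinv z hz]; exact Z.inv_mem hz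

theorem Tau.centZ (t : Two Z Q Y R) {τ : G} (h : Tau Z Q Y R τ) {q : G} (hq : q ∈ centralizer (Z : Set G)) :
    τ * q * τ⁻¹ ∈ centralizer (Z : Set G) := by
  rw [Subgroup.mem_centralizer_iff] at hq ⊢
  intro z hz
  have h1 := hq z⁻¹ (Z.inv_mem hz)
  have h2 : z = τ * z⁻¹ * τ⁻¹ := by rw [h.zinv _ (Z.inv_mem hz), inv_inv]
  calc z * (τ * q * τ⁻¹) = τ * z⁻¹ * τ⁻¹ * (τ * q * τ⁻¹) := by rw [← h2]
    _ = τ * (z⁻¹ * q) * τ⁻¹ := by group
    _ = τ * (q * z⁻¹) * τ⁻¹ := by rw [h1]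
    _ = τ * q * τ⁻¹ * (τ * z⁻¹ * τ⁻¹) := by group
    _ = τ * q * τ⁻¹ * z := by rw [← h2]

/-- `τ` inverts `D / A` -/
theorem Tau.inv_D (t : Two Z Q Y R) {τ : G} (h : Tau Z Q Y R τ) {w : G} (hw : w ∈ Q)
    (hwY : w ∈ centralizer (Y : Set G)) : τ * w * τ⁻¹ * w ∈ Q ⊓ R := by
  have hw' : τ * w * τ⁻¹ ∈ Q := h.normQ t hw
  have hwY' : τ * w * τ⁻¹ ∈ centralizer (Y : Set G) := (h.symm t).centZ t.symm hwY
  apply t.cent_A (Q.mul_mem hw' hw)
  intro a ha
  obtain ⟨β, hβ, hβa⟩ : ∃ β ∈ Z ⊔ Y, τ * a * τ⁻¹ = β * a := ⟨_, h.sm a ha, by group⟩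
  have hβA : β ∈ Q ⊓ R := t.B_le hβ
  -- `w' = τ w τ⁻¹` commutes with `β`
  have hwβ : (τ * w * τ⁻¹) * β = β * (τ * w * τ⁻¹) := by
    have hle : Z ⊔ Y ≤ centralizer ({τ * w * τ⁻¹} : Set G) := by
      apply sup_le
      · intro z hz
        rw [Subgroup.mem_centralizer_singleton_iff]
        exact Subgroup.mem_centralizer_iff.1 (t.h.leC hw') z hz
      · intro y hy
        rw [Subgroup.mem_centralizer_singleton_iff]
        exact Subgroup.mem_centralizer_iff.1 hwY' y hy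
    exact (Subgroup.mem_centralizer_singleton_iff.1 (hle hβ)).symm
  set c := w * a * w⁻¹ * a⁻¹ with hc
  have hcZ : c ∈ Z := t.h.comm w hw a ha.1
  have h1 : τ * c * τ⁻¹ = c⁻¹ := h.zinv c hcZ
  have h2 : τ * c * τ⁻¹ = (τ * w * τ⁻¹) * (β * a) * (τ * w * τ⁻¹)⁻¹ * (β * a)⁻¹ := by
    rw [← hβa, hc]; group
  have h3 : (τ * w * τ⁻¹) * (β * a) * (τ * w * τ⁻¹)⁻¹ * (β * a)⁻¹
      = β * ((τ * w * τ⁻¹) * a * (τ * w * τ⁻¹)⁻¹ * a⁻¹) * β⁻¹ := by
    calc _ = ((τ * w * τ⁻¹) * β) * a * (τ * w * τ⁻¹)⁻¹ * a⁻¹ * β⁻¹ := by group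
      _ = (β * (τ * w * τ⁻¹)) * a * (τ * w * τ⁻¹)⁻¹ * a⁻¹ * β⁻¹ := by rw [hwβ]
      _ = _ := by group
  set c' := (τ * w * τ⁻¹) * a * (τ * w * τ⁻¹)⁻¹ * a⁻¹ with hc'
  have hc'Z : c' ∈ Z := t.h.comm _ hw' a ha.1
  have h4 : β * c' * β⁻¹ = c' := by
    have := Subgroup.mem_centralizer_iff.1 (t.h.leC hβA.1) c' hc'Z
    rw [← this]; group
  have h5 : c' = c⁻¹ := by rw [← h4, ← h3, ← h2, h1]
  -- conclusion
  have h6 : (τ * w * τ⁻¹) * c = c * (τ * w * τ⁻¹) :=
    (Subgroup.mem_centralizer_iff.1 (t.h.leC hw') c hcZ).symm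
  have e1 : w * a = c * (a * w) := by rw [hc]; group
  have e2 : (τ * w * τ⁻¹) * a = c⁻¹ * (a * (τ * w * τ⁻¹)) := by rw [← h5, hc']; group
  calc τ * w * τ⁻¹ * w * a = (τ * w * τ⁻¹) * (w * a) := by group
    _ = (τ * w * τ⁻¹) * (c * (a * w)) := by rw [e1]
    _ = ((τ * w * τ⁻¹) * c) * (a * w) := by group
    _ = (c * (τ * w * τ⁻¹)) * (a * w) := by rw [h6]
    _ = c * ((τ * w * τ⁻¹) * a) * w := by group
    _ = c * (c⁻¹ * (a * (τ * w * τ⁻¹))) * w := by rw [e2]
    _ = a * (τ * w * τ⁻¹ * w) := by group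

end Two

end Cfsg.Agent.H352.L43
end

-- part: H352/L43/Rep
section
/-!
# The action of `SL(2,3)` on `Q / Z` and the invariance of `A = Q ∩ R` (helper352)
-/

set_option autoImplicit false

namespace Cfsg.Agent.H352.L43

open scoped commutatorElement IsMulCommutative
open Subgroup

/-- `SL(2,3)` -/
abbrev S3 := Matrix.SpecialLinearGroup (Fin 2) (ZMod 3)

/-- element of order 4 -/
def i0 : S3 := ⟨!![0, -1; 1, 0], by decide⟩
/-- element of order 4 -/
def j0 : S3 := ⟨!![1, 1; 1, -1], by decide⟩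
/-- element of order 3 -/
def u0 : S3 := ⟨!![1, 1; 0, 1], by decide⟩

theorem r1 : i0 * i0 = -1 := by decide
theorem r2 : j0 * j0 = -1 := by decide
theorem r3 : j0 * i0 = (-1) * (i0 * j0) := by decide
theorem r4 : u0 * i0 = j0 * u0 := by decide
theorem r5 : u0 * j0 = i0 * j0 * u0 := by decide
theorem r6 : u0 * u0 * u0 = 1 := by decide

set_option maxRecDepth 100000 in
theorem gen : ∀ g : S3, ∃ a : Fin 4, ∃ b : Fin 2, ∃ c : Fin 3, g = i0 ^ a.val * j0 ^ b.val * u0 ^ c.val := by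
  (set_option synthInstance.maxSize 20000 in open scoped Cfsg.Agent.Lib.MatDec in decide +kernel)

set_option maxRecDepth 100000 in
theorem conj_u : ∀ u : S3, u ≠ 1 → u * u * u = 1 → ∃ h : S3, h * u * h⁻¹ = u0 ∨ h * u⁻¹ * h⁻¹ = u0 := by
  (set_option synthInstance.maxSize 20000 in open scoped Cfsg.Agent.Lib.MatDec in decide +kernel)

variable {G : Type*} [Group G] {Z Q : Subgroup G}

/-- `C_G(Z) / Q ≅ SL(2,3)` -/
structure Cov (Z Q : Subgroup G) (π : ↥(centralizer (Z : Set G)) →* S3) : Prop where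
  surj : Function.Surjective π
  ker : ∀ c, π c = 1 ↔ (c : G) ∈ Q

/-- the module -/
abbrev MM (Q : Subgroup G) := Additive (Abelianization ↥Q)

/-- the action of `C_G(Z)` -/
noncomputable def Cfg.actC (h : Cfg Z Q) : ↥(centralizer (Z : Set G)) →* AddMonoid.End (MM Q) :=
  (act Q).comp (Subgroup.inclusion fun _ hg => h.normQ hg)

theorem Cfg.actC_bar (h : Cfg Z Q) (c : ↥(centralizer (Z : Set G))) (a b : ↥Q)
    (hb : (b : G) = c * a * (c : G)⁻¹) : h.actC c (bar a) = bar b :=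
  act_bar Q _ a b hb

theorem act_of_mem {g : ↥(normalizer (Q : Set G))} (hg : (g : G) ∈ Q) (x : MM Q) : act Q g x = x := by
  obtain ⟨a, rfl⟩ := bar_surj x
  rw [act_bar Q g a (⟨g, hg⟩ * a * ⟨g, hg⟩⁻¹) rfl, bar_mul, bar_mul, bar_inv]
  abel

theorem Cfg.actC_of_mem (h : Cfg Z Q) {c : ↥(centralizer (Z : Set G))} (hc : (c : G) ∈ Q) (x : MM Q) :
    h.actC c x = x := act_of_mem (g := Subgroup.inclusion (fun _ hg => h.normQ hg) c) hc x

theorem Cfg.actC_eq (h : Cfg Z Q) {π : ↥(centralizer (Z : Set G)) →* S3} (hπ : Cov Z Q π)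
    {c c' : ↥(centralizer (Z : Set G))} (hcc : π c = π c') : h.actC c = h.actC c' := by
  have h1 : π (c * c'⁻¹) = 1 := by rw [map_mul, map_inv, hcc, mul_inv_cancel]
  have h2 := (hπ.ker _).1 h1
  have h3 : c = (c * c'⁻¹) * c' := by group
  rw [h3, map_mul]
  ext x
  exact h.actC_of_mem h2 _

/-- the representation of `SL(2,3)` -/
noncomputable def Cfg.rho (h : Cfg Z Q) {π : ↥(centralizer (Z : Set G)) →* S3} (hπ : Cov Z Q π) :
    S3 →* AddMonoid.End (MM Q) where
  toFun g := h.actC (Function.surjInv hπ.surj g)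
  map_one' := by
    rw [← map_one h.actC]
    apply h.actC_eq hπ
    rw [Function.surjInv_eq hπ.surj, map_one]
  map_mul' g g' := by
    rw [← map_mul]
    apply h.actC_eq hπ
    rw [map_mul, Function.surjInv_eq hπ.surj, Function.surjInv_eq hπ.surj, Function.surjInv_eq hπ.surj]

theorem Cfg.rho_pi (h : Cfg Z Q) {π : ↥(centralizer (Z : Set G)) →* S3} (hπ : Cov Z Q π)
    (c : ↥(centralizer (Z : Set G))) : h.rho hπ (π c) = h.actC c :=
  h.actC_eq hπ (Function.surjInv_eq hπ.surj _)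

/-- the form -/
noncomputable def Cfg.form (h : Cfg Z Q) : MM Q →+ MM Q →+ Additive ↥(center ↥Q) := pair h.hc

theorem Cfg.form_bar (h : Cfg Z Q) (a b : ↥Q) : h.form (bar a) (bar b) = Additive.ofMul ⟨⁅a, b⁆, h.hc a b⟩ := rfl

theorem Cfg.form_bar_eq_zero (h : Cfg Z Q) (a b : ↥Q) : h.form (bar a) (bar b) = 0 ↔ (a : G) * b = b * a := by
  rw [h.form_bar]
  constructor
  · intro h1
    have h2 : ⁅a, b⁆ = 1 := congrArg (fun x => (Additive.toMul x).1) h1
    rw [commutatorElement_eq_one_iff_mul_comm] at h2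
    exact congrArg Subtype.val h2
  · intro h1
    have h2 : ⁅a, b⁆ = 1 := by
      rw [commutatorElement_eq_one_iff_mul_comm]; exact Subtype.ext h1
    have h3 : (⟨⁅a, b⁆, h.hc a b⟩ : ↥(center ↥Q)) = 1 := Subtype.ext h2
    rw [h3]; rfl

theorem Cfg.form_actC (h : Cfg Z Q) (c : ↥(centralizer (Z : Set G))) (x y : MM Q) :
    h.form (h.actC c x) (h.actC c y) = h.form x y := by
  obtain ⟨a, rfl⟩ := bar_surj x
  obtain ⟨b, rfl⟩ := bar_surj y
  rw [h.actC_bar c a ⟨c * a * (c : G)⁻¹, h.normQ' c.2 a.2⟩ rfl,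
    h.actC_bar c b ⟨c * b * (c : G)⁻¹, h.normQ' c.2 b.2⟩ rfl, h.form_bar, h.form_bar]
  congr 1
  apply Subtype.ext
  apply Subtype.ext
  show (c : G) * (a : G) * (c : G)⁻¹ * ((c : G) * (b : G) * (c : G)⁻¹) * ((c : G) * (a : G) * (c : G)⁻¹)⁻¹ *
    ((c : G) * (b : G) * (c : G)⁻¹)⁻¹ = a * b * (a : G)⁻¹ * (b : G)⁻¹
  have h1 := h.comm a.1 a.2 b.1 b.2
  have h2 := Subgroup.mem_centralizer_iff.1 c.2 _ h1
  calc _ = (c : G) * ((a : G) * b * (a : G)⁻¹ * (b : G)⁻¹) * (c : G)⁻¹ := by group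
    _ = ((a : G) * b * (a : G)⁻¹ * (b : G)⁻¹) * c * (c : G)⁻¹ := by rw [← h2]
    _ = _ := by group

theorem Cfg.form_two (h : Cfg Z Q) (a : Additive ↥(center ↥Q)) (ha : a + a = 0) : a = 0 := by
  have h1 : (Additive.toMul a) ^ 2 = 1 := by
    rw [pow_two]; exact congrArg Additive.toMul ha
  have h2 : (Additive.toMul a) ^ 3 = 1 := by
    rw [← h.card_center]; exact pow_card_eq_one'
  have h3 : Additive.toMul a = 1 := by
    calc Additive.toMul a = (Additive.toMul a) ^ 3 * ((Additive.toMul a) ^ 2)⁻¹ := by group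
      _ = 1 := by rw [h1, h2]; simp only [_root_.inv_one, _root_.mul_one]
  exact congrArg Additive.ofMul h3

/-- invariants of the representation -/
structure Good (h : Cfg Z Q) (π : ↥(centralizer (Z : Set G)) →* S3) : Prop where
  neg : ∀ c, π c = -1 → ∀ x, h.actC c x = -x
  W : ∃ W : AddSubgroup (MM Q), Nat.card ↥W = 9 ∧ ∀ c, ∀ x ∈ W, h.actC c x ∈ W

theorem Cfg.ops (h : Cfg Z Q) {π : ↥(centralizer (Z : Set G)) →* S3} (hπ : Cov Z Q π)
    (hg : ∀ c, π c = -1 → ∀ x, h.actC c x = -x) : Ops (h.rho hπ i0) (h.rho hπ j0) (h.rho hπ u0) := by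
  have hneg : h.rho hπ (-1) = -1 := by
    obtain ⟨c, hc⟩ := hπ.surj (-1)
    rw [← hc, h.rho_pi hπ]
    ext x
    exact hg c hc x
  refine ⟨?_, ?_, ?_, ?_, ?_, ?_, ?_⟩
  · ext x
    have h3 := h.three_M x
    have : (3 : AddMonoid.End (MM Q)) = 1 + 1 + 1 := by norm_num
    rw [this]
    exact h3
  · rw [← map_mul, r1, hneg]
  · rw [← map_mul, r2, hneg]
  · rw [← map_mul, r3, map_mul, hneg, map_mul]
    ext x
    rfl
  · rw [← map_mul, r4, map_mul]
  · rw [← map_mul, r5, map_mul, map_mul]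
  · rw [← map_mul, ← map_mul, r6, map_one]

theorem Cfg.isForm (h : Cfg Z Q) {π : ↥(centralizer (Z : Set G)) →* S3} (hπ : Cov Z Q π) :
    Form (h.rho hπ i0) (h.rho hπ j0) (h.rho hπ u0) h.form := by
  have hinv : ∀ g x y, h.form (h.rho hπ g x) (h.rho hπ g y) = h.form x y := by
    intro g x y
    obtain ⟨c, rfl⟩ := hπ.surj g
    rw [h.rho_pi hπ, h.form_actC]
  refine ⟨h.form_two, ?_, ?_, hinv i0, hinv j0, hinv u0⟩
  · intro x
    obtain ⟨a, rfl⟩ := bar_surj x
    rw [h.form_bar_eq_zero]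
  · intro x hx
    obtain ⟨a, rfl⟩ := bar_surj x
    rw [h.bar_eq_zero_iff]
    apply h.cen a.1 a.2
    intro b hb
    exact (h.form_bar_eq_zero a ⟨b, hb⟩).1 (hx _)

/-- invariance under the three generators implies invariance under `C_G(Z)` -/
theorem Cfg.inv_of (h : Cfg Z Q) {π : ↥(centralizer (Z : Set G)) →* S3} (hπ : Cov Z Q π) {X : AddSubgroup (MM Q)}
    (hI : ∀ x ∈ X, h.rho hπ i0 x ∈ X) (hJ : ∀ x ∈ X, h.rho hπ j0 x ∈ X) (hU : ∀ x ∈ X, h.rho hπ u0 x ∈ X)
    (c : ↥(centralizer (Z : Set G))) : ∀ x ∈ X, h.actC c x ∈ X := by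
  have hpow : ∀ (g : S3), (∀ x ∈ X, h.rho hπ g x ∈ X) → ∀ n : ℕ, ∀ x ∈ X, h.rho hπ (g ^ n) x ∈ X := by
    intro g hg n
    induction n with
    | zero => intro x hx; rw [pow_zero, map_one]; exact hx
    | succ n ih => intro x hx; rw [pow_succ', map_mul]; exact hg _ (ih x hx)
  intro x hx
  rw [← h.rho_pi hπ]
  obtain ⟨a, b, c', he⟩ := gen (π c)
  rw [he, map_mul, map_mul]
  exact hpow i0 hI a.val _ (hpow j0 hJ b.val _ (hpow u0 hU c'.val _ hx))

theorem Good.U_eq {h : Cfg Z Q} {π : ↥(centralizer (Z : Set G)) →* S3} (hg : Good h π) (hπ : Cov Z Q π) :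
    h.rho hπ u0 = 1 + Ops.s (h.rho hπ i0) (h.rho hπ j0) := by
  have hfin := h.finiteQ
  have hfinM : Finite (MM Q) := Nat.finite_of_card_ne_zero (by rw [h.card_M]; norm_num)
  obtain ⟨W, hW9, hW⟩ := hg.W
  have hW' : ∀ g, ∀ x ∈ W, h.rho hπ g x ∈ W := by
    intro g x hx
    obtain ⟨c, rfl⟩ := hπ.surj g
    rw [h.rho_pi hπ]; exact hW c x hx
  exact Form.U_eq (h.ops hπ hg.neg) (h.isForm hπ) (hW' i0) (hW' j0) (hW' u0) hW9 h.card_M

end Cfsg.Agent.H352.L43
end

-- part: H352/L43/Core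
section
/-!
# `A = Q ∩ R` is normalized by `C_G(Z)`, which is transitive on `A \ Z` (helper352)
-/

set_option autoImplicit false

namespace Cfsg.Agent.H352.L43

open scoped commutatorElement IsMulCommutative
open Subgroup

variable {G : Type*} [Group G] {Z Q Y R : Subgroup G}

/-- the image of `K ∩ Q` in the module -/
def barS (Q K : Subgroup G) : AddSubgroup (MM Q) :=
  Subgroup.toAddSubgroup ((K.subgroupOf Q).map Abelianization.of)

theorem mem_barS {K : Subgroup G} {x : MM Q} : x ∈ barS Q K ↔ ∃ a : ↥Q, (a : G) ∈ K ∧ bar a = x := Iff.rfl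

theorem Cfg.bar_mem_barS (h : Cfg Z Q) {K : Subgroup G} (hZK : Z ≤ K) (a : ↥Q) : bar a ∈ barS Q K ↔ (a : G) ∈ K := by
  rw [mem_barS]
  constructor
  · rintro ⟨b, hb, hba⟩
    have h1 := (h.bar_eq_iff a b).1 hba.symm
    have h2 := K.mul_mem (hZK h1) hb
    rwa [inv_mul_cancel_right] at h2
  · intro ha
    exact ⟨a, ha, rfl⟩

theorem Cfg.card_barS (h : Cfg Z Q) {K : Subgroup G} (hZK : Z ≤ K) (hKQ : K ≤ Q) :
    3 * Nat.card ↥(barS Q K) = Nat.card ↥K := by
  have h1 : Nat.card ↥(barS Q K) = Nat.card ↥((K.subgroupOf Q).map Abelianization.of) := rfl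
  rw [h1, ← Subgroup.relIndex_ker, Abelianization.ker_of, h.commutator_eq, h.center_eq,
    Subgroup.relIndex_subgroupOf hKQ, ← h.cardZ]
  have h2 := Subgroup.relIndex_mul_relIndex (⊥ : Subgroup G) Z K bot_le hZK
  rwa [Subgroup.relIndex_bot_left, Subgroup.relIndex_bot_left] at h2

theorem Cfg.exists_shift (h : Cfg Z Q) {y : G} (hy : y ∈ Q) (hyZ : y ∉ Z) {z : G} (hz : z ∈ Z) :
    ∃ q ∈ Q, q * y * q⁻¹ = z * y := by
  obtain ⟨q, hq, hqy⟩ : ∃ q ∈ Q, y * q ≠ q * y := by
    by_contra hcon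
    push Not at hcon
    exact hyZ (h.cen y hy hcon)
  have h1 := h.comm q hq y hy
  have h2 : q * y * q⁻¹ * y⁻¹ ≠ 1 := by
    intro h3
    apply hqy
    have h4 : q * y * q⁻¹ = y := by
      have := congrArg (· * y) h3
      simpa only [_root_.inv_mul_cancel_right, _root_.one_mul] using this
    calc y * q = q * y * q⁻¹ * q := by rw [h4]
      _ = q * y := by group
  by_cases hz1 : z = 1
  · exact ⟨1, Q.one_mem, by rw [hz1]; group⟩
  rcases Two.eq_or_inv h.cardZ h1 hz h2 hz1 with h3 | h3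
  · exact ⟨q, hq, by rw [← h3]; group⟩
  · refine ⟨q⁻¹, Q.inv_mem hq, ?_⟩
    have h4 : q * y * q⁻¹ = z⁻¹ * y := by rw [← h3]; group
    have h5 : z * q = q * z := Subgroup.mem_centralizer_iff.1 (h.leC hq) z hz
    have h6 : q⁻¹ * z⁻¹ = z⁻¹ * q⁻¹ := by rw [← mul_inv_rev, ← mul_inv_rev, h5]
    have h7 : y = q⁻¹ * (z⁻¹ * y) * q := by rw [← h4]; group
    have h8 : y = z⁻¹ * (q⁻¹ * y * q⁻¹⁻¹) := by
      calc y = q⁻¹ * (z⁻¹ * y) * q := h7
        _ = (q⁻¹ * z⁻¹) * y * q := by group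
        _ = z⁻¹ * (q⁻¹ * y * q⁻¹⁻¹) := by rw [h6]; group
    calc q⁻¹ * y * q⁻¹⁻¹ = z * (z⁻¹ * (q⁻¹ * y * q⁻¹⁻¹)) := by group
      _ = z * y := by rw [← h8]

/-- adjust `π` by an inner automorphism -/
theorem exists_pi {h : Cfg Z Q} {π : ↥(centralizer (Z : Set G)) →* S3} (hπ : Cov Z Q π) (hg : Good h π)
    {K : Subgroup G} {d : ↥(centralizer (Z : Set G))} (hdK : (d : G) ∈ K) (hd : (d : G) ∉ Q) (hd3 : d * d * d = 1) :
    ∃ (π' : ↥(centralizer (Z : Set G)) →* S3), Cov Z Q π' ∧ Good h π' ∧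
      ∃ d' : ↥(centralizer (Z : Set G)), (d' : G) ∈ K ∧ (d' : G) ∉ Q ∧ π' d' = u0 := by
  obtain ⟨g, hgu⟩ := conj_u (π d) (fun h1 => hd ((hπ.ker d).1 h1)) (by rw [← map_mul, ← map_mul, hd3, map_one])
  have hcov : Cov Z Q ((MulAut.conj g).toMonoidHom.comp π) := by
    refine ⟨(MulAut.conj g).surjective.comp hπ.surj, ?_⟩
    intro c
    rw [← hπ.ker c]
    show MulAut.conj g (π c) = 1 ↔ π c = 1
    exact map_eq_one_iff _ (MulAut.conj g).injective
  have hgood : Good h ((MulAut.conj g).toMonoidHom.comp π) := by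
    refine ⟨?_, hg.W⟩
    intro c hc
    apply hg.neg
    have hc' : g * π c * g⁻¹ = -1 := hc
    calc π c = g⁻¹ * (g * π c * g⁻¹) * g := by group
      _ = -1 := by rw [hc']; simp
  rcases hgu with h1 | h1
  · exact ⟨_, hcov, hgood, d, hdK, hd, h1⟩
  · refine ⟨_, hcov, hgood, d⁻¹, K.inv_mem hdK, fun h2 => hd (by simpa only [_root_.InvMemClass.coe_inv, _root_.inv_inv] using Q.inv_mem h2), ?_⟩
    show g * π d⁻¹ * g⁻¹ = u0
    rw [map_inv]; exact h1

theorem Tau.mem_normalizer (t : Two Z Q Y R) {τ : G} (h : Two.Tau Z Q Y R τ) : τ ∈ normalizer (Q : Set G) := by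
  rw [Subgroup.mem_normalizer_iff]
  intro q
  constructor
  · intro hq; exact h.normQ t hq
  · intro hq
    have h1 := t.h.normZ τ⁻¹ ?_ _ hq
    · have e : τ⁻¹ * (τ * q * τ⁻¹) * τ⁻¹⁻¹ = q := by group
      rwa [e] at h1
    · intro z hz
      have h2 := h.zinv z hz
      have h3 : τ⁻¹ * z * τ⁻¹⁻¹ = z⁻¹ := by
        have h4 := h.zinv z⁻¹ (Z.inv_mem hz)
        rw [inv_inv] at h4
        calc τ⁻¹ * z * τ⁻¹⁻¹ = τ⁻¹ * (τ * z⁻¹ * τ⁻¹) * τ := by rw [h4, inv_inv]
          _ = z⁻¹ := by group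
      rw [h3]; exact Z.inv_mem hz

/-- **`A = Q ∩ R` is normalized by `C_G(Z)`, which is transitive on `A \ Z`.** -/
theorem core (t : Two Z Q Y R) {π : ↥(centralizer (Z : Set G)) →* S3} (hπ : Cov Z Q π) (hg : Good t.h π) :
    (∀ c ∈ centralizer (Z : Set G), ∀ a ∈ Q ⊓ R, c * a * c⁻¹ ∈ Q ⊓ R) ∧
    ∃ y ∈ Y, y ≠ 1 ∧ ∀ a ∈ Q ⊓ R, a ∉ Z → ∃ c ∈ centralizer (Z : Set G), c * y * c⁻¹ = a := by
  have h := t.h
  -- the element `d`
  obtain ⟨d0, hd0, hd0Q⟩ := SetLike.not_le_iff_exists.1 t.symm.not_le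
  obtain ⟨π', hπ', hg', d, hdR, hdQ, hdu⟩ := exists_pi hπ hg (K := R) (d := ⟨d0, hd0.2⟩) hd0.1 hd0Q
    (Subtype.ext (t.h'.exp d0 hd0.1))
  -- `m` and `y`
  obtain ⟨m, hmA, hdm⟩ : ∃ m ∈ Q ⊓ R, (d : G) * m ≠ m * d := by
    by_contra hcon
    push Not at hcon
    exact hdQ (t.symm.cent_A hdR (fun a ha => hcon a ⟨ha.2, ha.1⟩)).2
  set y : G := d * m * (d : G)⁻¹ * m⁻¹ with hy_def
  have hyY : y ∈ Y := t.h'.comm d hdR m hmA.2
  have hy1 : y ≠ 1 := by
    intro h1
    apply hdm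
    have h2 : (d : G) * m * (d : G)⁻¹ = m := by
      have := congrArg (· * m) h1
      simpa only [hy_def, _root_.inv_mul_cancel_right, _root_.one_mul] using this
    calc (d : G) * m = d * m * (d : G)⁻¹ * d := by group
      _ = m * d := by rw [h2]
  have hdmy : (d : G) * m * (d : G)⁻¹ = y * m := by rw [hy_def]; group
  clear_value y
  have hyQ : y ∈ Q := t.YQ hyY
  have hyA : y ∈ Q ⊓ R := t.Y_le_A hyY
  have hyZ : y ∉ Z := t.notMem hyY hy1
  -- operators
  set I := h.rho hπ' i0 with hI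
  set J := h.rho hπ' j0 with hJ
  set U := h.rho hπ' u0 with hU
  have hops : Ops I J U := h.ops hπ' hg'.neg
  have hform : Form I J U h.form := h.isForm hπ'
  have hUeq : U = 1 + Ops.s I J := hg'.U_eq hπ'
  set b : MM Q := bar ⟨y, hyQ⟩ with hb
  have hUd : U = h.actC d := by rw [hU, ← hdu, h.rho_pi hπ']
  have hdy : (d : G) * y * (d : G)⁻¹ = y := by
    have := Subgroup.mem_centralizer_iff.1 (t.h'.leC hdR) y hyY
    rw [← this]; group
  have hUb : U b = b := by
    rw [hUd, hb]; exact h.actC_bar d _ _ hdy.symm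
  have hUm : U (bar ⟨m, hmA.1⟩) = bar ⟨m, hmA.1⟩ + b := by
    rw [hUd, h.actC_bar d ⟨m, hmA.1⟩ (⟨y, hyQ⟩ * ⟨m, hmA.1⟩) hdmy.symm, bar_mul, add_comm]
  have hbm : h.form b (bar ⟨m, hmA.1⟩) = 0 := by
    rw [hb, h.form_bar_eq_zero]; exact t.comm_A hyA hmA
  have hiso : h.form b (I b) = 0 := hform.iso hops hUeq hUb hUm hbm
  have hJb := hops.J_fix hUeq hUb
  have hKb := hops.IJ_fix hUeq hUb
  have hUIb := hops.U_Ib hUeq hUb
  have hb0 : b ≠ 0 := by
    intro h0; rw [hb, h.bar_eq_zero_iff] at h0; exact hyZ h0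
  have h3 := h.three_M
  have h3z : ∀ x : MM Q, (3 : ℤ) • x = 0 := by intro x; rw [← h3 x]; abel
  -- the invariant subgroup `W = ⟨b, I b⟩`
  let W : AddSubgroup (MM Q) := AddSubgroup.zmultiples b ⊔ AddSubgroup.zmultiples (I b)
  have hWm : ∀ x, x ∈ W ↔ ∃ k l : ℤ, x = k • b + l • I b := by
    intro x
    constructor
    · intro hx
      obtain ⟨u, hu, v, hv, rfl⟩ := AddSubgroup.mem_sup.1 hx
      obtain ⟨k, rfl⟩ := AddSubgroup.mem_zmultiples_iff.1 hu
      obtain ⟨l, rfl⟩ := AddSubgroup.mem_zmultiples_iff.1 hv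
      exact ⟨k, l, rfl⟩
    · rintro ⟨k, l, rfl⟩
      exact AddSubgroup.add_mem_sup (AddSubgroup.zsmul_mem_zmultiples b k) (AddSubgroup.zsmul_mem_zmultiples (I b) l)
  have hWI : ∀ x ∈ W, I x ∈ W := by
    intro x hx
    obtain ⟨k, l, rfl⟩ := (hWm x).1 hx
    rw [hWm]
    refine ⟨-l, k, ?_⟩
    rw [map_add, map_zsmul, map_zsmul, hops.II']; simp only [smul_neg, neg_smul]; abel
  have hWJ : ∀ x ∈ W, J x ∈ W := by
    intro x hx
    obtain ⟨k, l, rfl⟩ := (hWm x).1 hx
    rw [hWm]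
    refine ⟨k + l, k - l, ?_⟩
    rw [map_add, map_zsmul, map_zsmul, hops.JI', hJb, map_add, hops.II']
    simp only [smul_neg, smul_add, add_smul, sub_smul]; abel
  have hWU : ∀ x ∈ W, U x ∈ W := by
    intro x hx
    obtain ⟨k, l, rfl⟩ := (hWm x).1 hx
    rw [hWm]
    refine ⟨k + l, l, ?_⟩
    rw [map_add, map_zsmul, map_zsmul, hUb, hUIb]
    simp only [smul_add, add_smul]; abel
  have hWinv := h.inv_of hπ' hWI hWJ hWU
  have hbW : b ∈ W := (hWm b).2 ⟨1, 0, by simp⟩
  have hIbW : I b ∈ W := hWI b hbW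
  have hZR : Z ≤ Q ⊓ R := t.Z_le_A
  have hbA : b ∈ barS Q (Q ⊓ R) := (h.bar_mem_barS hZR _).2 hyA
  -- `w = i y i⁻¹`
  obtain ⟨i, hi⟩ := hπ'.surj i0
  have hIi : I = h.actC i := by rw [hI, ← hi, h.rho_pi hπ']
  have hIb : I b = bar ⟨i * y * (i : G)⁻¹, h.normQ' i.2 hyQ⟩ := by
    rw [hIi, hb]; exact h.actC_bar i _ _ rfl
  set w : G := i * y * (i : G)⁻¹ with hw
  have hwQ : w ∈ Q := h.normQ' i.2 hyQ
  have hwY : w ∈ centralizer (Y : Set G) := by
    rw [← t.cent_Y hyY hy1, Subgroup.mem_centralizer_singleton_iff]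
    rw [hIb, hb, h.form_bar_eq_zero] at hiso
    exact hiso.symm
  -- `τ`
  obtain ⟨τ, hτ⟩ := t.exists_tau
  let τN : ↥(normalizer (Q : Set G)) := ⟨τ, Tau.mem_normalizer t hτ⟩
  have hτb : act Q τN b = -b := by
    rw [hb, ← bar_inv]
    exact act_bar Q τN _ _ (hτ.yinv y hyY).symm
  have hτiC : τ * i * τ⁻¹ ∈ centralizer (Z : Set G) := hτ.centZ t i.2
  have hτIb : act Q τN (I b) ∈ W := by
    have e1 : act Q τN (I b) = h.actC ⟨τ * i * τ⁻¹, hτiC⟩ (-b) := by
      rw [hIb, hb, ← bar_inv, h.actC_bar ⟨τ * i * τ⁻¹, hτiC⟩ _ ⟨τ * w * τ⁻¹, hτ.normQ t hwQ⟩ ?_]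
      · exact act_bar Q τN _ _ rfl
      · show τ * w * τ⁻¹ = τ * i * τ⁻¹ * y⁻¹ * (τ * i * τ⁻¹)⁻¹
        rw [← hτ.yinv y hyY, hw]; group
    rw [e1]
    exact hWinv _ _ (W.neg_mem hbW)
  have hτw : τ * w * τ⁻¹ * w ∈ Q ⊓ R := hτ.inv_D t hwQ hwY
  have hsum : act Q τN (I b) + I b ∈ barS Q (Q ⊓ R) := by
    have e1 : act Q τN (I b) = bar ⟨τ * w * τ⁻¹, hτ.normQ t hwQ⟩ := by
      rw [hIb]; exact act_bar Q τN _ _ rfl
    rw [e1, hIb, ← bar_mul, h.bar_mem_barS hZR]
    exact hτw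
  -- `U t U = t`
  have hUtU : ∀ x, U (act Q τN (U x)) = act Q τN x := by
    intro x
    have hα : τ * d * τ⁻¹ * d ∈ Q := by
      have := (hτ.symm t).inv_D t.symm hdR d.2
      exact this.2
    have hα' : (d : G) * (τ * d * τ⁻¹ * d) * (d : G)⁻¹ ∈ Q := h.normQ' d.2 hα
    let dN : ↥(normalizer (Q : Set G)) := ⟨d, h.normQ d.2⟩
    let αN : ↥(normalizer (Q : Set G)) := ⟨(d : G) * (τ * d * τ⁻¹ * d) * (d : G)⁻¹, Q.le_normalizer hα'⟩
    have e1 : dN * τN * dN = αN * τN := by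
      apply Subtype.ext
      show (d : G) * τ * d = (d : G) * (τ * d * τ⁻¹ * d) * (d : G)⁻¹ * τ
      group
    have e2 : U (act Q τN (U x)) = act Q (dN * τN * dN) x := by
      rw [hUd, map_mul, map_mul]; rfl
    rw [e2, e1, map_mul]
    exact act_of_mem (g := αN) hα' _
  -- `I b ∈ A`
  have hIbA : I b ∈ barS Q (Q ⊓ R) := by
    by_contra hnot
    obtain ⟨k, l, hkl⟩ := (hWm _).1 (W.add_mem hτIb hIbW)
    have hl : l • I b ∈ barS Q (Q ⊓ R) := by
      have e : l • I b = (act Q τN (I b) + I b) - k • b := by rw [hkl]; abel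
      rw [e]
      exact AddSubgroup.sub_mem _ hsum (AddSubgroup.zsmul_mem _ hbA k)
    have hl0 : l • I b = 0 := by
      have hl3 : l % 3 = 0 ∨ l % 3 = 1 ∨ l % 3 = 2 := by omega
      rcases hl3 with h0 | h0 | h0
      · rw [show l = (l / 3) * 3 by omega, mul_smul, h3z, smul_zero]
      · exfalso; apply hnot
        have : l • I b = I b := by
          rw [show l = (l / 3) * 3 + 1 by omega, add_smul, mul_smul, h3z, smul_zero, zero_add, one_smul]
        rwa [this] at hl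
      · exfalso; apply hnot
        have : l • I b = - I b := by
          rw [show l = (l / 3 + 1) * 3 + (-1) by omega, add_smul, mul_smul, h3z, smul_zero, zero_add, neg_smul,
            one_smul]
        rw [this] at hl
        simpa only [_root_.neg_neg] using AddSubgroup.neg_mem _ hl
    rw [hl0, add_zero] at hkl
    have hτIb' : act Q τN (I b) = k • b - I b := by rw [← hkl]; abel
    have e1 := hUtU (I b)
    rw [hUIb, map_add, hτb, hτIb'] at e1
    simp only [map_add, map_sub, map_neg, map_zsmul, hUb, hUIb] at e1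
    have e2 : -(b + b) = 0 := by
      have : -(b + b) = (k • b - (I b + b) + -b) - (k • b - I b) := by abel
      rw [this, e1, sub_self]
    apply hb0
    have e3 : b + b = 0 := neg_eq_zero.1 e2
    have := h3 b
    rwa [e3, zero_add] at this
  -- `W = A`
  have hWle : W ≤ barS Q (Q ⊓ R) := by
    intro x hx
    obtain ⟨k, l, rfl⟩ := (hWm x).1 hx
    exact AddSubgroup.add_mem _ (AddSubgroup.zsmul_mem _ hbA k) (AddSubgroup.zsmul_mem _ hIbA l)
  have hA9 : Nat.card ↥(barS Q (Q ⊓ R)) = 9 := by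
    have := h.card_barS hZR inf_le_left
    rw [t.card_A] at this
    omega
  have hW9 : Nat.card ↥W = 9 := by
    apply eq_nine
    · rw [← hA9]; exact AddSubgroup.card_dvd_of_le hWle
    · intro h1
      have := AddSubgroup.eq_bot_of_card_eq _ h1
      rw [this, AddSubgroup.mem_bot] at hbW
      exact hb0 hbW
    · have := hops.no_three (W := ⊥) (B := W) (by simp only [_root_.AddSubgroup.mem_bot, _root_.forall_eq, _root_.map_zero]) hWI
      rwa [AddSubgroup.relIndex_bot_left] at this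
  have hfinA : Finite ↥(barS Q (Q ⊓ R)) := Nat.finite_of_card_ne_zero (by rw [hA9]; norm_num)
  have hWA : W = barS Q (Q ⊓ R) := AddSubgroup.eq_of_le_of_card_ge hWle (by rw [hA9, hW9])
  constructor
  · intro c hc a ha
    have h1 := hWinv ⟨c, hc⟩ (bar ⟨a, ha.1⟩) (by rw [hWA, h.bar_mem_barS hZR]; exact ha)
    rw [h.actC_bar ⟨c, hc⟩ ⟨a, ha.1⟩ ⟨c * a * c⁻¹, h.normQ' hc ha.1⟩ rfl, hWA, h.bar_mem_barS hZR] at h1
    exact h1
  · refine ⟨y, hyY, hy1, ?_⟩
    intro a ha haZ
    have h1 : bar ⟨a, ha.1⟩ ∈ W := by rw [hWA, h.bar_mem_barS hZR]; exact ha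
    have h2 : ∃ g : S3, bar ⟨a, ha.1⟩ = h.rho hπ' g b := by
      have hneg : ∀ x, h.rho hπ' (-1) x = -x := by
        intro x
        obtain ⟨c, hc⟩ := hπ'.surj (-1)
        rw [← hc, h.rho_pi hπ']; exact hg'.neg c hc x
      have red : ∀ n : ℤ, ∀ x : MM Q, n • x = 0 ∨ n • x = x ∨ n • x = -x := by
        intro n x
        have hn3 : n % 3 = 0 ∨ n % 3 = 1 ∨ n % 3 = 2 := by omega
        rcases hn3 with h0 | h0 | h0
        · left; rw [show n = (n / 3) * 3 by omega, mul_smul, h3z, smul_zero]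
        · right; left
          rw [show n = (n / 3) * 3 + 1 by omega, add_smul, mul_smul, h3z, smul_zero, zero_add, one_smul]
        · right; right
          rw [show n = (n / 3 + 1) * 3 + (-1) by omega, add_smul, mul_smul, h3z, smul_zero, zero_add, neg_smul,
            one_smul]
      obtain ⟨k, l, hkl⟩ := (hWm _).1 h1
      rcases red k b with hk | hk | hk <;> rcases red l (I b) with hl | hl | hl <;> rw [hk, hl] at hkl
      · exfalso; apply haZ
        rw [add_zero] at hkl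
        exact (h.bar_eq_zero_iff ⟨a, ha.1⟩).1 hkl
      · exact ⟨i0, by rw [hkl, zero_add]⟩
      · exact ⟨-1 * i0, by rw [hkl, map_mul, zero_add]; exact (hneg _).symm⟩
      · exact ⟨1, by rw [hkl, map_one, add_zero]; rfl⟩
      · exact ⟨j0, by rw [hkl, ← hJb]⟩
      · refine ⟨-1 * (i0 * j0), ?_⟩
        rw [hkl, map_mul, map_mul]
        have : -(I (J b)) = b + -I b := by rw [hKb]; abel
        rw [← this]; exact (hneg _).symm
      · exact ⟨-1, by rw [hkl, add_zero]; exact (hneg _).symm⟩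
      · refine ⟨i0 * j0, ?_⟩
        rw [hkl, map_mul]
        have : I (J b) = -b + I b := by rw [hKb]; abel
        rw [← this]; rfl
      · refine ⟨-1 * j0, ?_⟩
        rw [hkl, map_mul]
        have : -(J b) = -b + -I b := by rw [hJb]; abel
        rw [← this]; exact (hneg _).symm
    obtain ⟨g, hgb⟩ := h2
    obtain ⟨c, rfl⟩ := hπ'.surj g
    rw [h.rho_pi hπ', hb, h.actC_bar c ⟨y, hyQ⟩ ⟨c * y * (c : G)⁻¹, h.normQ' c.2 hyQ⟩ rfl, h.bar_eq_iff] at hgb
    have hz : a * (c * y * (c : G)⁻¹)⁻¹ ∈ Z := hgb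
    obtain ⟨q, hq, hqy⟩ := h.exists_shift hyQ hyZ hz
    refine ⟨c * q, (centralizer (Z : Set G)).mul_mem c.2 (h.leC hq), ?_⟩
    set z := a * (c * y * (c : G)⁻¹)⁻¹ with hz_def
    have hzc : z * c = c * z := Subgroup.mem_centralizer_iff.1 c.2 z hz
    calc (c : G) * q * y * (c * q)⁻¹ = c * (q * y * q⁻¹) * (c : G)⁻¹ := by group
      _ = (c * z) * y * (c : G)⁻¹ := by rw [hqy]; group
      _ = z * (c * y * (c : G)⁻¹) := by rw [← hzc]; group
      _ = a := by rw [hz_def]; group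

end Cfsg.Agent.H352.L43
end

-- part: H352/L43/Chain
section
/-!
# From the chain of `K`-invariant subgroups to the facts `Good` (helper352)
-/

set_option autoImplicit false

namespace Cfsg.Agent.H352.L43

open scoped commutatorElement IsMulCommutative
open Subgroup

variable {G : Type*} [Group G] {Z Q : Subgroup G}

set_option maxRecDepth 100000 in
theorem two_three : ∀ g : S3, g = -1 ∨ ∃ a b : S3, a * a * a = 1 ∧ b * b * b = 1 ∧ g = a * b := by (set_option synthInstance.maxSize 20000 in open scoped Cfsg.Agent.Lib.MatDec in decide +kernel)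

/-- the preimage of an additive subgroup of the module -/
def pre (X : AddSubgroup (MM Q)) : Subgroup G where
  carrier := {g | ∃ hg : g ∈ Q, bar ⟨g, hg⟩ ∈ X}
  one_mem' := ⟨Q.one_mem, by
    have : (⟨1, Q.one_mem⟩ : ↥Q) = 1 := rfl
    rw [this, bar_one]; exact X.zero_mem⟩
  mul_mem' := by
    rintro a b ⟨ha, ha'⟩ ⟨hb, hb'⟩
    refine ⟨Q.mul_mem ha hb, ?_⟩
    have : (⟨a * b, Q.mul_mem ha hb⟩ : ↥Q) = ⟨a, ha⟩ * ⟨b, hb⟩ := rfl
    rw [this, bar_mul]; exact X.add_mem ha' hb'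
  inv_mem' := by
    rintro a ⟨ha, ha'⟩
    refine ⟨Q.inv_mem ha, ?_⟩
    have : (⟨a⁻¹, Q.inv_mem ha⟩ : ↥Q) = ⟨a, ha⟩⁻¹ := rfl
    rw [this, bar_inv]; exact X.neg_mem ha'

theorem pre_le (X : AddSubgroup (MM Q)) : pre X ≤ Q := fun _ hg => hg.1

theorem Cfg.le_pre (h : Cfg Z Q) (X : AddSubgroup (MM Q)) : Z ≤ pre X := by
  intro z hz
  refine ⟨h.le hz, ?_⟩
  rw [(h.bar_eq_zero_iff ⟨z, h.le hz⟩).2 hz]; exact X.zero_mem

theorem Cfg.barS_pre (h : Cfg Z Q) (X : AddSubgroup (MM Q)) : barS Q (pre X) = X := by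
  ext x
  obtain ⟨a, rfl⟩ := bar_surj x
  rw [h.bar_mem_barS (h.le_pre X)]
  exact ⟨fun ⟨_, h1⟩ => h1, fun h1 => ⟨a.2, h1⟩⟩

theorem Cfg.barS_mono {K L : Subgroup G} (hKL : K ≤ L) : barS Q K ≤ barS Q L := by
  intro x hx
  obtain ⟨a, ha, rfl⟩ := mem_barS.1 hx
  exact mem_barS.2 ⟨a, hKL ha, rfl⟩

theorem Cfg.pre_le_of (h : Cfg Z Q) {X : AddSubgroup (MM Q)} {K : Subgroup G} (hZK : Z ≤ K) (hX : X ≤ barS Q K) :
    pre X ≤ K := by
  rintro g ⟨hg, hgX⟩
  exact (h.bar_mem_barS hZK _).1 (hX hgX)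

theorem Cfg.le_pre_of (h : Cfg Z Q) {X : AddSubgroup (MM Q)} {K : Subgroup G} (hZK : Z ≤ K) (hKQ : K ≤ Q)
    (hX : barS Q K ≤ X) : K ≤ pre X := by
  intro g hg
  exact ⟨hKQ hg, hX ((h.bar_mem_barS hZK ⟨g, hKQ hg⟩).2 hg)⟩

theorem Cfg.pre_inv (h : Cfg Z Q) {X : AddSubgroup (MM Q)} (hX : ∀ c, ∀ x ∈ X, h.actC c x ∈ X) :
    ∀ c ∈ centralizer (Z : Set G), ∀ b ∈ pre X, c * b * c⁻¹ ∈ pre X := by
  rintro c hc b ⟨hb, hbX⟩
  refine ⟨h.normQ' hc hb, ?_⟩
  rw [← h.actC_bar ⟨c, hc⟩ ⟨b, hb⟩ _ rfl]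
  exact hX _ _ hbX

theorem Cfg.barS_inv (h : Cfg Z Q) {K : Subgroup G} (hZK : Z ≤ K)
    (hK : ∀ c ∈ centralizer (Z : Set G), ∀ b ∈ K, c * b * c⁻¹ ∈ K) : ∀ c, ∀ x ∈ barS Q K, h.actC c x ∈ barS Q K := by
  intro c x hx
  obtain ⟨a, ha, rfl⟩ := mem_barS.1 hx
  rw [h.actC_bar c a ⟨c * a * (c : G)⁻¹, h.normQ' c.2 a.2⟩ rfl, h.bar_mem_barS hZK]
  exact hK c c.2 a ha

/-- an endomorphism restricted to an invariant subgroup -/
def resEnd {M : Type*} [AddCommGroup M] (φ : AddMonoid.End M) (W : AddSubgroup M) (hφ : ∀ x ∈ W, φ x ∈ W) :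
    AddMonoid.End ↥W where
  toFun x := ⟨φ x, hφ x x.2⟩
  map_zero' := Subtype.ext (map_zero φ)
  map_add' _ _ := Subtype.ext (map_add φ _ _)

/-- an endomorphism on the quotient -/
def quoEnd {M : Type*} [AddCommGroup M] (φ : AddMonoid.End M) (W : AddSubgroup M) (hφ : ∀ x ∈ W, φ x ∈ W) :
    AddMonoid.End (M ⧸ W) :=
  QuotientAddGroup.map W W φ hφ

theorem Cfg.good_of (h : Cfg Z Q) {π : ↥(centralizer (Z : Set G)) →* S3} (hπ : Cov Z Q π) {W0 : Subgroup G}
    (hZW : Z ≤ W0) (hWQ : W0 ≤ Q) (hcW : Nat.card ↥W0 = 27)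
    (hinv : ∀ c ∈ centralizer (Z : Set G), ∀ b ∈ W0, c * b * c⁻¹ ∈ W0)
    (irr1 : ∀ B : Subgroup G, Z ≤ B → B ≤ W0 → (∀ c ∈ centralizer (Z : Set G), ∀ b ∈ B, c * b * c⁻¹ ∈ B) →
      B = Z ∨ B = W0)
    (irr2 : ∀ B : Subgroup G, W0 ≤ B → B ≤ Q → (∀ c ∈ centralizer (Z : Set G), ∀ b ∈ B, c * b * c⁻¹ ∈ B) →
      B = W0 ∨ B = Q) : Good h π := by
  set W := barS Q W0 with hW
  have hW9 : Nat.card ↥W = 9 := by
    have := h.card_barS hZW hWQ
    rw [hcW, ← hW] at this; omega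
  have hWinv := h.barS_inv hZW hinv
  have hWrho : ∀ g, ∀ x ∈ W, h.rho hπ g x ∈ W := by
    intro g x hx
    obtain ⟨c, rfl⟩ := hπ.surj g
    rw [h.rho_pi hπ]; exact hWinv c x hx
  have h3 := h.three_M
  have rel : ∀ g g' : S3, ∀ x, h.rho hπ g (h.rho hπ g' x) = h.rho hπ (g * g') x := by
    intro g g' x; rw [map_mul]; rfl
  -- on `W`
  have hT1 : ∀ x ∈ W, h.rho hπ (-1) x = -x := by
    have key := neg_of_irr (V := ↥W) (I := resEnd (h.rho hπ i0) W (hWrho i0)) (J := resEnd (h.rho hπ j0) W (hWrho j0))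
      (U := resEnd (h.rho hπ u0) W (hWrho u0)) (T := resEnd (h.rho hπ (-1)) W (hWrho (-1))) hW9
      (fun x => Subtype.ext (h3 x))
      (fun x => Subtype.ext (by show h.rho hπ i0 (h.rho hπ i0 x) = _; rw [rel, r1]; rfl))
      (fun x => Subtype.ext (by show h.rho hπ j0 (h.rho hπ j0 x) = _; rw [rel, r2]; rfl))
      (fun x => Subtype.ext (by
        show h.rho hπ j0 (h.rho hπ i0 x) = h.rho hπ (-1) (h.rho hπ i0 (h.rho hπ j0 x)); rw [rel, rel, rel, r3, mul_assoc]))
      (fun x => Subtype.ext (by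
        show h.rho hπ u0 (h.rho hπ i0 x) = h.rho hπ j0 (h.rho hπ u0 x); rw [rel, rel, r4]))
      (fun x => Subtype.ext (by
        show h.rho hπ u0 (h.rho hπ j0 x) = h.rho hπ i0 (h.rho hπ j0 (h.rho hπ u0 x)); rw [rel, rel, rel, r5, mul_assoc]))
      (fun x => Subtype.ext (by
        show h.rho hπ u0 (h.rho hπ u0 (h.rho hπ u0 x)) = x; rw [rel, rel, r6, map_one]; rfl))
      (fun x => Subtype.ext (by
        show h.rho hπ (-1) (h.rho hπ (-1) x) = x; rw [rel, neg_mul_neg, mul_one, map_one]; rfl))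
      ?_
    · intro x hx
      exact congrArg Subtype.val (key ⟨x, hx⟩)
    · intro X hXI hXJ hXU
      have hX' : ∀ g : S3, (∀ x, ∀ hx : x ∈ X, (⟨h.rho hπ g x, hWrho g x x.2⟩ : ↥W) ∈ X) →
          ∀ x ∈ X.map W.subtype, h.rho hπ g x ∈ X.map W.subtype := by
        rintro g hg _ ⟨x, hx, rfl⟩
        exact ⟨_, hg x hx, rfl⟩
      have hinvX := h.inv_of hπ (X := X.map W.subtype) (hX' i0 hXI) (hX' j0 hXJ) (hX' u0 hXU)
      have hle : X.map W.subtype ≤ W := by
        rintro _ ⟨x, hx, rfl⟩; exact x.2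
      rcases irr1 (pre (X.map W.subtype)) (h.le_pre _) (h.pre_le_of hZW hle) (h.pre_inv hinvX) with h4 | h4
      · left
        have h5 := h.barS_pre (X.map W.subtype)
        rw [h4] at h5
        rw [eq_bot_iff]
        intro x hx
        have h6 : (x : MM Q) ∈ barS Q Z := by rw [h5]; exact ⟨x, hx, rfl⟩
        obtain ⟨a, ha, hax⟩ := mem_barS.1 h6
        rw [AddSubgroup.mem_bot]
        apply Subtype.ext
        rw [← hax]
        exact (h.bar_eq_zero_iff a).2 ha
      · right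
        have h5 := h.barS_pre (X.map W.subtype)
        rw [h4] at h5
        rw [eq_top_iff]
        intro x _
        have h6 : (x : MM Q) ∈ X.map W.subtype := by rw [← h5]; exact x.2
        obtain ⟨x', hx', he⟩ := h6
        have : x' = x := Subtype.ext he
        rwa [← this]
  -- on `M / W`
  have hT2 : ∀ x, h.rho hπ (-1) x + x ∈ W := by
    have hcard : Nat.card (MM Q ⧸ W) = 9 := by
      have h4 := AddSubgroup.card_mul_index W
      rw [hW9, h.card_M] at h4
      have : W.index = 9 := by omega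
      exact this
    have sj : ∀ P : MM Q ⧸ W → Prop, (∀ x : MM Q, P (x : MM Q ⧸ W)) → ∀ x, P x := by
      intro P hP x
      obtain ⟨y, rfl⟩ := QuotientAddGroup.mk_surjective x
      exact hP y
    have key := neg_of_irr (V := MM Q ⧸ W) (I := quoEnd (h.rho hπ i0) W (hWrho i0))
      (J := quoEnd (h.rho hπ j0) W (hWrho j0))
      (U := quoEnd (h.rho hπ u0) W (hWrho u0)) (T := quoEnd (h.rho hπ (-1)) W (hWrho (-1))) hcard
      (sj _ fun x => by
        show ((x + x + x : MM Q) : MM Q ⧸ W) = ((0 : MM Q) : MM Q ⧸ W)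
        rw [h3])
      (sj _ fun x => by
        show ((h.rho hπ i0 (h.rho hπ i0 x) : MM Q) : MM Q ⧸ W) = ((h.rho hπ (-1) x : MM Q) : MM Q ⧸ W)
        rw [rel, r1])
      (sj _ fun x => by
        show ((h.rho hπ j0 (h.rho hπ j0 x) : MM Q) : MM Q ⧸ W) = ((h.rho hπ (-1) x : MM Q) : MM Q ⧸ W)
        rw [rel, r2])
      (sj _ fun x => by
        show ((h.rho hπ j0 (h.rho hπ i0 x) : MM Q) : MM Q ⧸ W) =
          ((h.rho hπ (-1) (h.rho hπ i0 (h.rho hπ j0 x)) : MM Q) : MM Q ⧸ W)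
        rw [rel, rel, rel, r3, mul_assoc])
      (sj _ fun x => by
        show ((h.rho hπ u0 (h.rho hπ i0 x) : MM Q) : MM Q ⧸ W) = ((h.rho hπ j0 (h.rho hπ u0 x) : MM Q) : MM Q ⧸ W)
        rw [rel, rel, r4])
      (sj _ fun x => by
        show ((h.rho hπ u0 (h.rho hπ j0 x) : MM Q) : MM Q ⧸ W) =
          ((h.rho hπ i0 (h.rho hπ j0 (h.rho hπ u0 x)) : MM Q) : MM Q ⧸ W)
        rw [rel, rel, rel, r5, mul_assoc])
      (sj _ fun x => by
        show ((h.rho hπ u0 (h.rho hπ u0 (h.rho hπ u0 x)) : MM Q) : MM Q ⧸ W) = ((x : MM Q) : MM Q ⧸ W)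
        rw [rel, rel, r6, map_one]; rfl)
      (sj _ fun x => by
        show ((h.rho hπ (-1) (h.rho hπ (-1) x) : MM Q) : MM Q ⧸ W) = ((x : MM Q) : MM Q ⧸ W)
        rw [rel, neg_mul_neg, mul_one, map_one]; rfl)
      ?_
    · intro x
      have h4 := key (x : MM Q ⧸ W)
      have h5 : ((h.rho hπ (-1) x : MM Q) : MM Q ⧸ W) = ((-x : MM Q) : MM Q ⧸ W) := h4
      rw [QuotientAddGroup.eq] at h5
      have h6 := W.neg_mem h5
      have h7 : -(-(h.rho hπ (-1) x) + -x) = h.rho hπ (-1) x + x := by abel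
      rwa [h7] at h6
    · intro X hXI hXJ hXU
      set X' : AddSubgroup (MM Q) := X.comap (QuotientAddGroup.mk' W) with hX'
      have hm : ∀ x : MM Q, x ∈ X' ↔ (x : MM Q ⧸ W) ∈ X := fun x => Iff.rfl
      have hinvX := h.inv_of hπ (X := X') (fun x hx => hXI _ hx) (fun x hx => hXJ _ hx) (fun x hx => hXU _ hx)
      have hle : W ≤ X' := by
        intro x hx
        rw [hm, (QuotientAddGroup.eq_zero_iff x).2 hx]; exact X.zero_mem
      rcases irr2 (pre X') (h.le_pre_of hZW hWQ hle) (pre_le _) (h.pre_inv hinvX) with h4 | h4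
      · left
        have h5 := h.barS_pre X'
        rw [h4] at h5
        rw [eq_bot_iff]
        refine sj _ fun x hx => ?_
        have h6 : x ∈ W := by rw [hW, h5]; exact hx
        rw [AddSubgroup.mem_bot, QuotientAddGroup.eq_zero_iff]
        exact h6
      · right
        rw [eq_top_iff]
        refine sj _ fun x _ => ?_
        obtain ⟨a, rfl⟩ := bar_surj x
        have h6 : (a : G) ∈ pre X' := by rw [h4]; exact a.2
        obtain ⟨_, h7⟩ := h6
        exact h7
  have hT : ∀ x, h.rho hπ (-1) x = -x := by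
    intro x
    have h4 := hT1 _ (hT2 x)
    rw [map_add, rel, neg_mul_neg, mul_one, map_one] at h4
    have h5 : x + h.rho hπ (-1) x = -(h.rho hπ (-1) x + x) := h4
    have h6 : (h.rho hπ (-1) x + x) + (h.rho hπ (-1) x + x) = 0 := by
      nth_rewrite 1 [add_comm (h.rho hπ (-1) x) x, h5]
      rw [neg_add_cancel]
    have h7 := h3 (h.rho hπ (-1) x + x)
    rw [h6, zero_add] at h7
    exact eq_neg_of_add_eq_zero_left h7
  refine ⟨?_, W, hW9, hWinv⟩
  intro c hc x
  rw [← h.rho_pi hπ, hc]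
  exact hT x

end Cfsg.Agent.H352.L43
end

-- part: H352/L43/Setup
section
/-!
# The hypotheses of the 3-local recognition of `PSL(4,3)` (helper352)
-/

set_option autoImplicit false

namespace Cfsg.Agent.H352.L43

open scoped commutatorElement IsMulCommutative
open Subgroup Cfsg
open Cfsg.Agent.Lib.Cores

variable {G : Type*} [Group G] [Finite G]

set_option maxRecDepth 100000 in
theorem card_S3 : Nat.card S3 = 24 := by
  rw [Nat.card_eq_fintype_card]; (set_option synthInstance.maxSize 20000 in open scoped Cfsg.Agent.Lib.MatDec in decide +kernel)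

/-- **`Cfg` from the hypotheses.** -/
theorem cfg_of (S : Sylow 3 G) (Z : Subgroup G)
    (hZ : Z = (S : Subgroup G) ⊓ Subgroup.centralizer ((S : Subgroup G) : Set G))
    (Q : Subgroup G) (hQ : Q = (Cfsg.pCore 3 ↥(centralizer (Z : Set G))).map (centralizer (Z : Set G)).subtype)
    (hQex : Cfsg.IsExtraspecial 3 Q) (hQcard : Nat.card Q = 3 ^ 5) (hQexp : ∀ a ∈ Q, a ^ 3 = 1)
    (hCQ : Subgroup.centralizer (Q : Set G) ≤ Q)
    (e : ↥(centralizer (Z : Set G)) ⧸ Cfsg.pCore 3 ↥(centralizer (Z : Set G)) ≃* S3) : Cfg Z Q := by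
  have hp : Fact (Nat.Prime 3) := ⟨Nat.prime_three⟩
  have hQC : Q ≤ centralizer (Z : Set G) := by rw [hQ]; exact Subgroup.map_subtype_le _
  have hcen3 : Nat.card ↥(center ↥Q) = 3 := hQex.2
  -- `Z ≤ Q`
  have hZQ : Z ≤ Q := by
    intro z hz
    apply hCQ
    rw [Subgroup.mem_centralizer_iff]
    intro q hq
    exact (Subgroup.mem_centralizer_iff.1 (hQC hq) z hz).symm
  have hZcen : Z.subgroupOf Q ≤ center ↥Q := by
    intro z hz
    rw [Subgroup.mem_center_iff]
    intro q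
    apply Subtype.ext
    exact (Subgroup.mem_centralizer_iff.1 (hQC q.2) z hz).symm
  have hZdvd : Nat.card ↥Z ∣ 3 := by
    rw [← hcen3, ← Nat.card_congr (Subgroup.subgroupOfEquivOfLe hZQ).toEquiv]
    exact Subgroup.card_dvd_of_le hZcen
  have hZ1 : Nat.card ↥Z ≠ 1 := by
    intro h1
    have hbot := Subgroup.eq_bot_of_card_eq _ h1
    -- `S` is nontrivial
    have h3 : 3 ∣ Nat.card G := by
      have h2 : Nat.card ↥Q ∣ Nat.card G := Subgroup.card_subgroup_dvd_card Q
      rw [hQcard] at h2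
      exact (dvd_pow_self 3 (by norm_num)).trans h2
    have hSne : Nontrivial ↥(S : Subgroup G) := by
      have h4 : 3 ∣ Nat.card ↥(S : Subgroup G) := S.dvd_card_of_dvd_card h3
      rw [← Finite.one_lt_card_iff_nontrivial]
      have h5 : 0 < Nat.card ↥(S : Subgroup G) := Nat.card_pos
      have := Nat.le_of_dvd h5 h4
      omega
    have hcn := S.isPGroup'.center_nontrivial
    obtain ⟨⟨x, hx⟩, hx1⟩ := exists_ne (1 : ↥(center ↥(S : Subgroup G)))
    have hxZ : (x : G) ∈ Z := by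
      rw [hZ]
      refine ⟨x.2, Subgroup.mem_centralizer_iff.2 ?_⟩
      intro s hs
      have := Subgroup.mem_center_iff.1 hx ⟨s, hs⟩
      exact congrArg Subtype.val this
    rw [hbot, Subgroup.mem_bot] at hxZ
    apply hx1
    apply Subtype.ext
    apply Subtype.ext
    exact hxZ
  have hZ3 : Nat.card ↥Z = 3 := ((Nat.dvd_prime Nat.prime_three).1 hZdvd).resolve_left hZ1
  have hZeq : Z.subgroupOf Q = center ↥Q := by
    apply Subgroup.eq_of_le_of_card_ge hZcen
    rw [hcen3, Nat.card_congr (Subgroup.subgroupOfEquivOfLe hZQ).toEquiv, hZ3]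
  refine ⟨hZ3, by rw [hQcard]; norm_num, hZQ, hQC, ?_, ?_, ?_, ?_, hCQ, ?_⟩
  · -- normalizer of `Z`
    intro g hg q hq
    have hgC : g ∈ normalizer ((centralizer (Z : Set G) : Subgroup G) : Set G) := by
      have hgZ : g ∈ normalizer (Z : Set G) := mem_normalizer_fintype (S := (Z : Set G)) hg
      apply mem_normalizer_fintype
      intro c hc
      rw [SetLike.mem_coe, Subgroup.mem_centralizer_iff]
      intro z hz
      have hz' : g⁻¹ * z * g ∈ Z := by
        have := (Subgroup.mem_normalizer_iff.1 ((normalizer (Z : Set G)).inv_mem hgZ) z).1 hz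
        simpa only [_root_.inv_inv] using this
      have h1 := Subgroup.mem_centralizer_iff.1 hc _ hz'
      calc z * (g * c * g⁻¹) = g * ((g⁻¹ * z * g) * c) * g⁻¹ := by group
        _ = g * (c * (g⁻¹ * z * g)) * g⁻¹ := by rw [h1]
        _ = g * c * g⁻¹ * z := by group
    rw [hQ] at hq ⊢
    obtain ⟨x, hx, rfl⟩ := hq
    let φ : MulAut ↥(centralizer (Z : Set G)) := (centralizer (Z : Set G)).normalizerMonoidHom ⟨g, hgC⟩
    have h1 : φ x ∈ Cfsg.pCore 3 ↥(centralizer (Z : Set G)) := by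
      have h2 := map_equiv_pCore φ 3
      rw [← h2]
      exact ⟨x, hx, rfl⟩
    exact ⟨φ x, h1, rfl⟩
  · -- commutators
    intro a ha b hb
    have h1 : ⁅(⟨a, ha⟩ : ↥Q), ⟨b, hb⟩⁆ ∈ commutator ↥Q :=
      Subgroup.commutator_mem_commutator (Subgroup.mem_top _) (Subgroup.mem_top _)
    rw [hQex.1.2.2, ← hZeq, Subgroup.mem_subgroupOf] at h1
    exact h1
  · intro a ha hab
    have h1 : (⟨a, ha⟩ : ↥Q) ∈ center ↥Q := by
      rw [Subgroup.mem_center_iff]
      intro b
      exact Subtype.ext (hab b b.2).symm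
    rw [← hZeq, Subgroup.mem_subgroupOf] at h1
    exact h1
  · intro a ha
    have := hQexp a ha
    rw [pow_succ, pow_two] at this
    exact this
  · -- the order of the centralizer
    have h1 := Subgroup.card_mul_index (Cfsg.pCore 3 ↥(centralizer (Z : Set G)))
    have h2 : (Cfsg.pCore 3 ↥(centralizer (Z : Set G))).index = 24 := by
      have : Nat.card (↥(centralizer (Z : Set G)) ⧸ Cfsg.pCore 3 ↥(centralizer (Z : Set G))) = 24 := by
        rw [Nat.card_congr e.toEquiv, card_S3]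
      exact this
    have h3 : Nat.card ↥(Cfsg.pCore 3 ↥(centralizer (Z : Set G))) = 243 := by
      rw [show (243 : ℕ) = 3 ^ 5 by norm_num, ← hQcard, hQ]
      exact Nat.card_congr ((Cfsg.pCore 3 ↥(centralizer (Z : Set G))).equivMapOfInjective _
        (Subgroup.subtype_injective _)).toEquiv
    rw [h2, h3] at h1
    omega

/-- the covering -/
def piOf {Z : Subgroup G} (e : ↥(centralizer (Z : Set G)) ⧸ Cfsg.pCore 3 ↥(centralizer (Z : Set G)) ≃* S3) :
    ↥(centralizer (Z : Set G)) →* S3 :=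
  e.toMonoidHom.comp (QuotientGroup.mk' _)

omit [Finite G] in
theorem cov_of {Z Q : Subgroup G}
    (hQ : Q = (Cfsg.pCore 3 ↥(centralizer (Z : Set G))).map (centralizer (Z : Set G)).subtype)
    (e : ↥(centralizer (Z : Set G)) ⧸ Cfsg.pCore 3 ↥(centralizer (Z : Set G)) ≃* S3) : Cov Z Q (piOf e) := by
  refine ⟨e.surjective.comp (QuotientGroup.mk'_surjective _), ?_⟩
  intro c
  show e (QuotientGroup.mk' _ c) = 1 ↔ _
  rw [e.map_eq_one_iff, QuotientGroup.mk'_apply, QuotientGroup.eq_one_iff, hQ]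
  constructor
  · intro hc; exact ⟨c, hc, rfl⟩
  · rintro ⟨c', hc', he⟩
    have : c' = c := Subtype.ext he
    rwa [← this]

omit [Finite G] in
/-- `K = C` -/
theorem mem_K {Z : Subgroup G} (e : ↥(centralizer (Z : Set G)) ⧸ Cfsg.pCore 3 ↥(centralizer (Z : Set G)) ≃* S3)
    {c : G} (hc : c ∈ centralizer (Z : Set G)) :
    c ∈ ((Cfsg.pResidual 2 (↥(centralizer (Z : Set G)) ⧸ Cfsg.pCore 3 ↥(centralizer (Z : Set G)))).comap
      (QuotientGroup.mk' (Cfsg.pCore 3 ↥(centralizer (Z : Set G))))).map (centralizer (Z : Set G)).subtype := by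
  refine ⟨⟨c, hc⟩, ?_, rfl⟩
  show QuotientGroup.mk' (Cfsg.pCore 3 ↥(centralizer (Z : Set G))) (⟨c, hc⟩ : ↥(centralizer (Z : Set G))) ∈
    Cfsg.pResidual 2 _
  set x := QuotientGroup.mk' (Cfsg.pCore 3 ↥(centralizer (Z : Set G))) (⟨c, hc⟩ : ↥(centralizer (Z : Set G)))
  have h3 : ∀ g : S3, g * g * g = 1 → e.symm g ∈ Cfsg.pResidual 2 (↥(centralizer (Z : Set G)) ⧸
      Cfsg.pCore 3 ↥(centralizer (Z : Set G))) := by
    intro g hg
    apply Subgroup.subset_closure
    show Nat.Coprime (orderOf (e.symm g)) 2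
    have h1 : orderOf (e.symm g) ∣ 3 := by
      apply orderOf_dvd_of_pow_eq_one
      rw [← map_pow, pow_succ, pow_two, hg, map_one]
    exact Nat.Coprime.coprime_dvd_left h1 (by norm_num)
  have hall : ∀ g : S3, e.symm g ∈ Cfsg.pResidual 2 (↥(centralizer (Z : Set G)) ⧸
      Cfsg.pCore 3 ↥(centralizer (Z : Set G))) := by
    have hne : ∀ g : S3, g ≠ -1 → e.symm g ∈ Cfsg.pResidual 2 (↥(centralizer (Z : Set G)) ⧸
        Cfsg.pCore 3 ↥(centralizer (Z : Set G))) := by
      intro g hg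
      rcases two_three g with h1 | ⟨a, b, ha, hb, rfl⟩
      · exact absurd h1 hg
      · rw [map_mul]; exact Subgroup.mul_mem _ (h3 a ha) (h3 b hb)
    intro g
    by_cases hg : g = -1
    · rw [hg, ← r1, map_mul]
      exact Subgroup.mul_mem _ (hne i0 (by decide)) (hne i0 (by decide))
    · exact hne g hg
  have := hall (e x)
  rwa [e.symm_apply_apply] at this

omit [Finite G] in
theorem cube_trivial {M : Type*} [AddCommGroup M] (h3 : ∀ x : M, x + x + x = 0) {P R : AddSubgroup M} (hPR : P ≤ R)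
    (hidx : P.relIndex R = 3) (φ : AddMonoid.End M) (hφ : ∀ x, φ (φ (φ x)) = x) (hP : ∀ x ∈ P, φ x ∈ P)
    (hR : ∀ x ∈ R, φ x ∈ R) : ∀ x ∈ R, φ x - x ∈ P := by
  let X : AddSubgroup M := R ⊓ P.comap (φ - 1)
  have hm : ∀ x, x ∈ X ↔ x ∈ R ∧ φ x - x ∈ P := fun x => Iff.rfl
  have hPX : P ≤ X := fun x hx => (hm x).2 ⟨hPR hx, P.sub_mem (hP x hx) hx⟩
  have hXR : X ≤ R := fun x hx => hx.1
  have h1 := AddSubgroup.relIndex_mul_relIndex P X R hPX hXR
  rw [hidx] at h1
  have h2 : P.relIndex X ∣ 3 := ⟨_, h1.symm⟩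
  rcases (Nat.dvd_prime Nat.prime_three).1 h2 with h4 | h4
  · exfalso
    have hXP : X ≤ P := AddSubgroup.relIndex_eq_one.1 h4
    have key : ∀ x ∈ R, φ x - x ∈ P → x ∈ P := fun x hx hx' => hXP ((hm x).2 ⟨hx, hx'⟩)
    have hle : R ≤ P := by
      intro x hx
      have hx1 : φ x - x ∈ R := R.sub_mem (hR x hx) hx
      have hx2 : φ (φ x - x) - (φ x - x) ∈ R := R.sub_mem (hR _ hx1) hx1
      apply key x hx
      apply key _ hx1
      apply key _ hx2
      have : φ (φ (φ x - x) - (φ x - x)) - (φ (φ x - x) - (φ x - x)) = 0 := by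
        simp only [map_sub, hφ]
        have h5 := h3 (φ x)
        have h6 := h3 (φ (φ x))
        calc _ = (φ x + φ x + φ x) - (φ (φ x) + φ (φ x) + φ (φ x)) := by abel
          _ = 0 := by rw [h5, h6, sub_zero]
      rw [this]; exact P.zero_mem
    rw [AddSubgroup.relIndex_eq_one.2 hle] at hidx
    omega
  · intro x hx
    rw [h4] at h1
    have h5 : X.relIndex R = 1 := by omega
    exact ((hm x).1 (AddSubgroup.relIndex_eq_one.1 h5 hx)).2

omit [Finite G] in
/-- a chief factor on which `C_G(Z)` acts nontrivially has order at least `9` -/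
theorem nine_le {Z Q : Subgroup G} (h : Cfg Z Q) {π : ↥(centralizer (Z : Set G)) →* S3} (hπ : Cov Z Q π)
    {P R : Subgroup G} (hZP : Z ≤ P) (hPR : P < R) (hRQ : R ≤ Q)
    (hPi : ∀ c ∈ centralizer (Z : Set G), ∀ b ∈ P, c * b * c⁻¹ ∈ P)
    (hRi : ∀ c ∈ centralizer (Z : Set G), ∀ b ∈ R, c * b * c⁻¹ ∈ R)
    (hne : ∃ c ∈ centralizer (Z : Set G), ∃ a ∈ R, c * a * c⁻¹ * a⁻¹ ∉ P) : 9 * Nat.card ↥P ≤ Nat.card ↥R := by
  have hfin := h.finiteQ
  have hmul : Nat.card ↥P * P.relIndex R = Nat.card ↥R := by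
    have h1 := Subgroup.relIndex_mul_relIndex (⊥ : Subgroup G) P R bot_le hPR.le
    rwa [Subgroup.relIndex_bot_left, Subgroup.relIndex_bot_left] at h1
  have hR243 : Nat.card ↥R ∣ 3 ^ 5 := by
    have := Subgroup.card_dvd_of_le hRQ
    rw [h.cardQ] at this
    exact this
  have hidv : P.relIndex R ∣ 3 ^ 5 := (Dvd.intro_left _ hmul).trans hR243
  have h1 : P.relIndex R ≠ 1 := fun h1 => (not_le_of_gt hPR) (Subgroup.relIndex_eq_one.1 h1)
  have h3 : P.relIndex R ≠ 3 := by
    intro h3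
    obtain ⟨c, hc, a, ha, hca⟩ := hne
    apply hca
    have hPR' : barS Q P ≤ barS Q R := Cfg.barS_mono hPR.le
    have hcP := h.card_barS hZP (hPR.le.trans hRQ)
    have hcR := h.card_barS (hZP.trans hPR.le) hRQ
    have hPpos : 0 < Nat.card ↥P := by
      have hfP : Finite ↥P := Finite.of_injective (Subgroup.inclusion (hPR.le.trans hRQ))
        (Subgroup.inclusion_injective _)
      exact Nat.card_pos
    have hidx : (barS Q P).relIndex (barS Q R) = 3 := by
      have h4 := card_mul_relIndex' hPR'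
      rw [h3] at hmul
      rw [← hcP, ← hcR, ← h4] at hmul
      have h5 : 0 < Nat.card ↥(barS Q P) := by
        rw [← hcP] at hPpos
        omega
      have h6 : Nat.card ↥(barS Q P) * (barS Q P).relIndex (barS Q R) = Nat.card ↥(barS Q P) * 3 := by
        linarith only [hmul]
      exact Nat.eq_of_mul_eq_mul_left h5 h6
    have hPa := h.barS_inv hZP hPi
    have hRa := h.barS_inv (hZP.trans hPR.le) hRi
    have hPr : ∀ g, ∀ x ∈ barS Q P, h.rho hπ g x ∈ barS Q P := by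
      intro g x hx; obtain ⟨c, rfl⟩ := hπ.surj g; rw [h.rho_pi hπ]; exact hPa c x hx
    have hRr : ∀ g, ∀ x ∈ barS Q R, h.rho hπ g x ∈ barS Q R := by
      intro g x hx; obtain ⟨c, rfl⟩ := hπ.surj g; rw [h.rho_pi hπ]; exact hRa c x hx
    have key3 : ∀ g : S3, g * g * g = 1 → ∀ x ∈ barS Q R, h.rho hπ g x - x ∈ barS Q P := by
      intro g hg
      apply cube_trivial h.three_M hPR' hidx (h.rho hπ g) ?_ (hPr g) (hRr g)
      intro x
      have : h.rho hπ (g * g * g) x = x := by rw [hg, map_one]; rfl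
      rw [map_mul, map_mul] at this
      exact this
    have keym : ∀ g g' : S3, (∀ x ∈ barS Q R, h.rho hπ g x - x ∈ barS Q P) →
        (∀ x ∈ barS Q R, h.rho hπ g' x - x ∈ barS Q P) → ∀ x ∈ barS Q R, h.rho hπ (g * g') x - x ∈ barS Q P := by
      intro g g' hg hg' x hx
      have h5 := AddSubgroup.add_mem _ (hPr g _ (hg' x hx)) (hg x hx)
      rw [map_sub] at h5
      have h6 : h.rho hπ (g * g') x = h.rho hπ g (h.rho hπ g' x) := by rw [map_mul]; rfl
      rw [h6]
      have h7 : h.rho hπ g (h.rho hπ g' x) - x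
          = h.rho hπ g (h.rho hπ g' x) - h.rho hπ g x + (h.rho hπ g x - x) := by abel
      rw [h7]; exact h5
    have hall : ∀ g : S3, ∀ x ∈ barS Q R, h.rho hπ g x - x ∈ barS Q P := by
      have hne1 : ∀ g : S3, g ≠ -1 → ∀ x ∈ barS Q R, h.rho hπ g x - x ∈ barS Q P := by
        intro g hg
        rcases two_three g with h5 | ⟨a, b, ha, hb, rfl⟩
        · exact absurd h5 hg
        · exact keym a b (key3 a ha) (key3 b hb)
      intro g
      by_cases hg : g = -1
      · rw [hg, ← r1]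
        exact keym i0 i0 (hne1 i0 (by decide)) (hne1 i0 (by decide))
      · exact hne1 g hg
    have h8 := hall (π ⟨c, hc⟩) (bar ⟨a, hRQ ha⟩) ((h.bar_mem_barS (hZP.trans hPR.le) _).2 ha)
    rw [h.rho_pi hπ, h.actC_bar ⟨c, hc⟩ ⟨a, hRQ ha⟩ ⟨c * a * c⁻¹, h.normQ' hc (hRQ ha)⟩ rfl, sub_eq_add_neg,
      ← bar_inv, ← bar_mul, h.bar_mem_barS hZP] at h8
    exact h8
  obtain ⟨k, hk, hk'⟩ := (Nat.dvd_prime_pow Nat.prime_three).1 hidv
  have h9 : 9 ≤ P.relIndex R := by
    rw [hk']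
    have : k ≠ 0 := by rintro rfl; exact h1 (by rw [hk', pow_zero])
    have : k ≠ 1 := by rintro rfl; exact h3 (by rw [hk', pow_one])
    calc 9 = 3 ^ 2 := by norm_num
      _ ≤ 3 ^ k := Nat.pow_le_pow_right (by norm_num) (by omega)
  calc 9 * Nat.card ↥P ≤ P.relIndex R * Nat.card ↥P := Nat.mul_le_mul_right _ h9
    _ = Nat.card ↥R := by rw [mul_comm, hmul]

/-- the case `i < j` -/
theorem good_of_chain' {Z Q : Subgroup G} (h : Cfg Z Q) {π : ↥(centralizer (Z : Set G)) →* S3} (hπ : Cov Z Q π)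
    {r : ℕ} {A : Fin (r + 1) → Subgroup G} (hA0 : A 0 = Z) (hAr : A (Fin.last r) = Q)
    (hmono : ∀ i : Fin r, A i.castSucc < A i.succ)
    (hinv : ∀ i : Fin (r + 1), ∀ c ∈ centralizer (Z : Set G), ∀ a ∈ A i, c * a * c⁻¹ ∈ A i)
    (hmax : ∀ i : Fin r, ∀ B : Subgroup G, A i.castSucc < B → B < A i.succ →
      ∃ k ∈ centralizer (Z : Set G), ∃ b ∈ B, k * b * k⁻¹ ∉ B)
    {i j : Fin r} (hij : i < j)
    (hi : ∃ k ∈ centralizer (Z : Set G), ∃ a ∈ A i.succ, k * a * k⁻¹ * a⁻¹ ∉ A i.castSucc)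
    (hj : ∃ k ∈ centralizer (Z : Set G), ∃ a ∈ A j.succ, k * a * k⁻¹ * a⁻¹ ∉ A j.castSucc) : Good h π := by
  have sm : StrictMono A := Fin.strictMono_iff_lt_succ.2 hmono
  have hZA : ∀ l, Z ≤ A l := fun l => by rw [← hA0]; exact sm.monotone (Fin.zero_le l)
  have hAQ : ∀ l, A l ≤ Q := fun l => by rw [← hAr]; exact sm.monotone (Fin.le_last l)
  have h1 := nine_le h hπ (hZA _) (hmono i) (hAQ _) (hinv _) (hinv _) hi
  have h2 := nine_le h hπ (hZA _) (hmono j) (hAQ _) (hinv _) (hinv _) hj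
  have hle : A i.succ ≤ A j.castSucc := sm.monotone (by
    rw [Fin.le_def]; simp; exact hij)
  have c1 : 3 ≤ Nat.card ↥(A i.castSucc) := by
    rw [← h.cardZ]; exact Nat.le_of_dvd Nat.card_pos (Subgroup.card_dvd_of_le (hZA _))
  have c2 : Nat.card ↥(A i.succ) ≤ Nat.card ↥(A j.castSucc) :=
    Nat.le_of_dvd Nat.card_pos (Subgroup.card_dvd_of_le hle)
  have c3 : Nat.card ↥(A j.succ) ≤ 243 := by
    rw [← h.cardQ]; exact Nat.le_of_dvd Nat.card_pos (Subgroup.card_dvd_of_le (hAQ _))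
  have e1 : A i.castSucc = Z := by
    symm
    apply Subgroup.eq_of_le_of_card_ge (hZA _)
    rw [h.cardZ]; omega
  have e2 : A i.succ = A j.castSucc := Subgroup.eq_of_le_of_card_ge hle (by omega)
  have e3 : A j.succ = Q := by
    apply Subgroup.eq_of_le_of_card_ge (hAQ _)
    rw [h.cardQ]; omega
  apply h.good_of hπ (W0 := A i.succ) (hZA _) (hAQ _) (by omega) (hinv _)
  · intro B hZB hBW hB
    by_contra hcon
    push Not at hcon
    obtain ⟨k, hk, b, hb, hkb⟩ := hmax i B (by rw [e1]; exact lt_of_le_of_ne hZB (Ne.symm hcon.1))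
      (lt_of_le_of_ne hBW hcon.2)
    exact hkb (hB k hk b hb)
  · intro B hWB hBQ hB
    by_contra hcon
    push Not at hcon
    obtain ⟨k, hk, b, hb, hkb⟩ := hmax j B (by rw [← e2]; exact lt_of_le_of_ne hWB (Ne.symm hcon.1))
      (by rw [e3]; exact lt_of_le_of_ne hBQ hcon.2)
    exact hkb (hB k hk b hb)

end Cfsg.Agent.H352.L43
end

-- part: H352/L43/Local
section
/-!
# The subgroup `A` of order `27` and `N_G(A) / A ≅ SL(3,3)` (helper352)
-/

set_option autoImplicit false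

namespace Cfsg.Agent.H352.L43

open scoped commutatorElement IsMulCommutative
open Subgroup

variable {G : Type*} [Group G]

set_option maxRecDepth 100000 in
theorem sl_norm : ∀ g : S3, g ≠ 1 → g ≠ -1 → ∃ h : S3, (g * (h * g⁻¹ * h⁻¹)) * (g * (h * g⁻¹ * h⁻¹)) = -1 := by
  (set_option synthInstance.maxSize 20000 in open scoped Cfsg.Agent.Lib.MatDec in decide +kernel)

/-- the local structure -/
structure Loc43 (Z Q A : Subgroup G) : Prop where
  cfg : Cfg Z Q
  ZA : Z ≤ A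
  AQ : A ≤ Q
  cardA : Nat.card ↥A = 27
  commA : ∀ a ∈ A, ∀ b ∈ A, a * b = b * a
  normC : centralizer (Z : Set G) ≤ normalizer (A : Set G)
  centA : centralizer (A : Set G) ≤ A
  trans : ∃ z ∈ Z, z ≠ 1 ∧ ∀ a ∈ A, a ≠ 1 → ∃ n ∈ normalizer (A : Set G), n * z * n⁻¹ = a

variable {Z Q Y R A : Subgroup G}

theorem centA_of (t : Two Z Q Y R) {π : ↥(centralizer (Z : Set G)) →* S3} (hπ : Cov Z Q π) (hg : Good t.h π)
    (hA : ∀ c ∈ centralizer (Z : Set G), ∀ a ∈ Q ⊓ R, c * a * c⁻¹ ∈ Q ⊓ R) :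
    centralizer ((Q ⊓ R : Subgroup G) : Set G) ≤ Q ⊓ R := by
  have h := t.h
  intro x hx
  have hxZ : x ∈ centralizer (Z : Set G) := Subgroup.centralizer_le t.Z_le_A hx
  have hxa : ∀ a ∈ Q ⊓ R, x * a = a * x := fun a ha => (Subgroup.mem_centralizer_iff.1 hx a ha).symm
  suffices hq : x ∈ Q from t.cent_A hq hxa
  set g := π ⟨x, hxZ⟩ with hgdef
  have hinv := h.barS_inv t.Z_le_A hA
  have hrinv : ∀ g : S3, ∀ v ∈ barS Q (Q ⊓ R), h.rho hπ g v ∈ barS Q (Q ⊓ R) := by
    intro g v hv; obtain ⟨c, rfl⟩ := hπ.surj g; rw [h.rho_pi hπ]; exact hinv c v hv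
  have hgN : ∀ v ∈ barS Q (Q ⊓ R), h.rho hπ g v = v := by
    intro v hv
    obtain ⟨a, ha, rfl⟩ := mem_barS.1 hv
    rw [hgdef, h.rho_pi hπ]
    apply h.actC_bar
    have := hxa a ha
    show (a : G) = x * a * x⁻¹
    rw [this]; group
  have hmul : ∀ g g' : S3, ∀ v, h.rho hπ (g * g') v = h.rho hπ g (h.rho hπ g' v) := by
    intro g g' v; rw [map_mul]; rfl
  have hone : ∀ v, h.rho hπ 1 v = v := by intro v; rw [map_one]; rfl
  have hinvN : ∀ v ∈ barS Q (Q ⊓ R), h.rho hπ g⁻¹ v = v := by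
    intro v hv
    have h1 := hgN v hv
    calc h.rho hπ g⁻¹ v = h.rho hπ g⁻¹ (h.rho hπ g v) := by rw [h1]
      _ = v := by rw [← hmul, inv_mul_cancel, hone]
  have hconj : ∀ k : S3, ∀ v ∈ barS Q (Q ⊓ R), h.rho hπ (k * g⁻¹ * k⁻¹) v = v := by
    intro k v hv
    rw [hmul, hmul, hinvN _ (hrinv _ v hv), ← hmul, mul_inv_cancel, hone]
  have hc : ∀ k : S3, ∀ v ∈ barS Q (Q ⊓ R), h.rho hπ (g * (k * g⁻¹ * k⁻¹)) v = v := by
    intro k v hv
    rw [hmul, hconj k v hv, hgN v hv]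
  -- `-1` is not in the kernel
  have hm1 : ¬ ∀ v ∈ barS Q (Q ⊓ R), h.rho hπ (-1) v = v := by
    intro hall
    obtain ⟨y, hy, hy1⟩ := t.exists_y
    have hyA := t.Y_le_A hy
    have h1 := hall (bar ⟨y, hyA.1⟩) ((h.bar_mem_barS t.Z_le_A _).2 hyA)
    obtain ⟨c, hc⟩ := hπ.surj (-1)
    rw [← hc, h.rho_pi hπ, hg.neg c hc] at h1
    have h2 := h.three_M (bar (⟨y, hyA.1⟩ : ↥Q))
    have h3 : bar (⟨y, hyA.1⟩ : ↥Q) = 0 := by
      nth_rewrite 1 [← h1] at h2
      rw [neg_add_cancel, zero_add] at h2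
      exact h2
    exact t.notMem hy hy1 ((h.bar_eq_zero_iff _).1 h3)
  have hg1 : g = 1 := by
    by_contra hne
    by_cases hgm : g = -1
    · apply hm1; rw [← hgm]; exact hgN
    · obtain ⟨k, hk⟩ := sl_norm g hne hgm
      apply hm1
      intro v hv
      rw [← hk, hmul, hc k v hv, hc k v hv]
  exact (hπ.ker ⟨x, hxZ⟩).1 hg1

theorem mem_norm_of [Finite G] {A : Subgroup G} {g : G} (h : ∀ a ∈ A, g * a * g⁻¹ ∈ A) : g ∈ normalizer (A : Set G) :=
  mem_normalizer_fintype (S := (A : Set G)) h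

theorem loc_of [Finite G] (t : Two Z Q Y R) {π : ↥(centralizer (Z : Set G)) →* S3} (hπ : Cov Z Q π)
    (hg : Good t.h π) : Loc43 Z Q (Q ⊓ R) := by
  obtain ⟨hA, y, hy, hy1, hyt⟩ := core t hπ hg
  refine ⟨t.h, t.Z_le_A, inf_le_left, t.card_A, fun a ha b hb => t.comm_A ha hb, ?_, centA_of t hπ hg hA, ?_⟩
  · intro c hc
    exact mem_norm_of (hA c hc)
  · obtain ⟨z, hz, y', hy', hz1, hy'1, g, hgs, h1, h2⟩ := t.exists_swap
    have hgN : g ∈ normalizer ((Q ⊓ R : Subgroup G) : Set G) := mem_norm_of fun a ha => hgs.mem t ha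
    obtain ⟨τ, hτ⟩ := t.exists_tau
    have hτN : τ ∈ normalizer ((Q ⊓ R : Subgroup G) : Set G) := mem_norm_of fun a ha => hτ.sm.mem t ha
    have hCN : ∀ c ∈ centralizer (Z : Set G), c ∈ normalizer ((Q ⊓ R : Subgroup G) : Set G) :=
      fun c hc => mem_norm_of (hA c hc)
    refine ⟨z, hz, hz1, ?_⟩
    -- elements outside `Z`
    have hout : ∀ a ∈ Q ⊓ R, a ∉ Z → ∃ n ∈ normalizer ((Q ⊓ R : Subgroup G) : Set G), n * z * n⁻¹ = a := by
      intro a ha haZ
      obtain ⟨c, hc, hca⟩ := hyt a ha haZ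
      obtain ⟨c', hc', hca'⟩ := hyt y' (t.Y_le_A hy') (t.notMem hy' hy'1)
      -- `z = g y' g⁻¹`, `y' = c' y c'⁻¹`
      refine ⟨c * c'⁻¹ * g⁻¹, mul_mem (mul_mem (hCN c hc) (inv_mem (hCN c' hc'))) (inv_mem hgN), ?_⟩
      calc c * c'⁻¹ * g⁻¹ * z * (c * c'⁻¹ * g⁻¹)⁻¹ = c * c'⁻¹ * (g⁻¹ * z * g) * c' * c⁻¹ := by group
        _ = c * c'⁻¹ * y' * c' * c⁻¹ := by rw [← h2]; group
        _ = a := by rw [← hca', ← hca]; group
    intro a ha ha1
    by_cases haZ : a ∈ Z
    · rcases Two.eq_or_inv t.h.cardZ haZ hz ha1 hz1 with h3 | h3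
      · exact ⟨1, one_mem _, by rw [h3]; group⟩
      · exact ⟨τ, hτN, by rw [h3]; exact hτ.zinv z hz⟩
    · exact hout a ha haZ

namespace Loc43

theorem expA (h : Loc43 Z Q A) {a : G} (ha : a ∈ A) : a * a * a = 1 := h.cfg.exp a (h.AQ ha)

theorem finA (h : Loc43 Z Q A) : Finite ↥A := Nat.finite_of_card_ne_zero (by rw [h.cardA]; norm_num)

theorem card_N [Finite G] (h : Loc43 Z Q A) : Nat.card ↥(normalizer (A : Set G)) = 151632 := by
  obtain ⟨z, hz, hz1, htr⟩ := h.trans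
  have hzA := h.ZA hz
  have hcz : centralizer ({z} : Set G) = centralizer (Z : Set G) := by
    apply le_antisymm
    · intro x hx
      rw [Subgroup.mem_centralizer_singleton_iff] at hx
      rw [Subgroup.mem_centralizer_iff]
      intro w hw
      by_cases hw1 : w = 1
      · rw [hw1]; simp
      rcases Two.eq_or_inv h.cfg.cardZ hw hz hw1 hz1 with h3 | h3
      · rw [h3]; exact hx.symm
      · rw [h3]
        have : Commute x z := hx
        exact this.symm.inv_left
    · exact Subgroup.centralizer_le (by simpa using hz)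
  let N := normalizer (A : Set G)
  -- the action of `N` on `A`
  let ψ : ↥N →* MulAut ↥A := A.normalizerMonoidHom
  let _ : MulAction ↥N ↥A := MulAction.compHom ↥A ψ
  have hsm : ∀ (n : ↥N) (a : ↥A), ((n • a : ↥A) : G) = n * a * (n : G)⁻¹ := fun _ _ => rfl
  have horb : MulAction.orbit ↥N (⟨z, hzA⟩ : ↥A) = {a : ↥A | a ≠ 1} := by
    ext a
    constructor
    · rintro ⟨n, rfl⟩ h1
      have h2 := congrArg Subtype.val h1
      have h3 : (n : G) * z * (n : G)⁻¹ = 1 := h2
      apply hz1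
      have : z = (n : G)⁻¹ * ((n : G) * z * (n : G)⁻¹) * n := by group
      rw [this, h3]; group
    · intro ha
      obtain ⟨n, hn, hna⟩ := htr a a.2 (fun h1 => ha (Subtype.ext h1))
      exact ⟨⟨n, hn⟩, Subtype.ext hna⟩
  have hfin := h.finA
  have hco : Nat.card (MulAction.orbit ↥N (⟨z, hzA⟩ : ↥A)) = 26 := by
    rw [horb]
    have h1 : Nat.card {a : ↥A | a ≠ 1} = Nat.card ↥A - 1 := by
      have h2 : {a : ↥A | a ≠ 1} = ({1} : Set ↥A)ᶜ := by ext a; simp
      rw [Nat.card_coe_set_eq, h2, Set.ncard_compl, Set.ncard_singleton]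
    rw [h1, h.cardA]
  have hst : Nat.card (MulAction.stabilizer ↥N (⟨z, hzA⟩ : ↥A)) = 5832 := by
    have h1 : MulAction.stabilizer ↥N (⟨z, hzA⟩ : ↥A) = (centralizer (Z : Set G)).subgroupOf N := by
      ext n
      rw [MulAction.mem_stabilizer_iff, Subgroup.mem_subgroupOf, ← hcz, Subgroup.mem_centralizer_singleton_iff,
        Subtype.ext_iff, hsm]
      constructor
      · intro h2
        have h2' : (n : G) * z * (n : G)⁻¹ = z := h2
        calc (n : G) * z = n * z * (n : G)⁻¹ * n := by group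
          _ = z * n := by rw [h2']
      · intro h2
        show (n : G) * z * (n : G)⁻¹ = z
        rw [h2]; group
    rw [h1, Nat.card_congr (Subgroup.subgroupOfEquivOfLe h.normC).toEquiv, h.cfg.cardC]
  have h2 := Nat.card_congr (MulAction.orbitEquivQuotientStabilizer ↥N (⟨z, hzA⟩ : ↥A))
  have h3 := Subgroup.card_mul_index (MulAction.stabilizer ↥N (⟨z, hzA⟩ : ↥A))
  have h4 : (MulAction.stabilizer ↥N (⟨z, hzA⟩ : ↥A)).index = 26 := by
    rw [← hco]; exact h2.symm
  rw [hst, h4] at h3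
  exact h3.symm

/-- **`N_G(A) / A ≅ SL(3,3)`** -/
theorem exists_Phi [Finite G] (h : Loc43 Z Q A) : ∃ (E : ↥A ≃ V3) (Φ : ↥(normalizer (A : Set G)) →* SL33),
    (∀ a b, E (a * b) = E a + E b) ∧ Function.Surjective Φ ∧ (∀ n, Φ n = 1 ↔ (n : G) ∈ A) ∧
    ∀ (n : ↥(normalizer (A : Set G))) (a b : ↥A), (b : G) = n * a * (n : G)⁻¹ → E b = (Φ n).1.mulVec (E a) := by
  obtain ⟨E, hE, θ, hθi, hθ⟩ := exists_theta (A := ↥A) (fun a b => Subtype.ext (h.commA a a.2 b b.2))
    (fun a => Subtype.ext (h.expA a.2)) h.cardA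
  let ψ : ↥(normalizer (A : Set G)) →* MulAut ↥A := A.normalizerMonoidHom
  have hker : ∀ n, ψ n = 1 ↔ (n : G) ∈ A := by
    intro n
    have h1 : ψ n = 1 ↔ n ∈ A.normalizerMonoidHom.ker := Iff.rfl
    rw [h1, Subgroup.normalizerMonoidHom_ker, Subgroup.mem_subgroupOf]
    constructor
    · intro h2; exact h.centA h2
    · intro h2
      rw [Subgroup.mem_centralizer_iff]
      intro a ha
      exact h.commA a ha n h2
  have hrange : Nat.card ↥(θ.comp ψ).range = 5616 := by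
    have h1 := Subgroup.card_mul_index (θ.comp ψ).ker
    rw [Subgroup.index_ker, h.card_N] at h1
    have h2 : (θ.comp ψ).ker = A.subgroupOf (normalizer (A : Set G)) := by
      ext n
      rw [MonoidHom.mem_ker, MonoidHom.comp_apply, map_eq_one_iff θ hθi, hker, Subgroup.mem_subgroupOf]
    rw [h2, Nat.card_congr (Subgroup.subgroupOfEquivOfLe A.le_normalizer).toEquiv, h.cardA] at h1
    omega
  have hdet : ∀ n, (θ (ψ n)).1.det = 1 := fun n => (mem_iff_det hrange _).1 ⟨n, rfl⟩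
  let Φ : ↥(normalizer (A : Set G)) →* SL33 :=
    { toFun := fun n => ⟨(θ (ψ n)).1, hdet n⟩
      map_one' := Subtype.ext (by simp only [_root_.map_one, _root_.Units.val_one, _root_.Matrix.SpecialLinearGroup.coe_one])
      map_mul' := fun a b => Subtype.ext (by
        show (θ (ψ (a * b))).1 = (θ (ψ a)).1 * (θ (ψ b)).1
        rw [map_mul, map_mul]; rfl) }
  refine ⟨E, Φ, hE, ?_, ?_, ?_⟩
  · intro s
    have h1 : (Matrix.SpecialLinearGroup.toGL s : GL (Fin 3) (ZMod 3)) ∈ (θ.comp ψ).range :=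
      (mem_iff_det hrange _).2 s.2
    obtain ⟨n, hn⟩ := h1
    refine ⟨n, Subtype.ext ?_⟩
    exact congrArg (fun g : GL (Fin 3) (ZMod 3) => g.1) hn
  · intro n
    rw [← hker, ← map_eq_one_iff θ hθi]
    constructor
    · intro h1
      exact Units.ext (congrArg Subtype.val h1)
    · intro h1
      exact Subtype.ext (congrArg (fun g : GL (Fin 3) (ZMod 3) => g.1) h1)
  · intro n a b hb
    have h1 : b = ψ n a := Subtype.ext hb
    rw [h1]
    exact hθ (ψ n) a

end Loc43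

end Cfsg.Agent.H352.L43
end

private theorem dce_590462af3ced : _root_.True := by
  try have : _root_.True := by simp only [_root_.Cfsg.Agent.H352.L43.pairHom.congr_simp]
  try have : _root_.True := by simp only [_root_.Cfsg.Agent.H352.L43.pairHom.eq_1]
  try have : _root_.True := by simp only [_root_.Cfsg.Agent.H352.L43.pairAb.congr_simp]
  exact _root_.True.intro
end

-- part: H352/L43/Simple
section
prune_inst 0x74000300670000000018000000003e72b2000000002b0001c140070206898f2320802720bae006060302aa75003d0008120000590010000000008200411801a0042a1206b148a000000010009080000000000000000000000000000000000000000000000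
set_option linter.all false
open scoped Cfsg.Agent.FastGrp

/-!
# `O_3(G) = 1` implies that `G` is simple; otherwise `A = O_3(G)` (helper352)
-/

set_option autoImplicit false

namespace Cfsg.Agent.H352.L43

open Subgroup Cfsg
open Cfsg.Agent.Lib.Cores
open scoped Pointwise

theorem cube_eq_one : ∀ r : ZMod 3, r ^ 3 = 1 → r = 1 := by decide

theorem sl33_simple : IsSimpleGroup SL33 := by
  have hp : Fact (Nat.Prime 3) := ⟨Nat.prime_three⟩
  have hs := Cfsg.Agent.S0249.result (F := ZMod 3) 3 le_rfl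
  have hc : center SL33 = ⊥ := by
    rw [eq_bot_iff]
    intro g hg
    obtain ⟨r, hr, hrg⟩ := Matrix.SpecialLinearGroup.mem_center_iff.1 hg
    have hr1 : r = 1 := by
      rw [Fintype.card_fin] at hr
      exact cube_eq_one r hr
    rw [Subgroup.mem_bot]
    apply Subtype.ext
    rw [← hrg, hr1]; simp
  have e : SL33 ≃* SL33 ⧸ center SL33 :=
    (QuotientGroup.quotientBot (G := SL33)).symm.trans (QuotientGroup.quotientMulEquivOfEq hc.symm)
  have : IsSimpleGroup (SL33 ⧸ center SL33) := hs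
  exact e.isSimpleGroup

variable {G : Type*} [Group G] [Finite G] {Z Q A : Subgroup G}

omit [Finite G] in
theorem inf_eq_bot_of_coprime {F K : Subgroup G} (h : (Nat.card ↥F).Coprime (Nat.card ↥K)) : F ⊓ K = ⊥ := by
  apply Subgroup.eq_bot_of_card_eq
  have h1 : Nat.card ↥(F ⊓ K) ∣ Nat.card ↥F := Subgroup.card_dvd_of_le inf_le_left
  have h2 : Nat.card ↥(F ⊓ K) ∣ Nat.card ↥K := Subgroup.card_dvd_of_le inf_le_right
  exact Nat.eq_one_of_dvd_coprimes h h1 h2

namespace Loc43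

omit [Finite G] in
theorem cop {F : Subgroup G} (hF : ¬ 3 ∣ Nat.card ↥F) (n : ℕ) : (Nat.card ↥F).Coprime (3 ^ n) :=
  Nat.Coprime.pow_right n ((Nat.Prime.coprime_iff_not_dvd Nat.prime_three).2 hF).symm

/-- `O_{3'}(G) = 1` -/
theorem pPrime_trivial (h : Loc43 Z Q A) {F : Subgroup G} (hn : F.Normal) (hF : ¬ 3 ∣ Nat.card ↥F) : F = ⊥ := by
  have hp : Fact (Nat.Prime 3) := ⟨Nat.prime_three⟩
  have hFQ : F ⊓ Q = ⊥ := inf_eq_bot_of_coprime (by
    rw [h.cfg.cardQ, show (243 : ℕ) = 3 ^ 5 by norm_num]; exact cop hF 5)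
  have hFZ : ∀ x ∈ F, x ∈ centralizer (Z : Set G) → x = 1 := by
    intro x hx hxZ
    have hxQ : x ∈ Q := by
      apply h.cfg.CQ
      rw [Subgroup.mem_centralizer_iff]
      intro q hq
      have h1 : x * q * x⁻¹ * q⁻¹ ∈ F := by
        have : x * q * x⁻¹ * q⁻¹ = x * (q * x⁻¹ * q⁻¹) := by group
        rw [this]
        exact F.mul_mem hx (hn.conj_mem _ (F.inv_mem hx) q)
      have h2 : x * q * x⁻¹ * q⁻¹ ∈ Q := Q.mul_mem (h.cfg.normQ' hxZ hq) (Q.inv_mem hq)
      have h3 : x * q * x⁻¹ * q⁻¹ ∈ F ⊓ Q := ⟨h1, h2⟩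
      rw [hFQ, Subgroup.mem_bot] at h3
      calc q * x = (x * q * x⁻¹ * q⁻¹)⁻¹ * (x * q) := by group
        _ = x * q := by rw [h3]; group
    have : x ∈ F ⊓ Q := ⟨hx, hxQ⟩
    rwa [hFQ, Subgroup.mem_bot] at this
  obtain ⟨z, hz, hz1, htr⟩ := h.trans
  have hFa : ∀ a ∈ A, a ≠ 1 → ∀ x ∈ F, x * a = a * x → x = 1 := by
    intro a ha ha1 x hx hxa
    obtain ⟨n, hn', rfl⟩ := htr a ha ha1
    have h1 : n⁻¹ * x * n⁻¹⁻¹ ∈ F := hn.conj_mem x hx n⁻¹
    have h2 : n⁻¹ * x * n⁻¹⁻¹ ∈ centralizer (Z : Set G) := by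
      rw [Subgroup.mem_centralizer_iff]
      have h3 : z * (n⁻¹ * x * n⁻¹⁻¹) = n⁻¹ * x * n⁻¹⁻¹ * z := by
        calc z * (n⁻¹ * x * n⁻¹⁻¹) = n⁻¹ * ((n * z * n⁻¹) * x) * n := by group
          _ = n⁻¹ * (x * (n * z * n⁻¹)) * n := by rw [hxa]
          _ = n⁻¹ * x * n⁻¹⁻¹ * z := by group
      intro w hw
      by_cases hw1 : w = 1
      · rw [hw1]; simp
      rcases Two.eq_or_inv h.cfg.cardZ hw hz hw1 hz1 with h4 | h4
      · rw [h4]; exact h3
      · rw [h4]
        have : Commute z (n⁻¹ * x * n⁻¹⁻¹) := h3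
        exact this.inv_left
    have h3 := hFZ _ h1 h2
    calc x = n * (n⁻¹ * x * n⁻¹⁻¹) * n⁻¹ := by group
      _ = 1 := by rw [h3]; group
  have hEA : Cfsg.IsElementaryAbelian 3 A := by
    refine ⟨⟨⟨fun a b => Subtype.ext (h.commA a a.2 b b.2)⟩⟩, ?_⟩
    intro a ha
    rw [pow_succ, pow_two]; exact h.expA ha
  have hA1 : A ≠ ⊥ := by
    intro h1
    have := h.cardA
    rw [h1] at this; simp at this
  have hgen := Cfsg.Agent.Lib.CoprimeHyperplane.iSup_centralizer_hyperplane hEA hA1 hF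
    (fun a _ => by rw [Subgroup.normalizer_eq_top_iff.2 hn]; trivial)
  rw [← hgen, eq_bot_iff]
  apply iSup_le
  rintro ⟨B, hBA, hBi⟩
  have hBc : Nat.card ↥B = 9 := by
    have h1 := Subgroup.relIndex_mul_relIndex (⊥ : Subgroup G) B A bot_le hBA
    rw [Subgroup.relIndex_bot_left, Subgroup.relIndex_bot_left, hBi, h.cardA] at h1
    omega
  obtain ⟨b, hb, hb1⟩ : ∃ b ∈ B, b ≠ 1 := by
    by_contra hcon
    push Not at hcon
    have : B = ⊥ := by rw [eq_bot_iff]; intro x hx; exact hcon x hx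
    rw [this] at hBc; simp at hBc
  intro x hx
  rw [Subgroup.mem_bot]
  exact hFa b (hBA hb) hb1 x hx.1 (Subgroup.mem_centralizer_iff.1 hx.2 b hb).symm

theorem pPrimeCore_eq (h : Loc43 Z Q A) : Cfsg.pPrimeCore 3 G = ⊥ := by
  apply h.pPrime_trivial (pPrimeCore_normal 3)
  have := pPrimeCore_coprime (G := G) 3
  rw [Nat.coprime_comm, Nat.Prime.coprime_iff_not_dvd Nat.prime_three] at this
  exact this

theorem A_le (h : Loc43 Z Q A) (S : Sylow 3 G)
    (hS : Z = (S : Subgroup G) ⊓ centralizer ((S : Subgroup G) : Set G)) {N : Subgroup G} (hn : N.Normal)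
    (hN : N ≠ ⊥) : A ≤ N := by
  have hp : Fact (Nat.Prime 3) := ⟨Nat.prime_three⟩
  have h3 : 3 ∣ Nat.card ↥N := by
    by_contra hcon
    exact hN (h.pPrime_trivial hn hcon)
  obtain ⟨x, hx⟩ := exists_prime_orderOf_dvd_card' 3 h3
  have hxG : orderOf (x : G) = 3 := by rw [← hx]; exact Subgroup.orderOf_coe x
  have hpg : IsPGroup 3 ↥(zpowers (x : G)) := by
    apply IsPGroup.of_card (n := 1)
    rw [Nat.card_zpowers, hxG, pow_one]
  obtain ⟨P, hP⟩ := hpg.exists_le_sylow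
  obtain ⟨g, hg⟩ := MulAction.exists_smul_eq G P S
  have hxS : g * x * g⁻¹ ∈ (S : Subgroup G) := by
    rw [← hg]
    have h1 : (x : G) ∈ (P : Subgroup G) := hP (Subgroup.mem_zpowers _)
    have h2 : MulAut.conj g • (x : G) ∈ MulAut.conj g • (P : Subgroup G) := Subgroup.smul_mem_pointwise_smul _ _ _ h1
    exact h2
  have hxN : g * x * g⁻¹ ∈ N := hn.conj_mem x x.2 g
  have hne : (N.subgroupOf (S : Subgroup G)) ≠ ⊥ := by
    intro hbot
    have h1 : (⟨g * x * g⁻¹, hxS⟩ : ↥(S : Subgroup G)) ∈ N.subgroupOf (S : Subgroup G) := hxN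
    rw [hbot, Subgroup.mem_bot] at h1
    have h2 : g * x * g⁻¹ = 1 := congrArg Subtype.val h1
    have h4 : (x : G) = 1 := by
      calc (x : G) = g⁻¹ * (g * x * g⁻¹) * g := by group
        _ = 1 := by rw [h2]; group
    rw [h4, orderOf_one] at hxG
    omega
  have hnS : (N.subgroupOf (S : Subgroup G)).Normal := hn.subgroupOf _
  obtain ⟨z, hzN, hzc, hz1⟩ := Cfsg.Agent.GTwoFour.Tools.exists_mem_center_of_normal S.isPGroup' _ hne
  have hzZ : (z : G) ∈ Z := by
    rw [hS]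
    refine ⟨z.2, Subgroup.mem_centralizer_iff.2 ?_⟩
    intro s hs
    exact congrArg Subtype.val (Subgroup.mem_center_iff.1 hzc ⟨s, hs⟩)
  have hz1' : (z : G) ≠ 1 := fun h1 => hz1 (Subtype.ext h1)
  obtain ⟨z0, hz0, hz01, htr⟩ := h.trans
  have hz0N : z0 ∈ N := by
    rcases Two.eq_or_inv h.cfg.cardZ hz0 hzZ hz01 hz1' with h4 | h4
    · rw [h4]; exact hzN
    · rw [h4]; exact N.inv_mem hzN
  intro a ha
  by_cases ha1 : a = 1
  · rw [ha1]; exact N.one_mem
  · obtain ⟨n, _, rfl⟩ := htr a ha ha1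
    exact hn.conj_mem _ hz0N n

/-- a normal subgroup containing `A` meets `N_G(A)` in `A` or contains it -/
theorem normal_cases (h : Loc43 Z Q A) {N : Subgroup G} (hn : N.Normal) (hAN : A ≤ N) :
    (∀ x ∈ N, x ∈ normalizer (A : Set G) → x ∈ A) ∨ normalizer (A : Set G) ≤ N := by
  obtain ⟨E, Φ, hE, hsurj, hker, hact⟩ := h.exists_Phi
  have hsim := sl33_simple
  have hmn : ((N.subgroupOf (normalizer (A : Set G))).map Φ).Normal := (hn.subgroupOf _).map Φ hsurj
  rcases hsim.eq_bot_or_eq_top_of_normal _ hmn with h1 | h1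
  · left
    intro x hx hxA
    rw [← hker ⟨x, hxA⟩]
    have : Φ ⟨x, hxA⟩ ∈ (N.subgroupOf (normalizer (A : Set G))).map Φ := ⟨_, hx, rfl⟩
    rwa [h1, Subgroup.mem_bot] at this
  · right
    intro x hxA
    have : Φ ⟨x, hxA⟩ ∈ (N.subgroupOf (normalizer (A : Set G))).map Φ := by rw [h1]; trivial
    obtain ⟨y, hy, hyx⟩ := this
    have h2 : Φ (⟨x, hxA⟩ * y⁻¹) = 1 := by rw [map_mul, map_inv, hyx, mul_inv_cancel]
    have h3 := (hker _).1 h2
    have h4 : x * (y : G)⁻¹ ∈ N := hAN h3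
    have h5 : x * (y : G)⁻¹ * (y : G) ∈ N := N.mul_mem h4 hy
    rwa [inv_mul_cancel_right] at h5

omit [Finite G] in
/-- `N_G(Z) ≤ N_G(A)` -/
theorem normZ_le (h : Loc43 Z Q A) {g : G} (hg : ∀ z ∈ Z, g * z * g⁻¹ ∈ Z) : g ∈ normalizer (A : Set G) := by
  obtain ⟨z, hz, hz1, htr⟩ := h.trans
  have hzc : ∀ x : G, x * z = z * x → x ∈ normalizer (A : Set G) := by
    intro x hx
    apply h.normC
    rw [Subgroup.mem_centralizer_iff]
    intro w hw
    by_cases hw1 : w = 1
    · rw [hw1]; simp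
    rcases Two.eq_or_inv h.cfg.cardZ hw hz hw1 hz1 with h3 | h3
    · rw [h3]; exact hx.symm
    · rw [h3]
      have : Commute x z := hx
      exact this.symm.inv_left
  have h1 := hg z hz
  have h2 : g * z * g⁻¹ ≠ 1 := by
    intro h3; apply hz1
    calc z = g⁻¹ * (g * z * g⁻¹) * g := by group
      _ = 1 := by rw [h3]; group
  rcases Two.eq_or_inv h.cfg.cardZ h1 hz h2 hz1 with h3 | h3
  · apply hzc
    calc g * z = g * z * g⁻¹ * g := by group
      _ = z * g := by rw [h3]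
  · obtain ⟨n, hn, hnz⟩ := htr z⁻¹ (A.inv_mem (h.ZA hz)) (by simpa using hz1)
    have h4 : n⁻¹ * g ∈ normalizer (A : Set G) := by
      apply hzc
      calc n⁻¹ * g * z = n⁻¹ * (g * z * g⁻¹) * g := by group
        _ = n⁻¹ * (n * z * n⁻¹) * g := by rw [h3, hnz]
        _ = z * (n⁻¹ * g) := by group
    have h5 := (normalizer (A : Set G)).mul_mem hn h4
    rwa [mul_inv_cancel_left] at h5

omit [Finite G] in
theorem S_le (S : Sylow 3 G) (hS : Z = (S : Subgroup G) ⊓ centralizer ((S : Subgroup G) : Set G)) :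
    (S : Subgroup G) ≤ centralizer (Z : Set G) := by
  intro s hs
  rw [Subgroup.mem_centralizer_iff]
  intro z hz
  rw [hS] at hz
  exact (Subgroup.mem_centralizer_iff.1 hz.2 s hs).symm

/-- **If `O_3(G) = 1`, then `G` is simple.** -/
theorem simple (h : Loc43 Z Q A) (S : Sylow 3 G)
    (hS : Z = (S : Subgroup G) ⊓ centralizer ((S : Subgroup G) : Set G)) (h3 : Cfsg.pCore 3 G = ⊥) :
    IsSimpleGroup G := by
  have hp : Fact (Nat.Prime 3) := ⟨Nat.prime_three⟩
  have hAne : A ≠ ⊥ := by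
    intro h1; have := h.cardA; rw [h1] at this; simp at this
  have hntr : Nontrivial G := by
    by_contra hcon
    rw [not_nontrivial_iff_subsingleton] at hcon
    exact hAne (Subsingleton.elim _ _)
  refine { exists_pair_ne := exists_pair_ne G, eq_bot_or_eq_top_of_normal := ?_ }
  intro N hn
  by_contra hcon
  push Not at hcon
  obtain ⟨hN1, hN2⟩ := hcon
  have hAN := h.A_le S hS hn hN1
  rcases h.normal_cases hn hAN with hc | hc
  · -- `N ∩ N_G(A) = A`
    set A' := A.subgroupOf N with hA'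
    have hA'p : IsPGroup 3 ↥A' := by
      apply IsPGroup.of_card (n := 3)
      rw [hA', Nat.card_congr (Subgroup.subgroupOfEquivOfLe hAN).toEquiv, h.cardA]
      norm_num
    obtain ⟨T, hT⟩ := hA'p.exists_le_sylow
    have hnor : ∀ x : ↥N, (∀ a ∈ A', x * a * x⁻¹ ∈ A') → x ∈ A' := by
      intro x hx
      apply hc x x.2
      apply mem_norm_of
      intro a ha
      exact hx ⟨a, hAN ha⟩ ha
    have hTA : (T : Subgroup ↥N) = A' := by
      by_contra hne
      have hlt : A'.subgroupOf (T : Subgroup ↥N) < ⊤ := by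
        rw [lt_top_iff_ne_top]
        intro htop
        apply hne
        apply le_antisymm _ hT
        exact Subgroup.subgroupOf_eq_top.1 htop
      have hnil : Group.IsNilpotent ↥(T : Subgroup ↥N) := T.isPGroup'.isNilpotent
      have h1 := (Group.normalizerCondition_of_isNilpotent (G := ↥(T : Subgroup ↥N))) _ hlt
      obtain ⟨x, hx, hx'⟩ := SetLike.exists_of_lt h1
      apply hx'
      rw [Subgroup.mem_subgroupOf]
      apply hnor
      intro a ha
      have h2 := (Subgroup.mem_normalizer_iff.1 hx ⟨a, hT ha⟩).1 ha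
      exact h2
    have hTn : normalizer ((T : Subgroup ↥N) : Set ↥N) ≤ centralizer ((T : Subgroup ↥N) : Set ↥N) := by
      rw [hTA]
      intro x hx
      have hxA : x ∈ A' := hnor x (fun a ha => (Subgroup.mem_normalizer_iff.1 hx a).1 ha)
      rw [Subgroup.mem_centralizer_iff]
      intro a ha
      exact Subtype.ext (h.commA a ha x hxA)
    have hcomp := MonoidHom.ker_transferSylow_isComplement' T hTn
    have hnd := MonoidHom.not_dvd_card_ker_transferSylow T hTn
    set K := (MonoidHom.transferSylow T hTn).ker with hK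
    have hKle : K ≤ Cfsg.pPrimeCore 3 ↥N := by
      apply le_pPrimeCore (MonoidHom.normal_ker _)
      exact ((Nat.Prime.coprime_iff_not_dvd Nat.prime_three).2 hnd).symm
    have hpp := map_subtype_pPrimeCore (G := G) 3 hn
    rw [h.pPrimeCore_eq, inf_bot_eq, Subgroup.map_eq_bot_iff_of_injective _ (Subgroup.subtype_injective _)] at hpp
    rw [hpp, le_bot_iff] at hKle
    have hTtop : (T : Subgroup ↥N) = ⊤ := by
      rw [hKle] at hcomp
      have := hcomp.sup_eq_top
      rwa [bot_sup_eq] at this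
    have hNA : N = A := by
      apply le_antisymm _ hAN
      intro x hx
      have : (⟨x, hx⟩ : ↥N) ∈ (T : Subgroup ↥N) := by rw [hTtop]; trivial
      rw [hTA] at this
      exact this
    have hle : A ≤ Cfsg.pCore 3 G := by
      apply le_pCore (by rw [← hNA]; exact hn)
      apply IsPGroup.of_card (n := 3)
      rw [h.cardA]; norm_num
    rw [h3, le_bot_iff] at hle
    exact hAne hle
  · -- `N_G(A) ≤ N`
    have hSN : (S : Subgroup G) ≤ N := (S_le S hS).trans (h.normC.trans hc)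
    have hfr := Sylow.normalizer_sup_eq_top' S hSN
    apply hN2
    rw [← hfr, eq_comm, sup_eq_right]
    intro g hg
    apply hc
    apply h.normZ_le
    intro z hz
    rw [hS] at hz ⊢
    refine ⟨(Subgroup.mem_normalizer_iff.1 hg z).1 hz.1, Subgroup.mem_centralizer_iff.2 ?_⟩
    intro s hs
    have h1 : g⁻¹ * s * g ∈ (S : Subgroup G) := by
      have := (Subgroup.mem_normalizer_iff.1 ((normalizer ((S : Subgroup G) : Set G)).inv_mem hg) s).1 hs
      simpa using this
    have h2 := Subgroup.mem_centralizer_iff.1 hz.2 _ h1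
    calc s * (g * z * g⁻¹) = g * ((g⁻¹ * s * g) * z) * g⁻¹ := by group
      _ = g * (z * (g⁻¹ * s * g)) * g⁻¹ := by rw [h2]
      _ = g * z * g⁻¹ * s := by group

/-- **If `O_3(G) ≠ 1`, then `A = O_3(G)`.** -/
theorem eq_core (h : Loc43 Z Q A) (S : Sylow 3 G)
    (hS : Z = (S : Subgroup G) ⊓ centralizer ((S : Subgroup G) : Set G)) (h3 : Cfsg.pCore 3 G ≠ ⊥) :
    A = Cfsg.pCore 3 G := by
  have hp : Fact (Nat.Prime 3) := ⟨Nat.prime_three⟩
  have hAR := h.A_le S hS (pCore_normal 3) h3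
  apply le_antisymm hAR
  have hRP : Cfsg.pCore 3 G ≤ normalizer (A : Set G) := (pCore_le_sylow S).trans ((S_le S hS).trans h.normC)
  rcases h.normal_cases (pCore_normal 3) hAR with hc | hc
  · intro x hx
    exact hc x hx (hRP hx)
  · exfalso
    have h1 := Subgroup.card_dvd_of_le hc
    rw [h.card_N] at h1
    obtain ⟨n, hn⟩ := (IsPGroup.iff_card).1 (pCore_isPGroup (G := G) 3)
    rw [hn] at h1
    have h2 : 2 ∣ 3 ^ n := Dvd.dvd.trans (by norm_num) h1
    have h4 := Nat.Prime.dvd_of_dvd_pow Nat.prime_two h2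
    omega

theorem normalizer_eq_top (h : Loc43 Z Q A) (S : Sylow 3 G)
    (hS : Z = (S : Subgroup G) ⊓ centralizer ((S : Subgroup G) : Set G)) (h3 : Cfsg.pCore 3 G ≠ ⊥) :
    normalizer (A : Set G) = ⊤ := by
  rw [h.eq_core S hS h3]
  exact Subgroup.normalizer_eq_top_iff.2 (pCore_normal 3)

end Loc43

end Cfsg.Agent.H352.L43
end

-- part: H352/L43/Split
section
prune_inst 0x64200200402200000000000000000020500000000000000080000702030802220080200008a0040612028c010001002811540010020000000000000000000000002a120421400000000010003083180c00000000000000000000000000000000000000000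
set_option linter.all false
open scoped Cfsg.Agent.FastGrp

/-!
# The case `G = N_G(A)`: `A` has a complement (helper352)
-/

set_option autoImplicit false

namespace Cfsg.Agent.H352.L43

open scoped commutatorElement IsMulCommutative
open Subgroup

variable {G : Type*} [Group G] {Z Q A : Subgroup G}

/-- an element of `C_G(Z)` acting trivially on `A / Z` lies in `Q` -/
theorem Loc43.faithful (h : Loc43 Z Q A) {π : ↥(centralizer (Z : Set G)) →* S3} (hπ : Cov Z Q π)
    (hg : Good h.cfg π) (c : ↥(centralizer (Z : Set G))) (hc : ∀ v ∈ barS Q A, h.cfg.actC c v = v) :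
    (c : G) ∈ Q := by
  have hA : ∀ c ∈ centralizer (Z : Set G), ∀ a ∈ A, c * a * c⁻¹ ∈ A := fun c hc a ha =>
    (Subgroup.mem_normalizer_iff.1 (h.normC hc) a).1 ha
  have hinv := h.cfg.barS_inv h.ZA hA
  have hrinv : ∀ g : S3, ∀ v ∈ barS Q A, h.cfg.rho hπ g v ∈ barS Q A := by
    intro g v hv; obtain ⟨c, rfl⟩ := hπ.surj g; rw [h.cfg.rho_pi hπ]; exact hinv c v hv
  set g := π c with hgdef
  have hgN : ∀ v ∈ barS Q A, h.cfg.rho hπ g v = v := by
    intro v hv
    rw [hgdef, h.cfg.rho_pi hπ]; exact hc v hv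
  have hmul : ∀ g g' : S3, ∀ v, h.cfg.rho hπ (g * g') v = h.cfg.rho hπ g (h.cfg.rho hπ g' v) := by
    intro g g' v; rw [map_mul]; rfl
  have hone : ∀ v, h.cfg.rho hπ 1 v = v := by intro v; rw [map_one]; rfl
  have hinvN : ∀ v ∈ barS Q A, h.cfg.rho hπ g⁻¹ v = v := by
    intro v hv
    have h1 := hgN v hv
    calc h.cfg.rho hπ g⁻¹ v = h.cfg.rho hπ g⁻¹ (h.cfg.rho hπ g v) := by rw [h1]
      _ = v := by rw [← hmul, inv_mul_cancel, hone]
  have hconj : ∀ k : S3, ∀ v ∈ barS Q A, h.cfg.rho hπ (k * g⁻¹ * k⁻¹) v = v := by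
    intro k v hv
    rw [hmul, hmul, hinvN _ (hrinv _ v hv), ← hmul, mul_inv_cancel, hone]
  have hc : ∀ k : S3, ∀ v ∈ barS Q A, h.cfg.rho hπ (g * (k * g⁻¹ * k⁻¹)) v = v := by
    intro k v hv
    rw [hmul, hconj k v hv, hgN v hv]
  have hm1 : ¬ ∀ v ∈ barS Q A, h.cfg.rho hπ (-1) v = v := by
    intro hall
    obtain ⟨y, hyA, hyZ⟩ : ∃ y ∈ A, y ∉ Z := by
      by_contra hcon
      push Not at hcon
      have h1 : Nat.card ↥A ∣ Nat.card ↥Z := Subgroup.card_dvd_of_le hcon
      rw [h.cardA, h.cfg.cardZ] at h1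
      omega
    have h1 := hall (bar ⟨y, h.AQ hyA⟩) ((h.cfg.bar_mem_barS h.ZA _).2 hyA)
    obtain ⟨c, hc⟩ := hπ.surj (-1)
    rw [← hc, h.cfg.rho_pi hπ, hg.neg c hc] at h1
    have h2 := h.cfg.three_M (bar (⟨y, h.AQ hyA⟩ : ↥Q))
    have h3 : bar (⟨y, h.AQ hyA⟩ : ↥Q) = 0 := by
      nth_rewrite 1 [← h1] at h2
      rw [neg_add_cancel, zero_add] at h2
      exact h2
    exact hyZ ((h.cfg.bar_eq_zero_iff _).1 h3)
  have hg1 : g = 1 := by
    by_contra hne
    by_cases hgm : g = -1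
    · apply hm1; rw [← hgm]; exact hgN
    · obtain ⟨k, hk⟩ := sl_norm g hne hgm
      apply hm1
      intro v hv
      rw [← hk, hmul, hc k v hv, hc k v hv]
  exact (hπ.ker c).1 hg1

/-- linear algebra: the module is `A/Z ⊕ W'` with `W'` invariant and totally isotropic -/
theorem Loc43.exists_W' (h : Loc43 Z Q A) {π : ↥(centralizer (Z : Set G)) →* S3} (hπ : Cov Z Q π)
    (hg : Good h.cfg π) : ∃ (b : MM Q) (W' : AddSubgroup (MM Q)),
      b ≠ 0 ∧ b ∈ barS Q A ∧ h.cfg.rho hπ u0 b = b ∧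
      (∀ x ∈ barS Q A, ∃ l : ℤ, h.cfg.rho hπ u0 x = x + l • b) ∧
      (∀ c, ∀ x ∈ W', h.cfg.actC c x ∈ W') ∧
      (∀ x ∈ W', ∀ y ∈ W', h.cfg.form x y = 0) ∧ (∀ x ∈ W', x ∈ barS Q A → x = 0) ∧
      (∀ y, ∃ w ∈ barS Q A, ∃ x ∈ W', y = w + x) := by
  have hfin := h.cfg.finiteQ
  have hfinM : Finite (MM Q) := Nat.finite_of_card_ne_zero (by rw [h.cfg.card_M]; norm_num)
  set I := h.cfg.rho hπ i0 with hI
  set J := h.cfg.rho hπ j0 with hJ
  set U := h.cfg.rho hπ u0 with hU
  have hops : Ops I J U := h.cfg.ops hπ hg.neg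
  have hform : Form I J U h.cfg.form := h.cfg.isForm hπ
  have hUeq : U = 1 + Ops.s I J := hg.U_eq hπ
  have hUs : ∀ x, U x = x + Ops.s I J x := U_apply hUeq
  have h3 := h.cfg.three_M
  have h3z : ∀ x : MM Q, (3 : ℤ) • x = 0 := by intro x; rw [← h3 x]; abel
  have hA : ∀ c ∈ centralizer (Z : Set G), ∀ a ∈ A, c * a * c⁻¹ ∈ A := fun c hc a ha =>
    (Subgroup.mem_normalizer_iff.1 (h.normC hc) a).1 ha
  have hinv := h.cfg.barS_inv h.ZA hA
  have hrinv : ∀ g : S3, ∀ v ∈ barS Q A, h.cfg.rho hπ g v ∈ barS Q A := by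
    intro g v hv; obtain ⟨c, rfl⟩ := hπ.surj g; rw [h.cfg.rho_pi hπ]; exact hinv c v hv
  set W := barS Q A with hW
  have hW9 : Nat.card ↥W = 9 := by
    have := h.cfg.card_barS h.ZA h.AQ
    rw [h.cardA, ← hW] at this; omega
  have hWiso : ∀ x ∈ W, ∀ y ∈ W, h.cfg.form x y = 0 := by
    intro x hx y hy
    obtain ⟨a, ha, rfl⟩ := mem_barS.1 hx
    obtain ⟨a', ha', rfl⟩ := mem_barS.1 hy
    rw [h.cfg.form_bar_eq_zero]
    exact h.commA a ha a' ha'
  -- the vector `b`
  obtain ⟨b, hbW, hb0, hUb⟩ : ∃ b ∈ W, b ≠ 0 ∧ U b = b := by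
    obtain ⟨w, hw, hw0⟩ : ∃ w ∈ W, w ≠ 0 := by
      by_contra hcon
      push Not at hcon
      have : W = ⊥ := by rw [eq_bot_iff]; intro x hx; exact hcon x hx
      rw [this] at hW9
      simp at hW9
    by_cases hs : Ops.s I J w = 0
    · exact ⟨w, hw, hw0, by rw [hUs, hs, add_zero]⟩
    · refine ⟨Ops.s I J w, ?_, hs, by rw [hUs, hops.ss', add_zero]⟩
      have : Ops.s I J w = U w - w := by rw [hUs]; abel
      rw [this]
      exact W.sub_mem (hrinv _ w hw) hw
  have hIb := hops.U_Ib hUeq hUb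
  -- `W = ⟨b, I b⟩`
  have hWspan : ∀ x ∈ W, ∃ k l : ℤ, x = k • b + l • I b := by
    let P : AddSubgroup (MM Q) := AddSubgroup.zmultiples b ⊔ AddSubgroup.zmultiples (I b)
    have hPm : ∀ x, x ∈ P ↔ ∃ k l : ℤ, x = k • b + l • I b := by
      intro x
      constructor
      · intro hx
        obtain ⟨u, hu, v, hv, rfl⟩ := AddSubgroup.mem_sup.1 hx
        obtain ⟨k, rfl⟩ := AddSubgroup.mem_zmultiples_iff.1 hu
        obtain ⟨l, rfl⟩ := AddSubgroup.mem_zmultiples_iff.1 hv
        exact ⟨k, l, rfl⟩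
      · rintro ⟨k, l, rfl⟩
        exact AddSubgroup.add_mem_sup (AddSubgroup.zsmul_mem_zmultiples b k)
          (AddSubgroup.zsmul_mem_zmultiples (I b) l)
    have hPI : ∀ x ∈ P, I x ∈ P := by
      intro x hx
      obtain ⟨k, l, rfl⟩ := (hPm x).1 hx
      rw [hPm]
      refine ⟨-l, k, ?_⟩
      rw [map_add, map_zsmul, map_zsmul, hops.II']; simp only [smul_neg, neg_smul]; abel
    have hPle : P ≤ W := by
      intro x hx
      obtain ⟨k, l, rfl⟩ := (hPm x).1 hx
      exact W.add_mem (W.zsmul_mem hbW k) (W.zsmul_mem (hrinv i0 b hbW) l)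
    have hP9 : Nat.card ↥P = 9 := by
      apply eq_nine
      · rw [← hW9]; exact AddSubgroup.card_dvd_of_le hPle
      · intro h1
        have h2 := AddSubgroup.eq_bot_of_card_eq _ h1
        have h4 : b ∈ P := (hPm b).2 ⟨1, 0, by simp⟩
        rw [h2, AddSubgroup.mem_bot] at h4
        exact hb0 h4
      · have := hops.no_three (W := ⊥) (B := P) (by simp only [_root_.AddSubgroup.mem_bot, _root_.forall_eq, _root_.map_zero]) hPI
        rwa [AddSubgroup.relIndex_bot_left] at this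
    have hPW : P = W := AddSubgroup.eq_of_le_of_card_ge hPle (by rw [hW9, hP9])
    intro x hx
    rw [← hPW] at hx
    exact (hPm x).1 hx
  have hsIb : Ops.s I J (I b) = b := by
    have := hUs (I b)
    rw [hIb] at this
    exact (add_left_cancel this).symm
  have hsb : Ops.s I J b = 0 := by
    have := hUs b
    rw [hUb] at this
    simpa using this
  -- reduction mod 3
  have red : ∀ n : ℤ, ∀ x : MM Q, n % 3 = 0 → n • x = 0 := by
    intro n x hn
    rw [show n = (n / 3) * 3 by omega, mul_smul, h3z, smul_zero]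
  have red' : ∀ n : ℤ, ∀ x : MM Q, n • x = 0 → n % 3 ≠ 0 → x = 0 := by
    intro n x hx hn
    have hn3 : n % 3 = 1 ∨ n % 3 = 2 := by omega
    rcases hn3 with h0 | h0
    · rw [show n = (n / 3) * 3 + 1 by omega, add_smul, mul_smul, h3z, smul_zero, zero_add, one_smul] at hx
      exact hx
    · rw [show n = (n / 3 + 1) * 3 + (-1) by omega, add_smul, mul_smul, h3z, smul_zero, zero_add, neg_smul,
        one_smul, neg_eq_zero] at hx
      exact hx
  -- the vector `b0`
  obtain ⟨b0, hb0W, hsb0⟩ : ∃ b0, b0 ∉ W ∧ Ops.s I J b0 = 0 := by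
    by_contra hcon
    push Not at hcon
    let sm : MM Q →+ MM Q := (Ops.s (R := AddMonoid.End (MM Q)) I J)
    have hker : sm.ker ≤ AddSubgroup.zmultiples b := by
      intro x hx
      have hx' : Ops.s I J x = 0 := hx
      have hxW : x ∈ W := by
        by_contra hn; exact hcon x hn hx'
      obtain ⟨k, l, rfl⟩ := hWspan x hxW
      rw [map_add, map_zsmul, map_zsmul, hsb, hsIb, smul_zero, zero_add] at hx'
      by_cases hl : l % 3 = 0
      · rw [red l _ hl, add_zero]; exact AddSubgroup.zsmul_mem_zmultiples b k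
      · exact absurd (red' l b hx' hl) hb0
    have hzm : Nat.card ↥(AddSubgroup.zmultiples b) ≤ 3 := by
      rw [Nat.card_zmultiples]
      apply Nat.le_of_dvd (by norm_num)
      apply addOrderOf_dvd_of_nsmul_eq_zero
      rw [← h3 b]; abel
    have hr : sm.range ≤ sm.ker := by
      rintro _ ⟨x, rfl⟩
      exact hops.ss' x
    have c1 : Nat.card ↥sm.ker ≤ 3 := (Nat.le_of_dvd Nat.card_pos (AddSubgroup.card_dvd_of_le hker)).trans hzm
    have c2 : Nat.card ↥sm.range ≤ Nat.card ↥sm.ker := Nat.le_of_dvd Nat.card_pos (AddSubgroup.card_dvd_of_le hr)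
    have c3 := AddSubgroup.card_mul_index sm.ker
    rw [AddSubgroup.index_ker, h.cfg.card_M] at c3
    nlinarith only [c1, c2, c3]
  have hUb0 : U b0 = b0 := by rw [hUs, hsb0, add_zero]
  -- `f(b, I b0) ≠ 0`
  have hperp : ∀ y, U y = y → h.cfg.form b y = 0 := by
    intro y hy
    have h4 : h.cfg.form (U (I b)) (U y) = h.cfg.form (I b) y := hform.fU _ _
    rw [hIb, hy, map_add, AddMonoidHom.add_apply] at h4
    simpa using h4
  have hd0 : h.cfg.form b (I b0) ≠ 0 := by
    intro hd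
    apply hb0
    apply hform.nd
    intro y
    obtain ⟨k, l, w, hw, rfl⟩ := hops.span (hrinv i0) hW9 h.cfg.card_M hb0W y
    rw [map_add, map_add, map_zsmul, map_zsmul, hWiso b hbW w hw, hperp b0 hUb0, hd]
    simp
  -- adjust `b0`
  obtain ⟨b', hb'W, hUb', hb'iso⟩ : ∃ b', b' ∉ W ∧ U b' = b' ∧ h.cfg.form b' (I b') = 0 := by
    have hcard3 : Nat.card (Additive ↥(center ↥Q)) = 3 := h.cfg.card_center
    have htop := zmultiples_eq_top_of_prime_card hcard3 hd0
    obtain ⟨m, hm⟩ := AddSubgroup.mem_zmultiples_iff.1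
      (show h.cfg.form b0 (I b0) ∈ AddSubgroup.zmultiples (h.cfg.form b (I b0)) by rw [htop]; trivial)
    refine ⟨b0 + m • b, ?_, ?_, ?_⟩
    · intro hmem
      apply hb0W
      have := W.sub_mem hmem (W.zsmul_mem hbW m)
      rwa [add_sub_cancel_right] at this
    · rw [map_add, map_zsmul, hUb0, hUb]
    · have h5 : h.cfg.form b0 (I b) = h.cfg.form b (I b0) := by
        rw [hform.skew, hform.adjI hops, neg_neg]
      have h6 : h.cfg.form b (I b) = 0 := hWiso b hbW _ (hrinv i0 b hbW)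
      rw [map_add I, map_zsmul I, map_add h.cfg.form, AddMonoidHom.add_apply, map_add, map_add, map_zsmul h.cfg.form,
        AddMonoidHom.zsmul_apply, AddMonoidHom.zsmul_apply, map_zsmul, map_zsmul, h5, h6, ← hm]
      set d := h.cfg.form b (I b0) with hd
      have h7 : (3 : ℤ) • d = 0 := by
        have h8 := h3 (I b0)
        have h9 : h.cfg.form b (I b0 + I b0 + I b0) = 0 := by rw [h8, map_zero]
        rw [map_add, map_add] at h9
        rw [← h9]; abel
      have h8 : m • d + m • d + (m • d + m • m • (0 : Additive ↥(center ↥Q))) = m • ((3 : ℤ) • d) := by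
        rw [smul_zero, smul_zero, add_zero, smul_smul]
        rw [show m * 3 = m + (m + m) by ring, add_smul, add_smul]; abel
      rw [h8, h7, smul_zero]
  -- `W' = ⟨b', I b'⟩`
  let W' : AddSubgroup (MM Q) := AddSubgroup.zmultiples b' ⊔ AddSubgroup.zmultiples (I b')
  have hW'm : ∀ x, x ∈ W' ↔ ∃ k l : ℤ, x = k • b' + l • I b' := by
    intro x
    constructor
    · intro hx
      obtain ⟨u, hu, v, hv, rfl⟩ := AddSubgroup.mem_sup.1 hx
      obtain ⟨k, rfl⟩ := AddSubgroup.mem_zmultiples_iff.1 hu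
      obtain ⟨l, rfl⟩ := AddSubgroup.mem_zmultiples_iff.1 hv
      exact ⟨k, l, rfl⟩
    · rintro ⟨k, l, rfl⟩
      exact AddSubgroup.add_mem_sup (AddSubgroup.zsmul_mem_zmultiples b' k)
        (AddSubgroup.zsmul_mem_zmultiples (I b') l)
  have hJb' := hops.J_fix hUeq hUb'
  have hUIb' := hops.U_Ib hUeq hUb'
  have hW'I : ∀ x ∈ W', I x ∈ W' := by
    intro x hx
    obtain ⟨k, l, rfl⟩ := (hW'm x).1 hx
    rw [hW'm]
    refine ⟨-l, k, ?_⟩
    rw [map_add, map_zsmul, map_zsmul, hops.II']; simp only [smul_neg, neg_smul]; abel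
  have hW'J : ∀ x ∈ W', J x ∈ W' := by
    intro x hx
    obtain ⟨k, l, rfl⟩ := (hW'm x).1 hx
    rw [hW'm]
    refine ⟨k + l, k - l, ?_⟩
    rw [map_add, map_zsmul, map_zsmul, hops.JI', hJb', map_add, hops.II']
    simp only [smul_neg, smul_add, add_smul, sub_smul]; abel
  have hW'U : ∀ x ∈ W', U x ∈ W' := by
    intro x hx
    obtain ⟨k, l, rfl⟩ := (hW'm x).1 hx
    rw [hW'm]
    refine ⟨k + l, l, ?_⟩
    rw [map_add, map_zsmul, map_zsmul, hUb', hUIb']
    simp only [smul_add, add_smul]; abel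
  have hiso2 : h.cfg.form (I b') b' = 0 := by rw [hform.skew, hb'iso, neg_zero]
  refine ⟨b, W', hb0, hbW, hUb, ?_, h.cfg.inv_of hπ hW'I hW'J hW'U, ?_, ?_, ?_⟩
  · intro x hx
    obtain ⟨k, l, rfl⟩ := hWspan x hx
    refine ⟨l, ?_⟩
    rw [hUs, map_add, map_zsmul, map_zsmul, hsb, hsIb, smul_zero, zero_add]
  · intro x hx y hy
    obtain ⟨k, l, rfl⟩ := (hW'm x).1 hx
    obtain ⟨k', l', rfl⟩ := (hW'm y).1 hy
    rw [map_add h.cfg.form, AddMonoidHom.add_apply, map_add, map_add, map_zsmul h.cfg.form, map_zsmul h.cfg.form,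
      AddMonoidHom.zsmul_apply, AddMonoidHom.zsmul_apply, AddMonoidHom.zsmul_apply, AddMonoidHom.zsmul_apply,
      map_zsmul, map_zsmul, map_zsmul, map_zsmul, hform.alt, hform.alt, hb'iso, hiso2]
    simp only [_root_.smul_zero, _root_.add_zero]
  · intro x hx hxW
    obtain ⟨k, l, rfl⟩ := (hW'm x).1 hx
    have h4 : (k * k + l * l) • b' ∈ W := by
      have h5 := W.sub_mem (W.zsmul_mem hxW k) (W.zsmul_mem (hrinv i0 _ hxW) l)
      have h6 : k • (k • b' + l • I b') - l • h.cfg.rho hπ i0 (k • b' + l • I b') = (k * k + l * l) • b' := by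
        rw [← hI, map_add, map_zsmul, map_zsmul, hops.II']
        simp only [smul_add, smul_neg, smul_smul, add_smul]
        rw [mul_comm l k]; abel
      rwa [h6] at h5
    have h7 : (k * k + l * l) % 3 = 0 := by
      by_contra hne
      apply hb'W
      have hn3 : (k * k + l * l) % 3 = 1 ∨ (k * k + l * l) % 3 = 2 := by omega
      generalize (k * k + l * l) = n at h4 hne hn3
      rcases hn3 with h0 | h0
      · rw [show n = (n / 3) * 3 + 1 by omega, add_smul, mul_smul, h3z, smul_zero, zero_add, one_smul] at h4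
        exact h4
      · rw [show n = (n / 3 + 1) * 3 + (-1) by omega, add_smul, mul_smul, h3z, smul_zero, zero_add, neg_smul,
          one_smul] at h4
        simpa using W.neg_mem h4
    have h8 : k % 3 = 0 ∧ l % 3 = 0 := by
      have hk : k % 3 = 0 ∨ k % 3 = 1 ∨ k % 3 = 2 := by omega
      have hl : l % 3 = 0 ∨ l % 3 = 1 ∨ l % 3 = 2 := by omega
      have e : (k * k + l * l) % 3 = ((k % 3) * (k % 3) + (l % 3) * (l % 3)) % 3 := by
        rw [Int.add_emod, Int.mul_emod, Int.mul_emod l l, ← Int.add_emod]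
      rw [h7] at e
      rcases hk with h1 | h1 | h1 <;> rcases hl with h2 | h2 | h2 <;> rw [h1, h2] at e <;> omega
    rw [red k _ h8.1, red l _ h8.2, add_zero]
  · intro y
    obtain ⟨k, l, w, hw, rfl⟩ := hops.span (hrinv i0) hW9 h.cfg.card_M hb'W y
    exact ⟨w, hw, k • b' + l • I b', (hW'm _).2 ⟨k, l, rfl⟩, by rw [add_assoc]⟩

/-- `Z⟨s⟩`-facts -/
theorem Loc43.comm_of_center {z x : G} (hz : z ∈ Z) (hx : x ∈ centralizer (Z : Set G)) : x * z = z * x :=
  (Subgroup.mem_centralizer_iff.1 hx z hz).symm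

/-- **`A` has a complement in `G = N_G(A)`.** -/
theorem Loc43.exists_complement [Finite G] (h : Loc43 Z Q A) {π : ↥(centralizer (Z : Set G)) →* S3}
    (hπ : Cov Z Q π) (hg : Good h.cfg π) (hN : normalizer (A : Set G) = ⊤) :
    ∃ H : Subgroup G, Subgroup.IsComplement' A H := by
  have hAn : A.Normal := Subgroup.normalizer_eq_top_iff.1 hN
  have hcardG : Nat.card G = 151632 := by
    rw [← h.card_N, hN, Subgroup.card_top]
  obtain ⟨b, W', hb0, hbW, hUb, hUW, hW'inv, hW'iso, hW'int, hspan⟩ := h.exists_W' hπ hg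
  have hcfg := h.cfg
  have hQC := h.cfg.leC
  have hexp : ∀ x ∈ Q, x * x * x = 1 := h.cfg.exp
  have no2 : ∀ x : G, x * x * x = 1 → x = x⁻¹ → x = 1 := by
    intro x hx hx'
    have h1 : x * x = 1 := by nth_rewrite 2 [hx']; exact mul_inv_cancel x
    rw [h1, one_mul] at hx
    exact hx
  -- the involution `t`
  obtain ⟨t, htπ, htt⟩ : ∃ t : ↥(centralizer (Z : Set G)), π t = -1 ∧ t * t = 1 := by
    obtain ⟨c, hc⟩ := hπ.surj (-1)
    refine ⟨c * c * c, ?_, ?_⟩
    · rw [map_mul, map_mul, hc]; decide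
    · have h1 : ((c * c : ↥(centralizer (Z : Set G))) : G) ∈ Q := by
        rw [← hπ.ker, map_mul, hc]; decide
      have h2 := hexp _ h1
      apply Subtype.ext
      calc ((c * c * c * (c * c * c) : ↥(centralizer (Z : Set G))) : G)
          = (c * c : ↥(centralizer (Z : Set G))) * (c * c : ↥(centralizer (Z : Set G))) *
            (c * c : ↥(centralizer (Z : Set G))) := by
              simp only [Subgroup.coe_mul, mul_assoc]
        _ = 1 := h2
  have htt' : (t : G) * t = 1 := congrArg Subtype.val htt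
  have htinv : (t : G)⁻¹ = t := inv_eq_of_mul_eq_one_right htt'
  have htneg : ∀ x, h.cfg.actC t x = -x := hg.neg t htπ
  -- elements of `Q` commuting with `t` lie in `Z`
  have hCQt : ∀ x ∈ Q, (t : G) * x * (t : G)⁻¹ = x → x ∈ Z := by
    intro x hx hxt
    have h1 := h.cfg.actC_bar t ⟨x, hx⟩ ⟨x, hx⟩ hxt.symm
    rw [htneg] at h1
    have h2 := h.cfg.three_M (bar (⟨x, hx⟩ : ↥Q))
    nth_rewrite 1 [← h1] at h2
    rw [neg_add_cancel, zero_add] at h2
    exact (h.cfg.bar_eq_zero_iff _).1 h2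
  -- the element `s`
  obtain ⟨s, hsπ, hst⟩ : ∃ s : ↥(centralizer (Z : Set G)), π s = u0 ∧ (s : G) * t * (s : G)⁻¹ = t := by
    obtain ⟨c, hc⟩ := hπ.surj u0
    set t1 : G := c * t * (c : G)⁻¹ with ht1
    have hq1 : t1 * (t : G)⁻¹ ∈ Q := by
      have h1 : ((c * t * c⁻¹ * t⁻¹ : ↥(centralizer (Z : Set G))) : G) ∈ Q := by
        rw [← hπ.ker, map_mul, map_mul, map_mul, map_inv, map_inv, hc, htπ]; decide +kernel
      exact h1
    set q : G := t1 * (t : G)⁻¹ with hq
    have hq3 := hexp q hq1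
    have h1t : t1 = q * t := by rw [hq]; group
    have h2 : (t : G) * q⁻¹ * t = q := by
      have h3 : t1 * t1 = 1 := by
        rw [ht1]
        calc (c : G) * t * (c : G)⁻¹ * (c * t * (c : G)⁻¹) = c * (t * t) * (c : G)⁻¹ := by group
          _ = 1 := by rw [htt']; group
      rw [h1t] at h3
      have h4 : (t : G) * q * t = q⁻¹ := by
        calc (t : G) * q * t = q⁻¹ * (q * t * (q * t)) := by group
          _ = q⁻¹ := by rw [h3, mul_one]
      calc (t : G) * q⁻¹ * t = t * (t * q * t) * t := by rw [h4]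
        _ = (t * t) * q * (t * t) := by group
        _ = q := by rw [htt']; group
    refine ⟨⟨q, hQC hq1⟩ * c, ?_, ?_⟩
    · rw [map_mul, hc, (hπ.ker ⟨q, hQC hq1⟩).2 hq1, one_mul]
    · show q * c * t * (q * c)⁻¹ = t
      calc q * c * t * (q * c)⁻¹ = q * (c * t * (c : G)⁻¹) * q⁻¹ := by group
        _ = q * (q * t) * q⁻¹ := by rw [← h1t]
        _ = q * q * ((t * q⁻¹ * t) * (t : G)⁻¹) := by group
        _ = (q * q * q) * (t : G)⁻¹ := by rw [h2]; group
        _ = t := by rw [hq3, one_mul, htinv]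
  have hsact : ∀ x, h.cfg.actC s x = h.cfg.rho hπ u0 x := by
    intro x; rw [← hsπ, h.cfg.rho_pi hπ]
  have hst' : (t : G) * s * (t : G)⁻¹ = s := by
    have h1 : (s : G) * t = t * s := by
      calc (s : G) * t = s * t * (s : G)⁻¹ * s := by group
        _ = t * s := by rw [hst]
    rw [← h1]; group
  have hs3Z : (s : G) * s * s ∈ Z := by
    have h1 : ((s * s * s : ↥(centralizer (Z : Set G))) : G) ∈ Q := by
      rw [← hπ.ker, map_mul, map_mul, hsπ, r6]
    apply hCQt _ h1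
    calc (t : G) * (s * s * s) * (t : G)⁻¹
        = (t * s * (t : G)⁻¹) * (t * s * (t : G)⁻¹) * (t * s * (t : G)⁻¹) := by group
      _ = s * s * s := by rw [hst']
  -- `a ↦ t a t⁻¹ a⁻¹` lifts
  have hlift : ∀ x ∈ Q, ∃ hx' : (t : G) * x * (t : G)⁻¹ * x⁻¹ ∈ Q, ∀ hx : x ∈ Q,
      bar (⟨(t : G) * x * (t : G)⁻¹ * x⁻¹, hx'⟩ : ↥Q) = bar ⟨x, hx⟩ := by
    intro x hx
    have hxt : (t : G) * x * (t : G)⁻¹ ∈ Q := h.cfg.normQ' t.2 hx
    refine ⟨Q.mul_mem hxt (Q.inv_mem hx), fun _ => ?_⟩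
    have h1 := h.cfg.actC_bar t ⟨x, hx⟩ ⟨_, hxt⟩ rfl
    rw [htneg] at h1
    have h2 : bar (⟨(t : G) * x * (t : G)⁻¹ * x⁻¹, Q.mul_mem hxt (Q.inv_mem hx)⟩ : ↥Q)
        = bar (⟨_, hxt⟩ : ↥Q) + -bar (⟨x, hx⟩ : ↥Q) := by
      rw [← bar_inv, ← bar_mul]; rfl
    rw [h2, ← h1]
    have h3 := h.cfg.three_M (bar (⟨x, hx⟩ : ↥Q))
    have h4 : bar (⟨x, hx⟩ : ↥Q) + bar (⟨x, hx⟩ : ↥Q) = - bar (⟨x, hx⟩ : ↥Q) := eq_neg_of_add_eq_zero_left h3
    rw [← neg_add, h4, neg_neg]
  -- `s ^ 3 = 1`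
  have hs3 : (s : G) * s * s = 1 := by
    obtain ⟨ab, hab, habb⟩ := mem_barS.1 hbW
    set a1 : G := (t : G) * ab * (t : G)⁻¹ * (ab : G)⁻¹ with ha1
    have hnA : ∀ g : G, ∀ a ∈ A, g * a * g⁻¹ ∈ A := fun g a ha => hAn.conj_mem a ha g
    have ha1A : a1 ∈ A := A.mul_mem (hnA t _ hab) (A.inv_mem hab)
    have ha1b : bar (⟨a1, h.AQ ha1A⟩ : ↥Q) = b := by
      obtain ⟨_, h1⟩ := hlift ab ab.2
      rw [← habb]
      exact h1 ab.2
    have hinvt : ∀ x ∈ A, (t : G) * ((t : G) * x * (t : G)⁻¹ * x⁻¹) * (t : G)⁻¹ =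
        ((t : G) * x * (t : G)⁻¹ * x⁻¹)⁻¹ := by
      intro x hx
      have h1 := h.commA _ (hnA t x hx) x⁻¹ (A.inv_mem hx)
      have h2 : (t : G) * ((t : G) * x * (t : G)⁻¹ * x⁻¹) * (t : G)⁻¹
          = ((t : G) * (t : G)) * x * ((t : G) * (t : G))⁻¹ * ((t : G) * x * (t : G)⁻¹)⁻¹ := by group
      rw [h2, htt']
      group
    have ha1t : (t : G) * a1 * (t : G)⁻¹ = a1⁻¹ := hinvt ab hab
    have ha1ne : a1 ≠ 1 := by
      intro h1
      apply hb0
      rw [← ha1b]
      rw [h.cfg.bar_eq_zero_iff]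
      show a1 ∈ Z
      rw [h1]; exact Z.one_mem
    -- `[A, s] ≤ ⟨a1⟩`
    have hclaim : ∀ a ∈ A, (s : G) * a * (s : G)⁻¹ * a⁻¹ ∈ zpowers a1 := by
      intro a ha
      set a' : G := (t : G) * a * (t : G)⁻¹ * a⁻¹ with ha'
      have ha'A : a' ∈ A := A.mul_mem (hnA t _ ha) (A.inv_mem ha)
      have ha't : (t : G) * a' * (t : G)⁻¹ = a'⁻¹ := hinvt a ha
      have ha'b : bar (⟨a', h.AQ ha'A⟩ : ↥Q) = bar ⟨a, h.AQ ha⟩ := by
        obtain ⟨_, h1⟩ := hlift a (h.AQ ha)
        exact h1 (h.AQ ha)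
      have hz' : a * a'⁻¹ ∈ Z := (h.cfg.bar_eq_iff ⟨a, h.AQ ha⟩ ⟨a', h.AQ ha'A⟩).1 ha'b.symm
      set z' := a * a'⁻¹ with hz'_def
      have haz : a = z' * a' := by rw [hz'_def]; group
      have hsz : (s : G) * z' * (s : G)⁻¹ = z' := by
        rw [Loc43.comm_of_center hz' s.2]; group
      have e1 : (s : G) * a * (s : G)⁻¹ * a⁻¹ = (s : G) * a' * (s : G)⁻¹ * a'⁻¹ := by
        have h1 : (s : G) * a * (s : G)⁻¹ * a⁻¹ = (s * z' * (s : G)⁻¹) * ((s : G) * a' * (s : G)⁻¹ * a'⁻¹) * z'⁻¹ := by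
          rw [haz]; group
        rw [h1, hsz]
        have h2 : (s : G) * a' * (s : G)⁻¹ * a'⁻¹ ∈ centralizer (Z : Set G) :=
          hQC (h.AQ (A.mul_mem (hnA s _ ha'A) (A.inv_mem ha'A)))
        have h3 := Loc43.comm_of_center hz' h2
        rw [← h3]; group
      rw [e1]
      set c : G := (s : G) * a' * (s : G)⁻¹ * a'⁻¹ with hc
      have hcA : c ∈ A := A.mul_mem (hnA s _ ha'A) (A.inv_mem ha'A)
      have hcb : ∃ l : ℤ, bar (⟨c, h.AQ hcA⟩ : ↥Q) = l • b := by
        obtain ⟨l, hl⟩ := hUW (bar ⟨a', h.AQ ha'A⟩) ((h.cfg.bar_mem_barS h.ZA _).2 ha'A)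
        refine ⟨l, ?_⟩
        have h1 : bar (⟨c, h.AQ hcA⟩ : ↥Q) = h.cfg.actC s (bar ⟨a', h.AQ ha'A⟩) + - bar ⟨a', h.AQ ha'A⟩ := by
          rw [h.cfg.actC_bar s ⟨a', h.AQ ha'A⟩ ⟨(s : G) * a' * (s : G)⁻¹, h.cfg.normQ' s.2 (h.AQ ha'A)⟩ rfl,
            ← bar_inv, ← bar_mul]
          rfl
        rw [h1, hsact, hl]; abel
      obtain ⟨l, hl⟩ := hcb
      have hct : (t : G) * c * (t : G)⁻¹ = c⁻¹ := by
        have h1 := h.commA _ (hnA s _ (A.inv_mem ha'A)) _ ha'A
        calc (t : G) * c * (t : G)⁻¹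
            = (t * s * (t : G)⁻¹) * (t * a' * (t : G)⁻¹) * (t * s * (t : G)⁻¹)⁻¹ * (t * a' * (t : G)⁻¹)⁻¹ := by
              rw [hc]; group
          _ = s * a'⁻¹ * (s : G)⁻¹ * a' := by rw [hst', ha't, inv_inv]
          _ = a' * (s * a'⁻¹ * (s : G)⁻¹) := h1
          _ = c⁻¹ := by rw [hc]; group
      -- `c a1^{-l}` is in `Z` and inverted by `t`
      have hy : c * (a1 ^ l)⁻¹ = 1 := by
        have hyA : c * (a1 ^ l)⁻¹ ∈ A := A.mul_mem hcA (A.inv_mem (A.zpow_mem ha1A l))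
        have hyZ : c * (a1 ^ l)⁻¹ ∈ Z := by
          have h1 : bar (⟨a1 ^ l, h.AQ (A.zpow_mem ha1A l)⟩ : ↥Q) = l • b := by
            rw [← ha1b]
            have : (⟨a1 ^ l, h.AQ (A.zpow_mem ha1A l)⟩ : ↥Q) = ⟨a1, h.AQ ha1A⟩ ^ l := rfl
            rw [this]
            unfold bar
            rw [map_zpow]; rfl
          exact (h.cfg.bar_eq_iff ⟨c, h.AQ hcA⟩ ⟨a1 ^ l, h.AQ (A.zpow_mem ha1A l)⟩).1 (by rw [hl, h1])
        have h1 : (t : G) * (c * (a1 ^ l)⁻¹) * (t : G)⁻¹ = c * (a1 ^ l)⁻¹ := by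
          rw [Loc43.comm_of_center hyZ t.2]; group
        have h2 : (t : G) * (a1 ^ l) * (t : G)⁻¹ = (a1 ^ l)⁻¹ := by
          rw [← conj_zpow, ha1t, inv_zpow]
        have h3 : (t : G) * (c * (a1 ^ l)⁻¹) * (t : G)⁻¹ = (c * (a1 ^ l)⁻¹)⁻¹ := by
          calc (t : G) * (c * (a1 ^ l)⁻¹) * (t : G)⁻¹
              = (t * c * (t : G)⁻¹) * ((t : G) * (a1 ^ l) * (t : G)⁻¹)⁻¹ := by group
            _ = c⁻¹ * (a1 ^ l) := by rw [hct, h2, inv_inv]
            _ = (a1 ^ l) * c⁻¹ := h.commA _ (A.inv_mem hcA) _ (A.zpow_mem ha1A l)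
            _ = (c * (a1 ^ l)⁻¹)⁻¹ := by group
        exact no2 _ (h.expA hyA) (by rw [h1] at h3; exact h3)
      exact ⟨l, (mul_inv_eq_one.1 hy).symm⟩
    obtain ⟨z, hz, hz1, htr⟩ := h.trans
    obtain ⟨n, hn, hna1⟩ := htr a1 ha1A ha1ne
    set s1 : G := n⁻¹ * s * n with hs1
    have hs1A : ∀ a ∈ A, s1 * a * s1⁻¹ * a⁻¹ ∈ Z := by
      intro a ha
      obtain ⟨l, hl⟩ := hclaim _ (hnA n a ha)
      have hl' : a1 ^ l = (s : G) * (n * a * n⁻¹) * (s : G)⁻¹ * (n * a * n⁻¹)⁻¹ := hl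
      have h1 : s1 * a * s1⁻¹ * a⁻¹ = n⁻¹ * ((s : G) * (n * a * n⁻¹) * (s : G)⁻¹ * (n * a * n⁻¹)⁻¹) * n := by
        rw [hs1]; group
      rw [h1, ← hl', ← hna1, conj_zpow]
      have : n⁻¹ * (n * z ^ l * n⁻¹) * n = z ^ l := by group
      rw [this]
      exact Z.zpow_mem hz l
    have hs9 : (s : G) ^ 9 = 1 := by
      have h1 : ((s : G) * s * s) * (s * s * s) * (s * s * s) = 1 := hexp _ (h.cfg.le hs3Z)
      rw [← h1]; simp only [pow_succ, pow_zero, one_mul, mul_assoc]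
    have hs1Z : s1 ∈ centralizer (Z : Set G) := by
      have h1 := hs1A z (h.ZA hz)
      have h2 : s1 * z * s1⁻¹ ∈ Z := by
        have := Z.mul_mem h1 hz
        rwa [inv_mul_cancel_right] at this
      have h3 : s1 * z * s1⁻¹ ≠ 1 := by
        intro h4; apply hz1
        calc z = s1⁻¹ * (s1 * z * s1⁻¹) * s1 := by group
          _ = 1 := by rw [h4]; group
      have h4 : s1 * z * s1⁻¹ = z := by
        rcases Two.eq_or_inv h.cfg.cardZ h2 hz h3 hz1 with h4 | h4
        · exact h4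
        · exfalso
          have h5 : s1 ^ 9 = 1 := by
            have : s1 ^ 9 = n⁻¹ * (s : G) ^ 9 * n := by
              rw [hs1]
              have := conj_pow (i := 9) (a := n⁻¹) (b := (s : G))
              rw [inv_inv] at this
              exact this
            rw [this, hs9]; group
          have h6 : ∀ w : G, w = z ∨ w = z⁻¹ → s1 * w * s1⁻¹ = w⁻¹ := by
            rintro w (rfl | rfl)
            · exact h4
            · have := congrArg (·⁻¹) h4
              simp only [mul_inv_rev, inv_inv] at this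
              rw [← mul_assoc] at this
              rw [inv_inv]; exact this
          have h7 : s1 * (s1 * z * s1⁻¹) * s1⁻¹ = z := by rw [h4, h6 _ (Or.inr rfl), inv_inv]
          have h8 : (s1 * s1) * z = z * (s1 * s1) := by
            calc (s1 * s1) * z = s1 * (s1 * z * s1⁻¹) * s1⁻¹ * (s1 * s1) := by group
              _ = z * (s1 * s1) := by rw [h7]
          have h9 : Commute ((s1 * s1) ^ 4) z := (show Commute (s1 * s1) z from h8).pow_left 4
          have h10 : s1 * (s1 * s1) ^ 4 = 1 := by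
            rw [← h5]; simp only [pow_succ, pow_zero, one_mul, mul_assoc]
          have h11 : s1 = ((s1 * s1) ^ 4)⁻¹ := eq_inv_of_mul_eq_one_left h10
          have h12 : s1 * z * s1⁻¹ = z := by
            rw [h11, (h9.inv_left).eq]; group
          rw [h12] at h4
          exact hz1 (no2 z (hexp z (h.cfg.le hz)) h4)
      rw [Subgroup.mem_centralizer_iff]
      intro w hw
      by_cases hw1 : w = 1
      · rw [hw1]; simp
      have h5 : s1 * z = z * s1 := by
        calc s1 * z = s1 * z * s1⁻¹ * s1 := by group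
          _ = z * s1 := by rw [h4]
      rcases Two.eq_or_inv h.cfg.cardZ hw hz hw1 hz1 with h3 | h3
      · rw [h3]; exact h5.symm
      · rw [h3]
        have : Commute s1 z := h5
        exact this.symm.inv_left
    have hs1Q : s1 ∈ Q := by
      apply h.faithful hπ hg ⟨s1, hs1Z⟩
      intro v hv
      obtain ⟨a, ha, rfl⟩ := mem_barS.1 hv
      have h1 : s1 * a * s1⁻¹ ∈ Q := h.cfg.normQ' hs1Z a.2
      rw [h.cfg.actC_bar ⟨s1, hs1Z⟩ a ⟨s1 * a * s1⁻¹, h1⟩ rfl, h.cfg.bar_eq_iff]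
      exact hs1A a ha
    have h1 := hexp s1 hs1Q
    have h2 : s1 * s1 * s1 = n⁻¹ * ((s : G) * s * s) * n := by rw [hs1]; group
    rw [h2] at h1
    calc (s : G) * s * s = n * (n⁻¹ * ((s : G) * s * s) * n) * n⁻¹ := by group
      _ = 1 := by rw [h1]; group
  -- the subgroup `K0`
  have hpc : ∀ x ∈ pre W', ∀ y ∈ pre W', x * y = y * x := by
    rintro x ⟨hx, hxW⟩ y ⟨hy, hyW⟩
    exact (h.cfg.form_bar_eq_zero ⟨x, hx⟩ ⟨y, hy⟩).1 (hW'iso _ hxW _ hyW)
  let K0 : Subgroup G :=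
    { carrier := {x | x ∈ pre W' ∧ (t : G) * x * (t : G)⁻¹ = x⁻¹}
      one_mem' := ⟨(pre W').one_mem, by group⟩
      mul_mem' := by
        rintro x y ⟨hx, hxt⟩ ⟨hy, hyt⟩
        refine ⟨(pre W').mul_mem hx hy, ?_⟩
        calc (t : G) * (x * y) * (t : G)⁻¹ = ((t : G) * x * (t : G)⁻¹) * ((t : G) * y * (t : G)⁻¹) := by group
          _ = x⁻¹ * y⁻¹ := by rw [hxt, hyt]
          _ = (x * y)⁻¹ := by rw [hpc x hx y hy]; group
      inv_mem' := by
        rintro x ⟨hx, hxt⟩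
        refine ⟨(pre W').inv_mem hx, ?_⟩
        calc (t : G) * x⁻¹ * (t : G)⁻¹ = ((t : G) * x * (t : G)⁻¹)⁻¹ := by group
          _ = x⁻¹⁻¹ := by rw [hxt] }
  have hK0 : ∀ x, x ∈ K0 ↔ x ∈ pre W' ∧ (t : G) * x * (t : G)⁻¹ = x⁻¹ := fun x => Iff.rfl
  have hK0s : ∀ c : ↥(centralizer (Z : Set G)), (t : G) * c * (t : G)⁻¹ = c → ∀ x ∈ K0, (c : G) * x * (c : G)⁻¹ ∈ K0 := by
    intro c hct x hx
    obtain ⟨hx1, hx2⟩ := (hK0 x).1 hx
    refine (hK0 _).2 ⟨h.cfg.pre_inv hW'inv c c.2 x hx1, ?_⟩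
    calc (t : G) * ((c : G) * x * (c : G)⁻¹) * (t : G)⁻¹
        = ((t : G) * c * (t : G)⁻¹) * ((t : G) * x * (t : G)⁻¹) * ((t : G) * c * (t : G)⁻¹)⁻¹ := by group
      _ = (c : G) * x⁻¹ * (c : G)⁻¹ := by rw [hct, hx2]
      _ = ((c : G) * x * (c : G)⁻¹)⁻¹ := by group
  have hs3' : (s : G) ^ (3 : ℤ) = 1 := by
    rw [show (3 : ℤ) = ((3 : ℕ) : ℤ) by norm_num, zpow_natCast, pow_succ, pow_two]; exact hs3
  have hsK : ∀ n : ℤ, ∀ x ∈ K0, (s : G) ^ n * x * ((s : G) ^ n)⁻¹ ∈ K0 := by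
    intro n x hx
    have h1 : (t : G) * ((s ^ n : ↥(centralizer (Z : Set G))) : G) * (t : G)⁻¹ =
        ((s ^ n : ↥(centralizer (Z : Set G))) : G) := by
      rw [Subgroup.coe_zpow, ← conj_zpow, hst']
    have h2 := hK0s (s ^ n) h1 x hx
    rwa [Subgroup.coe_zpow] at h2
  -- the subgroup `T`
  let T : Subgroup G :=
    { carrier := {g | ∃ k ∈ K0, ∃ n : ℤ, g = k * (s : G) ^ n}
      one_mem' := ⟨1, K0.one_mem, 0, by simp⟩
      mul_mem' := by
        rintro _ _ ⟨k, hk, n, rfl⟩ ⟨k', hk', n', rfl⟩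
        refine ⟨k * ((s : G) ^ n * k' * ((s : G) ^ n)⁻¹), K0.mul_mem hk (hsK n k' hk'), n + n', ?_⟩
        rw [zpow_add]; group
      inv_mem' := by
        rintro _ ⟨k, hk, n, rfl⟩
        refine ⟨(s : G) ^ (-n) * k⁻¹ * ((s : G) ^ (-n))⁻¹, hsK (-n) _ (K0.inv_mem hk), -n, ?_⟩
        rw [zpow_neg]; group }
  have hT : ∀ g, g ∈ T ↔ ∃ k ∈ K0, ∃ n : ℤ, g = k * (s : G) ^ n := fun g => Iff.rfl
  have hAT : T ⊓ A = ⊥ := by
    rw [eq_bot_iff]
    rintro g ⟨hgT, hgA⟩
    obtain ⟨k, hk, n, rfl⟩ := (hT g).1 hgT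
    have hkQ : k ∈ Q := ((hK0 k).1 hk).1.1
    have hsn : ((s ^ n : ↥(centralizer (Z : Set G))) : G) ∈ Q := by
      rw [Subgroup.coe_zpow]
      have := Q.mul_mem (Q.inv_mem hkQ) (h.AQ hgA)
      rwa [inv_mul_cancel_left] at this
    have h1 := (hπ.ker _).2 hsn
    rw [map_zpow, hsπ] at h1
    have hn3 : n % 3 = 0 := by
      have h2 : u0 ^ (3 : ℤ) = 1 := by
        rw [show (3 : ℤ) = ((3 : ℕ) : ℤ) by norm_num, zpow_natCast, pow_succ, pow_two]; exact r6
      have hn : n % 3 = 0 ∨ n % 3 = 1 ∨ n % 3 = 2 := by omega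
      rcases hn with h3 | h3 | h3
      · exact h3
      · exfalso
        rw [show n = 3 * (n / 3) + 1 by omega, zpow_add, zpow_mul, h2, one_zpow, one_mul, zpow_one] at h1
        revert h1; decide
      · exfalso
        rw [show n = 3 * (n / 3) + 1 + 1 by omega, zpow_add, zpow_add, zpow_mul, h2, one_zpow, one_mul, zpow_one] at h1
        revert h1; decide
    have hsn1 : (s : G) ^ n = 1 := by
      rw [show n = 3 * (n / 3) by omega, zpow_mul, hs3', one_zpow]
    rw [hsn1, mul_one] at hgA ⊢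
    obtain ⟨⟨hkQ', hkW⟩, hkt⟩ := (hK0 k).1 hk
    have h2 := hW'int _ hkW ((h.cfg.bar_mem_barS h.ZA _).2 hgA)
    have hkZ : k ∈ Z := (h.cfg.bar_eq_zero_iff ⟨k, hkQ'⟩).1 h2
    have h4 : (t : G) * k * (t : G)⁻¹ = k := by
      rw [Loc43.comm_of_center hkZ t.2]; group
    rw [h4] at hkt
    exact no2 k (h.expA hgA) hkt
  -- `Q ≤ A ⊔ T`
  have hQU : Q ≤ A ⊔ T := by
    intro q hq
    obtain ⟨w, hw, x, hx, hwx⟩ := hspan (bar ⟨q, hq⟩)
    obtain ⟨a, ha, rfl⟩ := mem_barS.1 hw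
    have h1 : (a : G)⁻¹ * q ∈ Q := Q.mul_mem (Q.inv_mem a.2) hq
    have h2 : bar (⟨(a : G)⁻¹ * q, h1⟩ : ↥Q) = x := by
      have : (⟨(a : G)⁻¹ * q, h1⟩ : ↥Q) = a⁻¹ * ⟨q, hq⟩ := rfl
      rw [this, bar_mul, bar_inv, hwx]; abel
    obtain ⟨hk, hkb⟩ := hlift _ h1
    set k : G := (t : G) * ((a : G)⁻¹ * q) * (t : G)⁻¹ * ((a : G)⁻¹ * q)⁻¹ with hkdef
    have hpre : (a : G)⁻¹ * q ∈ pre W' := ⟨h1, by rw [h2]; exact hx⟩
    have hkK : k ∈ K0 := by
      refine (hK0 k).2 ⟨⟨hk, by rw [hkb h1, h2]; exact hx⟩, ?_⟩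
      have h3 := hpc _ (h.cfg.pre_inv hW'inv t t.2 _ hpre) _ ((pre W').inv_mem hpre)
      have h4 : (t : G) * k * (t : G)⁻¹
          = ((t : G) * (t : G)) * ((a : G)⁻¹ * q) * ((t : G) * (t : G))⁻¹ *
            ((t : G) * ((a : G)⁻¹ * q) * (t : G)⁻¹)⁻¹ := by
        rw [hkdef]; group
      rw [h4, htt', hkdef]; group
    have hz : (a : G)⁻¹ * q * k⁻¹ ∈ Z :=
      (h.cfg.bar_eq_iff ⟨(a : G)⁻¹ * q, h1⟩ ⟨k, hk⟩).1 (hkb h1).symm
    have h5 : q = (a * ((a : G)⁻¹ * q * k⁻¹)) * k := by group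
    rw [h5]
    exact Subgroup.mul_mem_sup (A.mul_mem ha (h.ZA hz)) ((hT k).2 ⟨k, hkK, 0, by simp⟩)
  have hsU : (s : G) ∈ A ⊔ T := by
    apply (le_sup_right : T ≤ A ⊔ T)
    exact (hT _).2 ⟨1, K0.one_mem, 1, by simp⟩
  have hUC : A ⊔ T ≤ centralizer (Z : Set G) := by
    apply sup_le (h.AQ.trans hQC)
    rintro _ ⟨k, hk, n, rfl⟩
    exact (centralizer (Z : Set G)).mul_mem (hQC ((hK0 k).1 hk).1.1) ((centralizer (Z : Set G)).zpow_mem s.2 n)
  have h729 : 729 ∣ Nat.card ↥(A ⊔ T) := by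
    have hrel : 3 ∣ Q.relIndex (A ⊔ T) := by
      let f : ↥(A ⊔ T) →* S3 := π.comp (Subgroup.inclusion hUC)
      have h1 : f.ker = Q.subgroupOf (A ⊔ T) := by
        ext x
        rw [MonoidHom.mem_ker, Subgroup.mem_subgroupOf]
        exact hπ.ker _
      have h2 : Q.relIndex (A ⊔ T) = Nat.card ↥f.range := by
        rw [← Subgroup.index_ker, h1]; rfl
      rw [h2]
      have h3 : zpowers u0 ≤ f.range := by
        rw [Subgroup.zpowers_le]
        exact ⟨⟨s, hsU⟩, hsπ⟩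
      have h4 : Nat.card ↥(zpowers u0) = 3 := by
        rw [Nat.card_zpowers]
        apply orderOf_eq_prime
        · rw [pow_succ, pow_two]; exact r6
        · decide
      have h5 := Subgroup.card_dvd_of_le h3
      rwa [h4] at h5
    have h1 := Subgroup.relIndex_mul_relIndex (⊥ : Subgroup G) Q (A ⊔ T) bot_le hQU
    rw [Subgroup.relIndex_bot_left, Subgroup.relIndex_bot_left, h.cfg.cardQ] at h1
    obtain ⟨k, hk⟩ := hrel
    rw [hk] at h1
    exact ⟨k, by rw [← h1]; ring⟩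
  have hidx : (Nat.card ↥A).Coprime (A ⊔ T).index := by
    have h1 := Subgroup.card_mul_index (A ⊔ T)
    rw [hcardG] at h1
    obtain ⟨k, hk⟩ := h729
    rw [hk] at h1
    have h2 : k * (A ⊔ T).index = 208 := by
      have : 729 * (k * (A ⊔ T).index) = 729 * 208 := by rw [← mul_assoc, h1]
      omega
    have h3 : (A ⊔ T).index ∣ 208 := ⟨k, by rw [← h2, mul_comm]⟩
    rw [h.cardA]
    exact Nat.Coprime.coprime_dvd_right h3 (by norm_num)
  have hAm : IsMulCommutative ↥A := ⟨⟨fun a b => Subtype.ext (h.commA a a.2 b b.2)⟩⟩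
  exact Cfsg.Agent.S0051.result A (A ⊔ T) le_sup_left hidx T le_sup_right hAT rfl

end Cfsg.Agent.H352.L43

private theorem dce_04d1b9a05ce9 : _root_.True := by
  try have : _root_.True := by simp only [_root_.Cfsg.Agent.H352.L43.Cfg.form.congr_simp]
  exact _root_.True.intro
end

-- part: H352/L43/Embed
section
prune_inst 0x50100300570000000000000020001e72b2000002000b0000c100010205c98c0300000620b820061201008024003c0028104400090000000000000000411c01a000020200a0480000000010000000000000000000000000000000000000000000000000000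
set_option linter.all false
open scoped Cfsg.Agent.FastGrp

/-!
# `3^3 : SL(3,3)` is a maximal subgroup of `PSL(4,3)` (helper352)
-/

set_option autoImplicit false

namespace Cfsg.Agent.H352.L43

open Matrix

/-- `SL(4,3)` -/
abbrev SL43 := SpecialLinearGroup (Fin 4) (ZMod 3)
/-- `PSL(4,3)` -/
abbrev PSL43 := ProjectiveSpecialLinearGroup (Fin 4) (ZMod 3)

instance : Fact (Nat.Prime 3) := ⟨Nat.prime_three⟩

theorem card_PSL43 : Nat.card PSL43 = 6065280 := by
  have h := Cfsg.Agent.S0243.result (F := ZMod 3) (q := 3) (ZMod.card 3) 4 (by norm_num)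
  rw [Fin.prod_univ_four] at h
  generalize Nat.card (ProjectiveSpecialLinearGroup (Fin 4) (ZMod 3)) = n at h ⊢
  norm_num at h
  omega

/-- the affine matrix -/
def aff (M : Matrix (Fin 3) (Fin 3) (ZMod 3)) (v : V3) : Matrix (Fin 4) (Fin 4) (ZMod 3) :=
  Matrix.reindexAlgEquiv (ZMod 3) (ZMod 3) (finSumFinEquiv : Fin 3 ⊕ Fin 1 ≃ Fin 4)
    (Matrix.fromBlocks M (Matrix.of fun i _ => v i) 0 1)

theorem aff_mul (M M' : Matrix (Fin 3) (Fin 3) (ZMod 3)) (v v' : V3) :
    aff M v * aff M' v' = aff (M * M') (M *ᵥ v' + v) := by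
  unfold aff
  rw [← map_mul, Matrix.fromBlocks_multiply]
  congr 1
  simp only [Matrix.zero_mul, Matrix.mul_zero, Matrix.mul_one, add_zero, zero_add, mul_one]
  congr 1

theorem aff_one : aff 1 0 = 1 := by
  unfold aff
  have : Matrix.fromBlocks (1 : Matrix (Fin 3) (Fin 3) (ZMod 3)) (Matrix.of fun i _ => (0 : V3) i) 0
      (1 : Matrix (Fin 1) (Fin 1) (ZMod 3)) = 1 := by
    rw [← Matrix.fromBlocks_one]
    congr 1
  rw [this, map_one]

theorem aff_det (M : Matrix (Fin 3) (Fin 3) (ZMod 3)) (v : V3) : (aff M v).det = M.det := by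
  unfold aff
  rw [Matrix.det_reindexAlgEquiv, Matrix.det_fromBlocks_zero₂₁, Matrix.det_one, mul_one]

theorem aff_injective {M M' : Matrix (Fin 3) (Fin 3) (ZMod 3)} {v v' : V3} (h : aff M v = aff M' v') :
    M = M' ∧ v = v' := by
  have h1 := (Matrix.reindexAlgEquiv (ZMod 3) (ZMod 3) (finSumFinEquiv : Fin 3 ⊕ Fin 1 ≃ Fin 4)).injective h
  rw [Matrix.fromBlocks_inj] at h1
  refine ⟨h1.1, ?_⟩
  funext i
  exact congrFun (congrFun h1.2.1 i) 0

/-- the last vector -/
def e4 : Fin 4 → ZMod 3 := fun i => if i = 3 then 1 else 0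

theorem aff_last (M : Matrix (Fin 3) (Fin 3) (ZMod 3)) (v : V3) : e4 ᵥ* aff M v = e4 := by
  funext j
  have : ∀ j : Fin 4, aff M v 3 j = e4 j := by
    intro j
    have h3 : (finSumFinEquiv : Fin 3 ⊕ Fin 1 ≃ Fin 4).symm 3 = Sum.inr 0 := by decide
    show Matrix.fromBlocks M (Matrix.of fun i _ => v i) 0 1 ((finSumFinEquiv : Fin 3 ⊕ Fin 1 ≃ Fin 4).symm 3)
      ((finSumFinEquiv : Fin 3 ⊕ Fin 1 ≃ Fin 4).symm j) = e4 j
    rw [h3]
    fin_cases j
    · rfl
    · rfl
    · rfl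
    · rfl
  rw [← this j]
  unfold e4
  simp [Matrix.vecMul, dotProduct]

/-- inverse transpose -/
def itr : SL43 →* SL43 where
  toFun s := ⟨(s⁻¹).1ᵀ, by rw [Matrix.det_transpose]; exact (s⁻¹).2⟩
  map_one' := Subtype.ext (by simp)
  map_mul' s t := Subtype.ext (by
    show ((s * t)⁻¹).1ᵀ = (s⁻¹).1ᵀ * (t⁻¹).1ᵀ
    rw [_root_.mul_inv_rev, ← Matrix.transpose_mul]
    rfl)

/-- the affine map as an element of `SL(4,3)` -/
def affS (M : SL33) (v : V3) : SL43 := ⟨aff M.1 v, by rw [aff_det]; exact M.2⟩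

theorem e4_ne : e4 ≠ 0 := by
  intro h
  have := congrFun h 3
  revert this
  decide

/-- the point fixed by the parabolic -/
def pt : Projectivization (ZMod 3) (Fin 4 → ZMod 3) := Projectivization.mk (ZMod 3) e4 e4_ne

theorem card_proj : Nat.card (Projectivization (ZMod 3) (Fin 4 → ZMod 3)) = 40 := by
  have h := Projectivization.card (ZMod 3) (Fin 4 → ZMod 3)
  rw [Nat.card_zmod, Nat.card_eq_fintype_card (α := Fin 4 → ZMod 3), Fintype.card_fun, ZMod.card, Fintype.card_fin] at h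
  norm_num at h
  omega

theorem affS_smul (M : SL33) (v : V3) : itr (affS M v) • pt = pt := by
  have h1 : (affS M v)⁻¹.1ᵀ *ᵥ e4 = e4 := by
    rw [Matrix.mulVec_transpose]
    have h2 : e4 ᵥ* (affS M v).1 = e4 := aff_last _ _
    calc e4 ᵥ* (affS M v)⁻¹.1 = (e4 ᵥ* (affS M v).1) ᵥ* (affS M v)⁻¹.1 := by rw [h2]
      _ = e4 ᵥ* ((affS M v).1 * (affS M v)⁻¹.1) := by rw [Matrix.vecMul_vecMul]
      _ = e4 := by
        have : (affS M v).1 * (affS M v)⁻¹.1 = (1 : Matrix (Fin 4) (Fin 4) (ZMod 3)) := by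
          rw [← Matrix.SpecialLinearGroup.coe_mul, mul_inv_cancel, Matrix.SpecialLinearGroup.coe_one]
        rw [this, Matrix.vecMul_one]
  unfold pt
  rw [Projectivization.smul_mk, Projectivization.mk_eq_mk_iff']
  refine ⟨1, ?_⟩
  rw [one_smul]
  exact h1.symm

/-- **A group of shape `3^3 : SL(3,3)` is isomorphic to a maximal subgroup of `PSL(4,3)`.** -/
theorem exists_parabolic {G : Type*} [Group G] [Finite G] (hcard : Nat.card G = 151632) {A H : Subgroup G}
    (hn : A.Normal) (hAH : Subgroup.IsComplement' A H) (E : ↥A ≃ V3) (Φ : G →* SL33)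
    (hE : ∀ a b, E (a * b) = E a + E b) (hker : ∀ g, Φ g = 1 ↔ g ∈ A)
    (hact : ∀ (g : G) (a b : ↥A), (b : G) = g * a * g⁻¹ → E b = (Φ g).1.mulVec (E a)) :
    ∃ P : Subgroup PSL43, IsCoatom P ∧ Nonempty (G ≃* ↥P) := by
  -- the decomposition
  have hdec : ∀ g : G, ∃ a : ↥A, (a : G)⁻¹ * g ∈ H := by
    intro g
    have h1 : g ∈ A ⊔ H := by rw [hAH.sup_eq_top]; trivial
    obtain ⟨a, ha, h, hh, rfl⟩ := (Subgroup.mem_sup_of_normal_left).1 h1
    exact ⟨⟨a, ha⟩, by simpa using hh⟩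
  choose pa hpa using hdec
  have huni : ∀ (g : G) (a : ↥A), (a : G)⁻¹ * g ∈ H → pa g = a := by
    intro g a ha
    have h1 : (a : G)⁻¹ * (pa g : G) ∈ H := by
      have := H.mul_mem ha (H.inv_mem (hpa g))
      have e : (a : G)⁻¹ * g * ((pa g : G)⁻¹ * g)⁻¹ = (a : G)⁻¹ * (pa g : G) := by group
      rwa [e] at this
    have h2 : (a : G)⁻¹ * (pa g : G) ∈ A ⊓ H := ⟨A.mul_mem (A.inv_mem a.2) (pa g).2, h1⟩
    rw [hAH.disjoint.eq_bot, Subgroup.mem_bot] at h2
    apply Subtype.ext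
    calc (pa g : G) = a * ((a : G)⁻¹ * pa g) := by group
      _ = a := by rw [h2, mul_one]
  have hE1 : E 1 = 0 := by
    have := hE 1 1
    rw [mul_one] at this
    simpa using this
  have hmul : ∀ g g' : G, E (pa (g * g')) = (Φ g).1 *ᵥ E (pa g') + E (pa g) := by
    intro g g'
    set h := (pa g : G)⁻¹ * g with hh
    have hhH : h ∈ H := hpa g
    have hb : h * (pa g' : G) * h⁻¹ ∈ A := hn.conj_mem _ (pa g').2 h
    have h1 : pa (g * g') = pa g * ⟨h * (pa g' : G) * h⁻¹, hb⟩ := by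
      apply huni
      have e : ((pa g * ⟨h * (pa g' : G) * h⁻¹, hb⟩ : ↥A) : G)⁻¹ * (g * g') = h * ((pa g' : G)⁻¹ * g') := by
        show ((pa g : G) * (h * (pa g' : G) * h⁻¹))⁻¹ * (g * g') = _
        rw [hh]; group
      rw [e]
      exact H.mul_mem hhH (hpa g')
    have h2 : Φ h = Φ g := by
      rw [hh, map_mul, (hker _).2 (A.inv_mem (pa g).2), one_mul]
    rw [h1, hE, hact h (pa g') ⟨h * (pa g' : G) * h⁻¹, hb⟩ rfl, h2, add_comm]
  let F : G →* SL43 :=
    { toFun := fun g => affS (Φ g) (E (pa g))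
      map_one' := by
        apply Subtype.ext
        show aff (Φ 1).1 (E (pa 1)) = 1
        have h1 : pa 1 = 1 := huni 1 1 (by simp)
        rw [map_one, h1, hE1]
        exact aff_one
      map_mul' := fun g g' => by
        apply Subtype.ext
        show aff (Φ (g * g')).1 (E (pa (g * g'))) = aff (Φ g).1 (E (pa g)) * aff (Φ g').1 (E (pa g'))
        rw [aff_mul, map_mul, hmul]; rfl }
  let F' : G →* PSL43 := (QuotientGroup.mk' _).comp (itr.comp F)
  have hinj : Function.Injective F' := by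
    rw [injective_iff_map_eq_one]
    intro g hg
    have h1 : itr (F g) ∈ Subgroup.center SL43 := (QuotientGroup.eq_one_iff _).1 hg
    obtain ⟨r, hr, hrg⟩ := Matrix.SpecialLinearGroup.mem_center_iff.1 h1
    -- the scalar is `1`
    have h2 : ((F g)⁻¹).1 = scalar (Fin 4) r := by
      have h3 : ((F g)⁻¹).1ᵀ = scalar (Fin 4) r := hrg.symm
      calc ((F g)⁻¹).1 = (((F g)⁻¹).1ᵀ)ᵀ := (Matrix.transpose_transpose _).symm
        _ = scalar (Fin 4) r := by rw [h3]; simp
    have h4 : e4 ᵥ* (F g).1 = e4 := aff_last _ _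
    have h5 : e4 ᵥ* ((F g)⁻¹).1 = e4 := by
      calc e4 ᵥ* (F g)⁻¹.1 = (e4 ᵥ* (F g).1) ᵥ* (F g)⁻¹.1 := by rw [h4]
        _ = e4 ᵥ* ((F g).1 * (F g)⁻¹.1) := by rw [Matrix.vecMul_vecMul]
        _ = e4 := by
          have : (F g).1 * (F g)⁻¹.1 = (1 : Matrix (Fin 4) (Fin 4) (ZMod 3)) := by
            rw [← Matrix.SpecialLinearGroup.coe_mul, mul_inv_cancel, Matrix.SpecialLinearGroup.coe_one]
          rw [this, Matrix.vecMul_one]
    have hr1 : r = 1 := by
      rw [h2] at h5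
      have h6 := congrFun h5 3
      simpa [e4, Matrix.vecMul, dotProduct, Matrix.scalar_apply, Matrix.diagonal_apply] using h6
    have h7 : (F g)⁻¹ = 1 := by
      apply Subtype.ext
      rw [h2, hr1]; simp
    have h8 : F g = 1 := inv_eq_one.1 h7
    have h9 : aff (Φ g).1 (E (pa g)) = aff 1 0 := by rw [aff_one]; exact congrArg Subtype.val h8
    obtain ⟨h10, h11⟩ := aff_injective h9
    have hgA : g ∈ A := (hker g).1 (Subtype.ext h10)
    have h12 : pa g = ⟨g, hgA⟩ := huni g ⟨g, hgA⟩ (by simp)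
    rw [h12] at h11
    have h13 : (⟨g, hgA⟩ : ↥A) = 1 := E.injective (by rw [h11, hE1])
    exact congrArg Subtype.val h13
  have hfinPSL : Finite PSL43 := Nat.finite_of_card_ne_zero (by rw [card_PSL43]; norm_num)
  have hfinproj : Finite (Projectivization (ZMod 3) (Fin 4 → ZMod 3)) :=
    Nat.finite_of_card_ne_zero (by rw [card_proj]; norm_num)
  let P : Subgroup PSL43 := MulAction.stabilizer PSL43 pt
  have hPcard : Nat.card ↥P = 151632 := by
    have h1 := Subgroup.card_mul_index P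
    have h2 : P.index = 40 := by
      rw [← card_proj]
      exact MulAction.index_stabilizer_of_transitive PSL43 pt
    rw [h2, card_PSL43] at h1
    omega
  have hle : F'.range ≤ P := by
    rintro _ ⟨g, rfl⟩
    show F' g • pt = pt
    have : F' g • pt = itr (F g) • pt := Matrix.ProjectiveSpecialLinearGroup.smul_proj_mk _ _
    rw [this]
    exact affS_smul _ _
  have heq : F'.range = P := by
    apply Subgroup.eq_of_le_of_card_ge hle
    rw [hPcard, ← hcard]
    exact (Nat.card_congr (MonoidHom.ofInjective hinj).toEquiv).le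
  have hnt : Nontrivial (Projectivization (ZMod 3) (Fin 4 → ZMod 3)) := by
    rw [← Finite.one_lt_card_iff_nontrivial, card_proj]; norm_num
  refine ⟨P, MulAction.IsPreprimitive.isCoatom_stabilizer_of_isPreprimitive PSL43 pt, ⟨?_⟩⟩
  exact (MonoidHom.ofInjective hinj).trans (MulEquiv.subgroupCongr heq)

end Cfsg.Agent.H352.L43

private theorem dce_a493dfcd3803 : _root_.True := by
  try have : _root_.True := by simp only [_root_.Cfsg.Agent.H352.L43.e4.eq_1]
  exact _root_.True.intro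
end

-- part: H352/L43/Para
section
set_option linter.all false
open scoped Cfsg.Agent.FastGrp

/-!
# The parabolic case (helper352)
-/

set_option autoImplicit false

namespace Cfsg.Agent.H352.L43

open Subgroup
open Cfsg.Agent.Lib.Cores

variable {G : Type*} [Group G] {Z Q A : Subgroup G}

/-- **If `O_3(G) ≠ 1`, then `G` is a maximal parabolic subgroup of `PSL(4,3)`.** -/
theorem Loc43.parabolic [Finite G] (h : Loc43 Z Q A) {π : ↥(centralizer (Z : Set G)) →* S3} (hπ : Cov Z Q π)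
    (hg : Good h.cfg π) (S : Sylow 3 G)
    (hS : Z = (S : Subgroup G) ⊓ centralizer ((S : Subgroup G) : Set G)) (h3 : Cfsg.pCore 3 G ≠ ⊥) :
    ∃ (P : Subgroup PSL43),
      IsCoatom P ∧ Nat.card (Cfsg.pCore 3 P) = 27 ∧
      Nonempty (P ⧸ Cfsg.pCore 3 P ≃* SL33) ∧ Nonempty (G ≃* P) := by
  have hN := h.normalizer_eq_top S hS h3
  have hA := h.eq_core S hS h3
  obtain ⟨H, hH⟩ := h.exists_complement hπ hg hN
  have hAn : A.Normal := Subgroup.normalizer_eq_top_iff.1 hN
  obtain ⟨E, Φ, hE, hΦs, hΦk, hΦ⟩ := h.exists_Phi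
  have hcard : Nat.card G = 151632 := by
    have := h.card_N
    rw [hN, Subgroup.card_top] at this
    exact this
  let ι : G →* ↥(normalizer (A : Set G)) :=
    { toFun := fun g => ⟨g, by rw [hN]; trivial⟩
      map_one' := rfl
      map_mul' := fun _ _ => rfl }
  have hιs : Function.Surjective ι := fun x => ⟨x, rfl⟩
  obtain ⟨P, hP, ⟨f⟩⟩ := exists_parabolic hcard hAn hH E (Φ.comp ι) hE (fun g => hΦk (ι g))
    (fun g a b hab => hΦ (ι g) a b hab)
  have hm := map_equiv_pCore f 3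
  refine ⟨P, hP, ?_, ?_, ⟨f⟩⟩
  · rw [← hm, ← hA, ← h.cardA]
    exact Nat.card_congr (A.equivMapOfInjective f.toMonoidHom f.injective).toEquiv.symm
  · have hk : (Φ.comp ι).ker = Cfsg.pCore 3 G := by
      rw [← hA]; ext g; exact hΦk (ι g)
    have e1 : G ⧸ (Φ.comp ι).ker ≃* SL33 :=
      QuotientGroup.quotientKerEquivOfSurjective (Φ.comp ι) (hΦs.comp hιs)
    have e2 : G ⧸ Cfsg.pCore 3 G ≃* G ⧸ (Φ.comp ι).ker := QuotientGroup.quotientMulEquivOfEq hk.symm
    have e3 : G ⧸ Cfsg.pCore 3 G ≃* ↥P ⧸ Cfsg.pCore 3 ↥P := QuotientGroup.congr _ _ f hm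
    exact ⟨(e3.symm.trans e2).trans e1⟩

end Cfsg.Agent.H352.L43
end
end
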